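import Cfsg.Agent.Lib.PGroups.ExtraGauss
import Cfsg.Agent.Lib.PGroups.Special

/-!
# 2-groups without normal E8 admitting odd automorphisms: basic tools

The setting `Setup A`: `X` a finite 2-group, `A` an odd-order group of automorphisms with
`[X, A] = X`, and every normal elementary abelian subgroup of `X` of order at most 4.
-/

set_option autoImplicit false
set_option linter.unusedSectionVars false
set_option linter.unusedVariables false

namespace Cfsg.Agent.Lib.NGP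

open Subgroup
open scoped commutatorElement

variable {X : Type*} [Group X]

/-! ### Commutator identities -/

theorem comm_sq (x y : X) : ⁅x * x, y⁆ = x * ⁅x, y⁆ * x⁻¹ * ⁅x, y⁆ := by
  simp only [commutatorElement_def]; group

theorem comm_mul_r {a b c : X} (h : ⁅a, c⁆ ∈ center X) : ⁅a, b * c⁆ = ⁅a, b⁆ * ⁅a, c⁆ := by
  have hz := mem_center_iff.mp h
  have h1 : ⁅a, b * c⁆ = a * b * a⁻¹ * ⁅a, c⁆ * b⁻¹ := by
    simp only [commutatorElement_def]; group
  rw [h1]
  generalize ⁅a, c⁆ = z at hz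
  calc a * b * a⁻¹ * z * b⁻¹ = a * b * a⁻¹ * (z * b⁻¹) := by group
    _ = a * b * a⁻¹ * (b⁻¹ * z) := by rw [hz b⁻¹]
    _ = ⁅a, b⁆ * z := by rw [commutatorElement_def]; group

theorem comm_mul_l {a b c : X} (h : ⁅b, c⁆ ∈ center X) : ⁅a * b, c⁆ = ⁅a, c⁆ * ⁅b, c⁆ := by
  have hz := mem_center_iff.mp h
  have h1 : ⁅a * b, c⁆ = a * ⁅b, c⁆ * c * a⁻¹ * c⁻¹ := by
    simp only [commutatorElement_def]; group
  rw [h1]
  generalize ⁅b, c⁆ = z at hz
  calc a * z * c * a⁻¹ * c⁻¹ = (a * z) * c * a⁻¹ * c⁻¹ := by group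
    _ = (z * a) * c * a⁻¹ * c⁻¹ := by rw [hz a]
    _ = z * (a * c * a⁻¹ * c⁻¹) := by group
    _ = (a * c * a⁻¹ * c⁻¹) * z := by rw [hz]
    _ = ⁅a, c⁆ * z := by rw [commutatorElement_def]

theorem comm_inv_l' {a c : X} (h : ⁅a, c⁆ ∈ center X) : ⁅a⁻¹, c⁆ = ⁅a, c⁆⁻¹ := by
  have hz := mem_center_iff.mp (inv_mem h)
  have h1 : ⁅a⁻¹, c⁆ = a⁻¹ * (⁅a, c⁆)⁻¹ * a := by
    simp only [commutatorElement_def]; group
  rw [h1, hz a⁻¹]
  group

theorem comm_inv_r' {a c : X} (h : ⁅a, c⁆ ∈ center X) : ⁅a, c⁻¹⁆ = ⁅a, c⁆⁻¹ := by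
  have hz := mem_center_iff.mp (inv_mem h)
  have h1 : ⁅a, c⁻¹⁆ = c⁻¹ * (⁅a, c⁆)⁻¹ * c := by
    simp only [commutatorElement_def]; group
  rw [h1, hz c⁻¹]
  group

/-- `(ab)² = a²b²[b,a]` for central `[b,a]`. -/
theorem sq_mul_central {a b : X} (h : ⁅b, a⁆ ∈ center X) :
    (a * b) ^ 2 = a ^ 2 * b ^ 2 * ⁅b, a⁆ := by
  have hz := mem_center_iff.mp h
  have h1 : b * a = ⁅b, a⁆ * a * b := by
    simp only [commutatorElement_def]; group
  generalize ⁅b, a⁆ = z at hz h1
  calc (a * b) ^ 2 = a * (b * a) * b := by rw [pow_two]; group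
    _ = a * (z * a * b) * b := by rw [h1]
    _ = (a * z) * a * b * b := by group
    _ = (z * a) * a * b * b := by rw [hz a]
    _ = z * (a ^ 2 * b ^ 2) := by rw [pow_two, pow_two]; group
    _ = a ^ 2 * b ^ 2 * z := by rw [hz]

/-- `[x,y] ∈ center` conjugation form. -/
theorem conj_eq_comm_mul (x y : X) : y * x * y⁻¹ = ⁅y, x⁆ * x := by
  simp only [commutatorElement_def]; group

theorem comm_map (φ : MulAut X) (a b : X) : φ ⁅a, b⁆ = ⁅φ a, φ b⁆ := by
  simp only [commutatorElement_def, map_mul, map_inv]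

/-! ### Adjoining an element -/

/-- `M ∪ c⁻¹M` as a subgroup, for `c` of order 2 and central modulo the normal subgroup `M`. -/
def adj (M : Subgroup X) [hM : M.Normal] (c : X) (hc : c * c ∈ M) : Subgroup X where
  carrier := {x | x ∈ M ∨ c * x ∈ M}
  one_mem' := Or.inl M.one_mem
  mul_mem' := by
    rintro a b (ha | ha) (hb | hb)
    · exact Or.inl (M.mul_mem ha hb)
    · refine Or.inr ?_
      have h1 := M.mul_mem (hM.conj_mem a ha c) hb
      have h2 : c * a * c⁻¹ * (c * b) = c * (a * b) := by group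
      rwa [h2] at h1
    · refine Or.inr ?_
      rw [← mul_assoc]
      exact M.mul_mem ha hb
    · refine Or.inl ?_
      have h0 : (c * c)⁻¹ ∈ M := M.inv_mem hc
      have h1 := hM.conj_mem _ ha c
      have h2 := M.mul_mem (M.mul_mem h0 h1) hb
      have h3 : (c * c)⁻¹ * (c * (c * a) * c⁻¹) * (c * b) = a * b := by group
      rwa [h3] at h2
  inv_mem' := by
    rintro a (ha | ha)
    · exact Or.inl (M.inv_mem ha)
    · refine Or.inr ?_
      have h1 := hM.conj_mem _ (M.inv_mem ha) c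
      have h2 := M.mul_mem h1 hc
      have h3 : c * (c * a)⁻¹ * c⁻¹ * (c * c) = c * a⁻¹ := by group
      rwa [h3] at h2

theorem mem_adj {M : Subgroup X} [hM : M.Normal] {c : X} {hc : c * c ∈ M} {x : X} :
    x ∈ adj M c hc ↔ x ∈ M ∨ c * x ∈ M := Iff.rfl

theorem le_adj {M : Subgroup X} [hM : M.Normal] {c : X} {hc : c * c ∈ M} : M ≤ adj M c hc :=
  fun x hx => Or.inl hx

theorem mem_adj_self {M : Subgroup X} [hM : M.Normal] {c : X} {hc : c * c ∈ M} :
    c ∈ adj M c hc := Or.inr hc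

theorem adj_normal {M : Subgroup X} [hM : M.Normal] {c : X} {hc : c * c ∈ M}
    (hcn : ∀ x, ⁅c, x⁆ ∈ M) : (adj M c hc).Normal := by
  constructor
  rintro n (hn | hn) g
  · exact Or.inl (hM.conj_mem n hn g)
  · refine Or.inr ?_
    -- `c * (g n g⁻¹) = (c g c⁻¹ g⁻¹) * (g (c n) g⁻¹)`
    have h1 := M.mul_mem (hcn g) (hM.conj_mem _ hn g)
    have h2 : ⁅c, g⁆ * (g * (c * n) * g⁻¹) = c * (g * n * g⁻¹) := by
      simp only [commutatorElement_def]; group
    rwa [h2] at h1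

/-! ### The abelian predicate -/

/-- The elements of `M` commute. -/
def Ab (M : Subgroup X) : Prop := ∀ a ∈ M, ∀ b ∈ M, a * b = b * a

/-- The elements of order at most 2 of an abelian subgroup. -/
def omega (M : Subgroup X) (hM : Ab M) : Subgroup X where
  carrier := {m | m ∈ M ∧ m ^ 2 = 1}
  one_mem' := ⟨M.one_mem, one_pow 2⟩
  mul_mem' := by
    rintro a b ⟨ha, ha2⟩ ⟨hb, hb2⟩
    refine ⟨M.mul_mem ha hb, ?_⟩
    rw [(show Commute a b from hM a ha b hb).mul_pow, ha2, hb2, one_mul]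
  inv_mem' := by
    rintro a ⟨ha, ha2⟩
    exact ⟨M.inv_mem ha, by rw [inv_pow, ha2, inv_one]⟩

theorem mem_omega {M : Subgroup X} {hM : Ab M} {m : X} : m ∈ omega M hM ↔ m ∈ M ∧ m ^ 2 = 1 :=
  Iff.rfl

theorem omega_normal {M : Subgroup X} {hM : Ab M} [hn : M.Normal] : (omega M hM).Normal := by
  constructor
  rintro n ⟨h1, h2⟩ g
  refine ⟨hn.conj_mem n h1 g, ?_⟩
  rw [conj_pow, h2]
  group

/-! ### Order of automorphisms -/

/-- The `A`-invariance predicate. -/
def Inv (A : Subgroup (MulAut X)) (M : Subgroup X) : Prop := ∀ φ ∈ A, ∀ x ∈ M, φ x ∈ M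

theorem inv_mem_iff {A : Subgroup (MulAut X)} {M : Subgroup X} (h : Inv A M) {φ : MulAut X}
    (hφ : φ ∈ A) (x : X) : φ x ∈ M ↔ x ∈ M := by
  refine ⟨fun hx => ?_, h φ hφ x⟩
  have := h φ⁻¹ (A.inv_mem hφ) _ hx
  simpa using this

theorem center_inv (A : Subgroup (MulAut X)) : Inv A (center X) := by
  intro φ _ x hx
  rw [mem_center_iff] at hx ⊢
  intro g
  obtain ⟨g', rfl⟩ := φ.surjective g
  rw [← map_mul, ← map_mul, hx g']

theorem omega_inv {A : Subgroup (MulAut X)} {M : Subgroup X} {hM : Ab M} (h : Inv A M) :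
    Inv A (omega M hM) := by
  rintro φ hφ x ⟨h1, h2⟩
  exact ⟨h φ hφ x h1, by rw [← map_pow, h2, map_one]⟩

/-- The setting of the theorem. -/
structure Setup [Finite X] (A : Subgroup (MulAut X)) : Prop where
  two : IsPGroup 2 X
  odd : Odd (Nat.card A)
  gen : closure {g : X | ∃ φ ∈ A, ∃ x : X, g = x⁻¹ * φ x} = ⊤
  noE8 : ∀ N : Subgroup X, N.Normal → Ab N → (∀ a ∈ N, a ^ 2 = 1) → Nat.card N ≤ 4

variable [Finite X] {A : Subgroup (MulAut X)}

instance fact2 : Fact (Nat.Prime 2) := ⟨Nat.prime_two⟩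

theorem Setup.finiteA (S : Setup A) : Finite A := by
  have h := S.odd
  apply Nat.finite_of_card_ne_zero
  intro h0
  rw [h0] at h
  exact (by decide : ¬ Odd 0) h

theorem Setup.odd_order (S : Setup A) {φ : MulAut X} (hφ : φ ∈ A) : Odd (orderOf φ) := by
  have := S.finiteA
  have h1 : orderOf (⟨φ, hφ⟩ : A) ∣ Nat.card A := orderOf_dvd_natCard _
  have h2 : orderOf (⟨φ, hφ⟩ : A) = orderOf φ := Subgroup.orderOf_mk φ hφ
  rw [h2] at h1
  exact Odd.of_dvd_nat S.odd h1

/-- An element of 2-power order and of odd order is trivial. -/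
theorem Setup.eq_one_of_pow (S : Setup A) {z : X} {n : ℕ} (hn : Odd n) (h : z ^ n = 1) : z = 1 := by
  obtain ⟨k, hk⟩ := (IsPGroup.iff_orderOf.mp S.two) z
  have h1 : orderOf z ∣ n := orderOf_dvd_of_pow_eq_one h
  have h2 : Odd (orderOf z) := Odd.of_dvd_nat hn h1
  rw [hk] at h2
  rcases Nat.eq_zero_or_pos k with rfl | hk0
  · rw [pow_zero] at hk
    exact orderOf_eq_one_iff.mp hk
  · exfalso
    have : Even (2 ^ k) := (Nat.even_pow' hk0.ne').mpr even_two
    exact (Nat.not_even_iff_odd.mpr h2) this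

/-- L4: if `φ y = y z` with `φ z = z` then `z = 1`. -/
theorem Setup.eq_one_of_shift (S : Setup A) {φ : MulAut X} (hφ : φ ∈ A) {y z : X}
    (h1 : φ y = y * z) (h2 : φ z = z) : z = 1 := by
  have key : ∀ i : ℕ, (φ ^ i) y = y * z ^ i := by
    intro i
    induction i with
    | zero => simp
    | succ i ih =>
      rw [pow_succ', MulAut.mul_apply, ih, map_mul, h1, map_pow, h2, pow_succ']
      group
  have h3 := key (orderOf φ)
  rw [pow_orderOf_eq_one, MulAut.one_apply] at h3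
  have h4 : z ^ orderOf φ = 1 := by
    have := mul_left_cancel (a := y) (b := 1) (c := z ^ orderOf φ) (by rw [mul_one]; exact h3)
    exact this.symm
  exact S.eq_one_of_pow (S.odd_order hφ) h4

/-- Two non-members multiply into a subgroup: then the invariant subgroup is everything. -/
theorem Setup.eq_top_of_inv (S : Setup A) {N : Subgroup X} (hinv : Inv A N)
    (h : ∀ a b, a ∉ N → b ∉ N → a * b ∈ N) : N = ⊤ := by
  rw [eq_top_iff, ← S.gen, closure_le]
  rintro g ⟨φ, hφ, x, rfl⟩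
  by_cases hx : x ∈ N
  · exact N.mul_mem (N.inv_mem hx) (hinv φ hφ x hx)
  · refine h _ _ (fun h1 => hx ?_) (fun h1 => hx ((inv_mem_iff hinv hφ x).mp h1))
    simpa using N.inv_mem h1

/-- L2: a normal subgroup centralized by `A` is central. -/
theorem Setup.mem_center_of_fixed (S : Setup A) {N : Subgroup X} [hn : N.Normal]
    (hfix : ∀ φ ∈ A, ∀ m ∈ N, φ m = m) {m : X} (hm : m ∈ N) : m ∈ center X := by
  have hC : centralizer ({m} : Set X) = ⊤ := by
    rw [eq_top_iff, ← S.gen, closure_le]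
    rintro g ⟨φ, hφ, x, rfl⟩
    rw [SetLike.mem_coe, mem_centralizer_singleton_iff]
    have h1 : φ (x * m * x⁻¹) = x * m * x⁻¹ := hfix φ hφ _ (hn.conj_mem m hm x)
    rw [map_mul, map_mul, hfix φ hφ m hm, map_inv] at h1
    have h2 : φ x * m = x * m * x⁻¹ * φ x := by
      rw [← h1]; group
    rw [mul_assoc, h2]
    group
  rw [mem_center_iff]
  intro g
  have : g ∈ centralizer ({m} : Set X) := by rw [hC]; exact mem_top g
  rw [mem_centralizer_singleton_iff] at this
  exact this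

/-- L3: modulo a normal invariant subgroup with abelian quotient, fixed elements are trivial. -/
theorem Setup.mem_of_fixed_mod (S : Setup A) {N : Subgroup X} [hn : N.Normal] (hinv : Inv A N)
    (hc : commutator X ≤ N) {x : X} (hx : ∀ φ ∈ A, x⁻¹ * φ x ∈ N) : x ∈ N := by
  classical
  have := S.finiteA
  cases nonempty_fintype A
  letI : CommGroup (X ⧸ N) :=
    { (inferInstance : Group (X ⧸ N)) with
      mul_comm := by
        intro a b
        induction a using QuotientGroup.induction_on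
        induction b using QuotientGroup.induction_on
        rename_i a b
        rw [← QuotientGroup.mk_mul, ← QuotientGroup.mk_mul, QuotientGroup.eq]
        have h1 : ⁅b⁻¹, a⁻¹⁆ ∈ N := hc (commutator_mem_commutator (mem_top _) (mem_top _))
        have h2 : (a * b)⁻¹ * (b * a) = ⁅b⁻¹, a⁻¹⁆ := by
          simp only [commutatorElement_def]; group
        rw [h2]; exact h1 }
  let τ : X →* X ⧸ N := ∏ φ : A, (QuotientGroup.mk' N).comp (φ : MulAut X).toMonoidHom
  have hτ : ∀ y, τ y = ∏ φ : A, ((φ : MulAut X) y : X ⧸ N) := by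
    intro y
    simp only [τ, MonoidHom.finsetProd_apply]
    rfl
  have hτ1 : ∀ y φ₀, φ₀ ∈ A → τ (φ₀ y) = τ y := by
    intro y φ₀ h0
    rw [hτ, hτ]
    refine Fintype.prod_equiv (Equiv.mulRight (⟨φ₀, h0⟩ : A)) _ _ ?_
    intro φ
    simp [MulAut.mul_apply]
  have hker : τ.ker = ⊤ := by
    rw [eq_top_iff, ← S.gen, closure_le]
    rintro g ⟨φ, hφ, y, rfl⟩
    rw [SetLike.mem_coe, MonoidHom.mem_ker, map_mul, map_inv, hτ1 y φ hφ, inv_mul_cancel]
  have h1 : τ x = 1 := by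
    have : x ∈ τ.ker := by rw [hker]; exact mem_top x
    exact this
  have h2 : τ x = (x : X ⧸ N) ^ Nat.card A := by
    rw [hτ, Nat.card_eq_fintype_card, ← Finset.card_univ, ← Finset.prod_const]
    refine Finset.prod_congr rfl fun φ _ => ?_
    exact (QuotientGroup.eq.mpr (hx φ φ.2)).symm
  rw [h2] at h1
  have h3 : ((x ^ Nat.card A : X) : X ⧸ N) = 1 := by rw [QuotientGroup.mk_pow]; exact h1
  have h4 : x ^ Nat.card A ∈ N := (QuotientGroup.eq_one_iff _).mp h3
  obtain ⟨k, hk⟩ := (IsPGroup.iff_orderOf.mp S.two) x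
  have hcop : Nat.Coprime (Nat.card A) (2 ^ k) := by
    apply Nat.Coprime.pow_right
    exact Nat.Coprime.symm (Nat.coprime_two_left.mpr S.odd)
  have h5 : x ^ (2 ^ k) ∈ N := by
    rw [← hk, pow_orderOf_eq_one]; exact N.one_mem
  obtain ⟨u, v, huv⟩ : ∃ u v : ℤ, (Nat.card A : ℤ) * u + (2 ^ k : ℕ) * v = 1 := by
    refine ⟨Nat.gcdA (Nat.card A) (2 ^ k), Nat.gcdB (Nat.card A) (2 ^ k), ?_⟩
    have := Nat.gcd_eq_gcd_ab (Nat.card A) (2 ^ k)
    rw [hcop] at this
    push_cast at this ⊢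
    linarith
  have h6 : x = (x ^ Nat.card A) ^ u * (x ^ (2 ^ k)) ^ v := by
    rw [← zpow_natCast, ← zpow_natCast, ← zpow_mul, ← zpow_mul, ← zpow_add, huv, zpow_one]
  rw [h6]
  exact N.mul_mem (N.zpow_mem h4 u) (N.zpow_mem h5 v)

/-! ### The step lemma -/

/-- Chief-series step: an element of `B \ Z` central and of order 2 modulo `Z`. -/
theorem exists_step (hX : IsPGroup 2 X) (Z B : Subgroup X) [hZ : Z.Normal] [hB : B.Normal]
    (hZB : Z ≤ B) (hne : ¬ B ≤ Z) : ∃ b ∈ B, b ∉ Z ∧ (∀ x, ⁅b, x⁆ ∈ Z) ∧ b * b ∈ Z := by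
  have hQ : IsPGroup 2 (X ⧸ Z) := hX.to_quotient Z
  have : (B.map (QuotientGroup.mk' Z)).Normal :=
    Subgroup.Normal.map hB _ (QuotientGroup.mk'_surjective Z)
  have hne' : B.map (QuotientGroup.mk' Z) ≠ ⊥ := by
    intro h
    apply hne
    intro x hx
    have : (QuotientGroup.mk' Z) x ∈ B.map (QuotientGroup.mk' Z) := mem_map_of_mem _ hx
    rw [h, mem_bot] at this
    exact (QuotientGroup.eq_one_iff x).mp this
  obtain ⟨z, hzB, hzZ, hzo⟩ :=
    Cfsg.Agent.Lib.PGroups.Basic.exists_central_orderOf_eq hQ _ hne'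
  obtain ⟨b, hb, rfl⟩ := hzB
  refine ⟨b, hb, ?_, ?_, ?_⟩
  · intro hbZ
    have : (QuotientGroup.mk' Z) b = 1 := (QuotientGroup.eq_one_iff b).mpr hbZ
    rw [this, orderOf_one] at hzo
    omega
  · intro x
    rw [← QuotientGroup.eq_one_iff]
    have h1 := mem_center_iff.mp hzZ (x : X ⧸ Z)
    simp only [commutatorElement_def, QuotientGroup.mk_mul, QuotientGroup.mk_inv]
    have h2 : ((b : X) : X ⧸ Z) * (x : X ⧸ Z) = (x : X ⧸ Z) * (b : X ⧸ Z) := h1.symm
    rw [h2]
    group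
  · rw [← QuotientGroup.eq_one_iff, QuotientGroup.mk_mul]
    have : ((QuotientGroup.mk' Z) b) ^ 2 = 1 := by rw [← hzo]; exact pow_orderOf_eq_one _
    rw [pow_two] at this
    exact this

end Cfsg.Agent.Lib.NGP
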