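import Cfsg.Agent.Lib.NGP.Rot

/-!
# The case of abelian `K` with `K² = D`: action of `X` on `K`.
-/

set_option autoImplicit false
set_option linter.unusedSectionVars false
set_option linter.unusedVariables false

namespace Cfsg.Agent.Lib.NGP

open Subgroup
open scoped commutatorElement

variable {X : Type*} [Group X] [Finite X] {A : Subgroup (MulAut X)}

/-- `K` abelian with squares filling `D`. -/
structure CaseB (A : Subgroup (MulAut X)) (φ : MulAut X) : Prop where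
  R : Rot A φ
  Kab : Ab (K X)
  surj : ∀ d ∈ D X, ∃ k ∈ K X, k ^ 2 = d
  k₀ : ∃ k ∈ K X, k ∉ D X
  hna : ∃ a b : X, a * b ≠ b * a

theorem D_rearr {a b c a' b' c' : X} (hb : b ∈ D X) (hc : c ∈ D X) (ha' : a' ∈ D X) (hb' : b' ∈ D X) :
    a * a' * (b * b') * (c * c') = a * b * c * (a' * b' * c') := by
  have h1 : a' * b = b * a' := (D_central hb a')
  have h2 : (a' * b') * c = c * (a' * b') := (mem_center_iff.mp ((D X).mul_mem ha' hb').1 c).symm ▸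
    (by rw [D_central hc])
  calc a * a' * (b * b') * (c * c') = a * (a' * b) * b' * c * c' := by group
    _ = a * (b * a') * b' * c * c' := by rw [h1]
    _ = a * b * ((a' * b') * c) * c' := by group
    _ = a * b * (c * (a' * b')) * c' := by rw [h2]
    _ = _ := by group

namespace CaseB

variable {φ : MulAut X} (H : CaseB A φ)
include H

theorem S : Setup A := H.R.S

theorem hφ : φ ∈ A := H.R.hφ

theorem mapK {k : X} (hk : k ∈ K X) : φ k ∈ K X := K_inv A φ H.R.hφ k hk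

theorem comm_K {k : X} (hk : k ∈ K X) (x : X) : ⁅k, x⁆ ∈ D X := hk.2 x

theorem comm_hom_r {k : X} (hk : k ∈ K X) (x y : X) : ⁅k, x * y⁆ = ⁅k, x⁆ * ⁅k, y⁆ :=
  comm_mul_r (hk.2 y).1

theorem comm_hom_l {a b : X} (hb : b ∈ K X) (y : X) : ⁅a * b, y⁆ = ⁅a, y⁆ * ⁅b, y⁆ :=
  comm_mul_l (hb.2 y).1

theorem comm_D_l {d : X} (hd : d ∈ D X) (y : X) : ⁅d, y⁆ = 1 := by
  rw [commutatorElement_eq_one_iff_mul_comm]
  exact (D_central hd y).symm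

/-- Two elements of `K` with the same square differ by an element of `D`. -/
theorem eq_mul_of_sq {a b : X} (ha : a ∈ K X) (hb : b ∈ K X) (h : a ^ 2 = b ^ 2) :
    ∃ d ∈ D X, a = b * d := by
  refine ⟨b⁻¹ * a, ?_, by group⟩
  apply H.R.anis ((K X).mul_mem ((K X).inv_mem hb) ha)
  have hc : Commute b⁻¹ a := H.Kab _ ((K X).inv_mem hb) _ ha
  rw [hc.mul_pow, h, inv_pow, inv_mul_cancel]

theorem comm_same {a b : X} (ha : a ∈ K X) (hb : b ∈ K X) (h : a ^ 2 = b ^ 2) (y : X) :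
    ⁅a, y⁆ = ⁅b, y⁆ := by
  obtain ⟨d, hd, rfl⟩ := H.eq_mul_of_sq ha hb h
  rw [comm_mul_l (by rw [comm_D_l H hd]; exact (center X).one_mem), comm_D_l H hd, mul_one]

/-- An automorphism in `A` trivial on `D` does not change commutators with `K`. -/
theorem comm_chi {χ : MulAut X} (hχ : χ ∈ A) (htriv : ∀ d ∈ D X, χ d = d) {k : X} (hk : k ∈ K X)
    (x : X) : ⁅k, χ x⁆ = ⁅k, x⁆ := by
  have h0 : χ⁻¹ k ∈ K X := K_inv A _ (A.inv_mem hχ) k hk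
  have h1 : ⁅k, χ x⁆ = χ ⁅χ⁻¹ k, x⁆ := by rw [comm_map]; simp
  rw [h1, htriv _ (h0.2 x)]
  apply H.comm_same h0 hk
  have h2 : (χ⁻¹ k) ^ 2 = k ^ 2 := by
    rw [← map_pow]
    have h3 := htriv _ hk.1
    apply χ.injective
    simp [h3]
  exact h2

theorem comm_phi3 {k : X} (hk : k ∈ K X) (x : X) : ⁅k, φ (φ (φ x))⁆ = ⁅k, x⁆ := by
  have h := H.comm_chi (χ := φ * φ * φ) (A.mul_mem (A.mul_mem H.hφ H.hφ) H.hφ)
    (fun d hd => by simpa [MulAut.mul_apply] using H.R.rot3 d hd) hk x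
  simpa [MulAut.mul_apply] using h

/-- The relation function. -/
def cf (φ : MulAut X) (k x : X) : X := ⁅k, x⁆ * ⁅k, φ x⁆ * ⁅k, φ (φ x)⁆

omit H in
theorem cf_def (k x : X) : cf φ k x = ⁅k, x⁆ * ⁅k, φ x⁆ * ⁅k, φ (φ x)⁆ := rfl

theorem cf_mul {k : X} (hk : k ∈ K X) (x y : X) : cf φ k (x * y) = cf φ k x * cf φ k y := by
  simp only [cf_def, map_mul]
  rw [H.comm_hom_r hk, H.comm_hom_r hk, H.comm_hom_r hk]
  exact D_rearr (hk.2 _) (hk.2 _) (hk.2 _) (hk.2 _)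

theorem cf_one {k : X} : cf φ k 1 = 1 := by
  simp [cf_def]

theorem cf_inv {k : X} (hk : k ∈ K X) (x : X) : cf φ k x⁻¹ = (cf φ k x)⁻¹ := by
  have h := H.cf_mul hk x⁻¹ x
  rw [inv_mul_cancel, H.cf_one] at h
  exact eq_inv_of_mul_eq_one_left h.symm

theorem cf_phi {k : X} (hk : k ∈ K X) (y : X) : cf φ k (φ y) = cf φ k y := by
  simp only [cf_def]
  rw [H.comm_phi3 hk]
  have h1 := hk.2 y
  calc ⁅k, φ y⁆ * ⁅k, φ (φ y)⁆ * ⁅k, y⁆ = ⁅k, y⁆ * (⁅k, φ y⁆ * ⁅k, φ (φ y)⁆) := D_central h1 _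
    _ = _ := by group

theorem cf_phi_pow {k : X} (hk : k ∈ K X) (i : ℕ) (y : X) : cf φ k ((φ ^ i) y) = cf φ k y := by
  induction i with
  | zero => simp
  | succ i ih =>
    rw [pow_succ', MulAut.mul_apply, H.cf_phi hk, ih]

theorem cf_chi {χ : MulAut X} (hχ : χ ∈ A) (htriv : ∀ d ∈ D X, χ d = d) {k : X} (hk : k ∈ K X)
    (y : X) : cf φ k (χ y) = cf φ k y := by
  simp only [cf_def]
  have hφ := H.hφ
  have h1 : φ (χ y) = (φ * χ * φ⁻¹) (φ y) := by simp [MulAut.mul_apply]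
  have h2 : φ (φ (χ y)) = (φ * φ * χ * φ⁻¹ * φ⁻¹) (φ (φ y)) := by simp [MulAut.mul_apply]
  have h3 : ⁅k, (φ * χ * φ⁻¹) (φ y)⁆ = ⁅k, φ y⁆ := by
    apply H.comm_chi (A.mul_mem (A.mul_mem hφ hχ) (A.inv_mem hφ)) _ hk
    intro d hd
    have : χ (φ⁻¹ d) = φ⁻¹ d := htriv _ (D_inv A _ (A.inv_mem hφ) d hd)
    simp only [MulAut.mul_apply]
    rw [this]
    simp
  have h4 : ⁅k, (φ * φ * χ * φ⁻¹ * φ⁻¹) (φ (φ y))⁆ = ⁅k, φ (φ y)⁆ := by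
    apply H.comm_chi (A.mul_mem (A.mul_mem (A.mul_mem (A.mul_mem hφ hφ) hχ) (A.inv_mem hφ))
      (A.inv_mem hφ)) _ hk
    intro d hd
    have : χ (φ⁻¹ (φ⁻¹ d)) = φ⁻¹ (φ⁻¹ d) :=
      htriv _ (D_inv A _ (A.inv_mem hφ) _ (D_inv A _ (A.inv_mem hφ) d hd))
    simp only [MulAut.mul_apply]
    rw [this]
    simp
  rw [h2, h1, H.comm_chi hχ htriv hk, h3, h4]

theorem cf_psi {ψ : MulAut X} (hψ : ψ ∈ A) {k : X} (hk : k ∈ K X) (y : X) :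
    cf φ k (ψ y) = cf φ k y := by
  obtain ⟨i, hi⟩ := H.R.types ψ hψ
  have hφ := H.hφ
  have hχ : (φ ^ i)⁻¹ * ψ ∈ A := A.mul_mem (A.inv_mem (A.pow_mem hφ i)) hψ
  have htriv : ∀ d ∈ D X, ((φ ^ i)⁻¹ * ψ) d = d := by
    intro d hd
    rw [MulAut.mul_apply, hi d hd]
    simp
  have h1 : ψ y = (φ ^ i) (((φ ^ i)⁻¹ * ψ) y) := by simp [MulAut.mul_apply]
  rw [h1, H.cf_phi_pow hk, H.cf_chi hχ htriv hk]

/-- The relation: `[k,x][k,φx][k,φ²x] = 1`. -/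
theorem rel {k : X} (hk : k ∈ K X) (x : X) : ⁅k, x⁆ * ⁅k, φ x⁆ * ⁅k, φ (φ x)⁆ = 1 := by
  let N : Subgroup X :=
    { carrier := {x | cf φ k x = 1}
      one_mem' := H.cf_one
      mul_mem' := by
        intro a b ha hb
        show cf φ k (a * b) = 1
        rw [H.cf_mul hk, ha, hb, one_mul]
      inv_mem' := by
        intro a ha
        show cf φ k a⁻¹ = 1
        rw [H.cf_inv hk, ha, inv_one] }
  have hN : N = ⊤ := by
    rw [eq_top_iff, ← H.S.gen, closure_le]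
    rintro g ⟨ψ, hψ, y, rfl⟩
    show cf φ k (y⁻¹ * ψ y) = 1
    rw [H.cf_mul hk, H.cf_psi hψ hk, H.cf_inv hk, inv_mul_cancel]
  have : x ∈ N := by rw [hN]; exact mem_top x
  exact this

/-- `[K, y]` trivial on one element outside `D` is trivial. -/
theorem L2 {y k₀ : X} (hk₀ : k₀ ∈ K X) (hk₀D : k₀ ∉ D X) (h : ⁅k₀, y⁆ = 1) :
    ∀ k ∈ K X, ⁅k, y⁆ = 1 := by
  have R := H.R
  set δ := k₀ ^ 2 with hδ
  have hδD : δ ∈ D X := hk₀.1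
  have hδ1 : δ ≠ 1 := fun h1 => hk₀D (R.anis hk₀ h1)
  have hk₁ := H.mapK hk₀
  have hk₂ := H.mapK hk₁
  have hs₁ : (φ k₀) ^ 2 = φ δ := by rw [hδ, map_pow]
  have hs₂ : (φ (φ k₀)) ^ 2 = φ (φ δ) := by rw [hδ, map_pow, map_pow]
  -- the product lies in `D`
  have he : k₀ * φ k₀ * φ (φ k₀) ∈ D X := by
    apply R.anis ((K X).mul_mem ((K X).mul_mem hk₀ hk₁) hk₂)
    have c1 : Commute k₀ (φ k₀) := H.Kab _ hk₀ _ hk₁
    have c2 : Commute (k₀ * φ k₀) (φ (φ k₀)) := H.Kab _ ((K X).mul_mem hk₀ hk₁) _ hk₂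
    rw [c2.mul_pow, c1.mul_pow, hs₁, hs₂, ← hδ]
    exact R.norm δ hδD
  set v₂ := ⁅φ k₀, y⁆ with hv₂
  set v₃ := ⁅φ (φ k₀), y⁆ with hv₃
  have hv₂D : v₂ ∈ D X := hk₁.2 y
  have hv₃D : v₃ ∈ D X := hk₂.2 y
  have h1 : v₂ * v₃ = 1 := by
    have h2 := H.comm_D_l he y
    rw [H.comm_hom_l hk₂, H.comm_hom_l hk₁, h, one_mul] at h2
    exact h2
  have h3 : v₃ = v₂ := by
    have := eq_inv_of_mul_eq_one_right h1
    rw [this, R.inv_eq hv₂D]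
  have hrel := H.rel hk₀ y
  rw [h, one_mul] at hrel
  have hφi : φ⁻¹ ∈ A := A.inv_mem H.hφ
  have hrot : ∀ d ∈ D X, φ⁻¹ d = φ (φ d) := by
    intro d hd
    have := R.rot3 d hd
    apply φ.injective
    simpa using this.symm
  have h4 : ⁅k₀, φ y⁆ = φ v₂ := by
    have h5 : ⁅k₀, φ y⁆ = φ ⁅φ⁻¹ k₀, y⁆ := by rw [comm_map]; simp
    rw [h5, H.comm_same (K_inv A _ hφi k₀ hk₀) hk₂ (by rw [← map_pow, hs₂, hrot δ hδD]), ← hv₃, h3]
  have h6 : ⁅k₀, φ (φ y)⁆ = φ (φ v₂) := by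
    have h7 : ⁅k₀, φ (φ y)⁆ = φ (φ ⁅φ⁻¹ (φ⁻¹ k₀), y⁆) := by rw [comm_map, comm_map]; simp
    have hi : φ⁻¹ (φ⁻¹ k₀) ∈ K X := K_inv A _ hφi _ (K_inv A _ hφi k₀ hk₀)
    have h8 : (φ⁻¹ (φ⁻¹ k₀)) ^ 2 = (φ k₀) ^ 2 := by
      rw [← map_pow, ← map_pow, hs₁, ← hδ, hrot δ hδD, hrot _ (R.mapD (R.mapD hδD)),
        R.rot3 _ (R.mapD hδD)]
    rw [h7, H.comm_same hi hk₁ h8]
  rw [h4, h6] at hrel
  have h9 : φ (φ v₂) = φ v₂ := by
    have := eq_inv_of_mul_eq_one_right hrel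
    rw [this, R.inv_eq (R.mapD hv₂D)]
  have hv₂1 : v₂ = 1 := by
    apply R.fpf v₂ hv₂D
    exact φ.injective h9
  have hv₃1 : v₃ = 1 := by rw [h3, hv₂1]
  intro k hk
  rcases R.cover _ hk.1 δ hδD hδ1 with h5 | h5 | h5 | h5
  · exact H.comm_D_l (R.anis hk h5) y
  · rw [H.comm_same hk hk₀ h5, h]
  · rw [H.comm_same hk hk₁ (by rw [h5, hs₁]), ← hv₂, hv₂1]
  · rw [H.comm_same hk hk₂ (by rw [h5, hs₂]), ← hv₃, hv₃1]

/-- Commutators centralize `K`. -/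
theorem comm_comm {k : X} (hk : k ∈ K X) (a b : X) : ⁅k, ⁅a, b⁆⁆ = 1 := by
  have h1 : ⁅k, ⁅a, b⁆⁆ = ⁅k, a⁆ * ⁅k, b⁆ * ⁅k, a⁆⁻¹ * ⁅k, b⁆⁻¹ := by
    rw [commutatorElement_def a b, H.comm_hom_r hk, H.comm_hom_r hk, H.comm_hom_r hk,
      comm_inv_r' (hk.2 _).1, comm_inv_r' (hk.2 _).1]
  rw [h1]
  have h2 := D_central (hk.2 b) ⁅k, a⁆⁻¹
  calc ⁅k, a⁆ * ⁅k, b⁆ * ⁅k, a⁆⁻¹ * ⁅k, b⁆⁻¹ = ⁅k, a⁆ * (⁅k, b⁆ * ⁅k, a⁆⁻¹) * ⁅k, b⁆⁻¹ := by group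
    _ = ⁅k, a⁆ * (⁅k, a⁆⁻¹ * ⁅k, b⁆) * ⁅k, b⁆⁻¹ := by rw [h2]
    _ = 1 := by group

/-- No element of `X` inverts `K`. -/
theorem L3 {y : X} (h : ∀ k ∈ K X, ⁅k, y⁆ = k ^ 2) : False := by
  obtain ⟨k₀, hk₀, hk₀D⟩ := H.k₀
  set N := centralizer (K X : Set X) with hN
  have hNn : N.Normal := by rw [hN]; infer_instance
  have hmemN : ∀ g, g ∈ N ↔ ∀ k ∈ K X, ⁅k, g⁆ = 1 := by
    intro g
    rw [hN, mem_centralizer_iff]
    constructor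
    · intro h1 k hk
      rw [commutatorElement_eq_one_iff_mul_comm]
      exact (h1 k hk)
    · intro h1 k hk
      have := h1 k hk
      rw [commutatorElement_eq_one_iff_mul_comm] at this
      exact this
  have hNinv : Inv A N := by
    intro φ' hφ' x hx
    rw [hmemN] at hx ⊢
    intro k hk
    have h1 := hx (φ'⁻¹ k) (K_inv A _ (A.inv_mem hφ') k hk)
    have h2 : ⁅k, φ' x⁆ = φ' ⁅φ'⁻¹ k, x⁆ := by rw [comm_map]; simp
    rw [h2, h1, map_one]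
  have hc : commutator X ≤ N := by
    rw [commutator_def, commutator_le]
    intro a _ b _
    rw [hmemN]
    intro k hk
    exact H.comm_comm hk a b
  have hy : y ∈ N := by
    apply H.S.mem_of_fixed_mod hNinv hc
    intro ψ hψ
    rw [hmemN]
    intro k hk
    rw [H.comm_hom_r hk, comm_inv_r' (hk.2 _).1]
    have h2 : ⁅k, ψ y⁆ = ψ ⁅ψ⁻¹ k, y⁆ := by rw [comm_map]; simp
    rw [h2, h k hk, h _ (K_inv A _ (A.inv_mem hψ) k hk), map_pow]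
    simp
  have h1 := (hmemN y).mp hy k₀ hk₀
  rw [h k₀ hk₀] at h1
  exact hk₀D (H.R.anis hk₀ h1)

end CaseB

end Cfsg.Agent.Lib.NGP
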