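import Cfsg.Agent.Lib.NGP.Struct
import Cfsg.Agent.Lib.PGroups.Special
import Cfsg.Agent.Lib.PGroups.Presentations

/-!
# Counting: the package `Sp`, a quadratic bound, and the extraspecial case.
-/

set_option autoImplicit false
set_option linter.unusedSectionVars false
set_option linter.unusedVariables false

namespace Cfsg.Agent.Lib.NGP

open Subgroup
open scoped commutatorElement

variable {X : Type*} [Group X] [Finite X] {A : Subgroup (MulAut X)}

/-- The package of the structure theorem. -/
structure Sp (X : Type*) [Group X] : Prop where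
  cen : center X = D X
  com : commutator X = D X
  sq : ∀ x : X, x ^ 2 ∈ D X

theorem card_cover (S R : Set X) (f : X → X) (hf : Function.Injective f)
    (h : ∀ x ∈ S, x ∈ R ∨ f x ∈ R) : S.ncard ≤ 2 * R.ncard := by
  have h1 : S ⊆ R ∪ f ⁻¹' R := fun x hx => by simpa using h x hx
  have h2 : (f ⁻¹' R).ncard ≤ R.ncard :=
    Set.ncard_le_ncard_of_injOn f (fun a ha => ha) hf.injOn (Set.toFinite _)
  have h3 : S.ncard ≤ (R ∪ f ⁻¹' R).ncard := Set.ncard_le_ncard h1 (Set.toFinite _)
  have h4 : (R ∪ f ⁻¹' R).ncard ≤ R.ncard + (f ⁻¹' R).ncard := Set.ncard_union_le _ _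
  omega

theorem ncard_sub (G : Subgroup X) : (G : Set X).ncard = Nat.card G :=
  (Nat.card_coe_set_eq _).symm

namespace Sp

variable (h : Sp X)
include h

theorem cmem (x y : X) : ⁅x, y⁆ ∈ D X := by
  rw [← h.com]
  exact commutator_mem_commutator (mem_top x) (mem_top y)

theorem cc (x y : X) : ⁅x, y⁆ ∈ center X := (h.cmem x y).1

theorem comm_symm (x y : X) : ⁅y, x⁆ = ⁅x, y⁆ := by
  rw [← commutatorElement_inv y x]
  have h1 := (h.cmem y x).2
  rw [pow_two] at h1
  exact (inv_eq_of_mul_eq_one_left h1).symm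

theorem card_le_of_aniso {T : Subgroup X}
    (hT : ∀ a b, a ∈ D X → b ∈ D X → a ∉ T → b ∉ T → a * b ∈ T)
    {G L : Subgroup X} (hLG : L ≤ G)
    (haniso : ∀ w ∈ G, w ∉ L → w ^ 2 ∉ T) : Nat.card G ≤ 4 * Nat.card L := by
  by_cases hGL : G ≤ L
  · have : Nat.card G ≤ Nat.card L := card_le_of_le hGL
    omega
  obtain ⟨a, haG, haL⟩ := SetLike.not_le_iff_exists.mp hGL
  have ha2 := haniso a haG haL
  set R : Set X := {w | w ∈ G ∧ ⁅w, a⁆ ∈ T} with hR
  have h1 : R.ncard ≤ 2 * (L : Set X).ncard := by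
    apply card_cover R L (fun w => w * a) (mul_left_injective a)
    rintro w ⟨hwG, hwT⟩
    by_contra hcon
    push Not at hcon
    obtain ⟨hw1, hw2⟩ := hcon
    have a1 := haniso w hwG hw1
    have a2 := haniso (w * a) (G.mul_mem hwG haG) hw2
    apply a2
    rw [sq_mul_central (h.cc a w)]
    apply T.mul_mem (hT _ _ (h.sq w) (h.sq a) a1 ha2)
    rw [← commutatorElement_inv]
    exact T.inv_mem hwT
  have h2 : (G : Set X).ncard ≤ 2 * R.ncard := by
    by_cases hall : ∀ g ∈ G, g ∈ R
    · have : (G : Set X) ⊆ R := hall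
      have := Set.ncard_le_ncard this (Set.toFinite _)
      omega
    · push Not at hall
      obtain ⟨w₀, hw₀, hw₀R⟩ := hall
      have hw₀T : ⁅w₀, a⁆ ∉ T := fun h' => hw₀R ⟨hw₀, h'⟩
      apply card_cover G R (fun g => w₀⁻¹ * g) (mul_right_injective _)
      intro g hg
      by_cases hgT : ⁅g, a⁆ ∈ T
      · exact Or.inl ⟨hg, hgT⟩
      · refine Or.inr ⟨G.mul_mem (G.inv_mem hw₀) hg, ?_⟩
        show ⁅w₀⁻¹ * g, a⁆ ∈ T
        rw [comm_mul_l (h.cc g a), comm_inv_l' (h.cc w₀ a)]
        apply hT _ _ ((D X).inv_mem (h.cmem w₀ a)) (h.cmem g a) _ hgT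
        intro h3
        apply hw₀T
        simpa using T.inv_mem h3
  rw [ncard_sub] at h1 h2
  omega

/-- `g ↦ ⁅u, g⁆` as a homomorphism to `D`. -/
def commD (h : Sp X) (u : X) : X →* D X where
  toFun g := ⟨⁅u, g⁆, h.cmem u g⟩
  map_one' := by ext; simp
  map_mul' a b := by
    ext
    exact comm_mul_r (h.cc u b)

theorem ker_commD (u : X) : (h.commD u).ker = centralizer ({u} : Set X) := by
  ext g
  rw [MonoidHom.mem_ker, mem_centralizer_singleton_iff]
  constructor
  · intro h1
    have h2 : ⁅u, g⁆ = 1 := congrArg Subtype.val h1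
    rw [commutatorElement_eq_one_iff_mul_comm] at h2
    exact h2.symm
  · intro h1
    ext
    show ⁅u, g⁆ = 1
    rw [commutatorElement_eq_one_iff_mul_comm]
    exact h1.symm

theorem index_centralizer_le (u : X) : (centralizer ({u} : Set X)).index ≤ Nat.card (D X) := by
  rw [← h.ker_commD, index_ker]
  exact card_le_card_group _

end Sp

/-- The order of `adj`. -/
theorem card_adj {M : Subgroup X} [hM : M.Normal] {c : X} {hc : c * c ∈ M} (hcM : c ∉ M) :
    Nat.card (adj M c hc) = 2 * Nat.card M := by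
  have h1 : (adj M c hc : Set X).ncard ≤ 2 * (M : Set X).ncard := by
    apply card_cover _ M (fun x => c * x) (mul_right_injective _)
    exact fun x hx => hx
  rw [ncard_sub, ncard_sub] at h1
  have h2 : Nat.card M ∣ Nat.card (adj M c hc) := card_dvd_of_le le_adj
  obtain ⟨k, hk⟩ := h2
  have hpos : 0 < Nat.card M := Nat.card_pos
  have hk1 : k ≠ 0 := by
    rintro rfl
    have : 0 < Nat.card (adj M c hc) := Nat.card_pos
    omega
  have hk2 : k ≠ 1 := by
    rintro rfl
    rw [mul_one] at hk
    have hle := eq_of_le_of_card_ge (le_adj (M := M) (c := c) (hc := hc)) (by omega)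
    apply hcM
    rw [hle]
    exact mem_adj_self
  have hk3 : k ≤ 2 := by
    by_contra hcon
    have : 3 ≤ k := by omega
    nlinarith
  have : k = 2 := by omega
  rw [hk, this]
  ring

theorem adj_ab {M : Subgroup X} [hM : M.Normal] {c : X} {hc : c * c ∈ M} (hMab : Ab M)
    (hcm : ∀ m ∈ M, c * m = m * c) : Ab (adj M c hc) := by
  have hrep : ∀ x ∈ adj M c hc, x ∈ M ∨ ∃ m ∈ M, x = c⁻¹ * m := by
    rintro x (hx | hx)
    · exact Or.inl hx
    · exact Or.inr ⟨c * x, hx, by group⟩
  have hcm' : ∀ m ∈ M, c⁻¹ * m = m * c⁻¹ := by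
    intro m hm
    have : Commute c m := hcm m hm
    exact this.inv_left
  intro a ha b hb
  rcases hrep a ha with ha | ⟨d, hd, rfl⟩ <;> rcases hrep b hb with hb | ⟨d', hd', rfl⟩
  · exact hMab a ha b hb
  · calc a * (c⁻¹ * d') = (a * c⁻¹) * d' := by group
      _ = (c⁻¹ * a) * d' := by rw [hcm' a ha]
      _ = c⁻¹ * (a * d') := by group
      _ = c⁻¹ * (d' * a) := by rw [hMab a ha d' hd']
      _ = _ := by group
  · calc c⁻¹ * d * b = c⁻¹ * (d * b) := by group
      _ = c⁻¹ * (b * d) := by rw [hMab d hd b hb]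
      _ = (c⁻¹ * b) * d := by group
      _ = (b * c⁻¹) * d := by rw [hcm' b hb]
      _ = _ := by group
  · calc c⁻¹ * d * (c⁻¹ * d') = c⁻¹ * (d * c⁻¹) * d' := by group
      _ = c⁻¹ * (c⁻¹ * d) * d' := by rw [hcm' d hd]
      _ = c⁻¹ * c⁻¹ * (d * d') := by group
      _ = c⁻¹ * c⁻¹ * (d' * d) := by rw [hMab d hd d' hd']
      _ = c⁻¹ * (c⁻¹ * d') * d := by group
      _ = c⁻¹ * (d' * c⁻¹) * d := by rw [hcm' d' hd']
      _ = _ := by group

theorem adj_sq {M : Subgroup X} [hM : M.Normal] {c : X} {hc : c * c ∈ M}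
    (hMsq : ∀ m ∈ M, m ^ 2 = 1) (hc2 : c ^ 2 = 1) (hcm : ∀ m ∈ M, c * m = m * c) :
    ∀ x ∈ adj M c hc, x ^ 2 = 1 := by
  rintro x (hx | hx)
  · exact hMsq x hx
  · have hc1 : c * c = 1 := by rw [← pow_two]; exact hc2
    have hci : c⁻¹ = c := inv_eq_of_mul_eq_one_left hc1
    have h1 : x = c * (c * x) := by rw [← mul_assoc, hc1, one_mul]
    rw [h1]
    have h2 : Commute c (c * x) := hcm _ hx
    rw [h2.mul_pow, hc2, hMsq _ hx, one_mul]

theorem mem_zpowers_of_sq_one {z x : X} (hz : z ^ 2 = 1) : x ∈ zpowers z ↔ x = 1 ∨ x = z := by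
  constructor
  · intro hx
    obtain ⟨k, rfl⟩ := mem_zpowers_iff.mp hx
    rcases Int.even_or_odd' k with ⟨m, rfl | rfl⟩
    · left
      rw [zpow_mul, zpow_ofNat, hz, one_zpow]
    · right
      rw [zpow_add, zpow_mul, zpow_ofNat, hz, one_zpow, one_mul, zpow_one]
  · rintro (rfl | rfl)
    · exact one_mem _
    · exact mem_zpowers _

/-- Two elements in a subgroup of order 2. -/
theorem card_two_cases {E : Subgroup X} (hE : Nat.card E = 2) {z d : X} (hz : z ∈ E) (hz1 : z ≠ 1)
    (hd : d ∈ E) : d = 1 ∨ d = z := by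
  classical
  by_contra hcon
  push Not at hcon
  obtain ⟨h1, h2⟩ := hcon
  have hF : ({1, z, d} : Finset X).card = 3 := by
    rw [Finset.card_insert_of_notMem, Finset.card_insert_of_notMem, Finset.card_singleton]
    · simpa using h2.symm
    · simp only [Finset.mem_insert, Finset.mem_singleton, not_or]
      exact ⟨hz1.symm, h1.symm⟩
  have hsub : (({1, z, d} : Finset X) : Set X) ⊆ E := by
    intro y hy
    simp only [Finset.coe_insert, Finset.coe_singleton, Set.mem_insert_iff,
      Set.mem_singleton_iff] at hy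
    rcases hy with rfl | rfl | rfl
    · exact E.one_mem
    · exact hz
    · exact hd
  have := Set.ncard_le_ncard hsub (Set.toFinite _)
  rw [Set.ncard_coe_finset, hF, ncard_sub] at this
  omega

namespace Sp

variable (h : Sp X)
include h

theorem isSpecial (S : Setup A) : Cfsg.IsSpecial 2 X := by
  have h1 : frattini X ≤ D X :=
    Cfsg.Agent.Lib.PGroups.Basic.frattini_le_of_normal (D X) (le_of_eq h.com) h.sq
  have h2 : D X ≤ frattini X := by
    rw [← h.com]
    exact Cfsg.Agent.Lib.PGroups.Basic.commutator_le_frattini S.two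
  refine ⟨S.two, ?_, ?_⟩
  · rw [h.cen]
    exact le_antisymm h1 h2
  · rw [h.cen, h.com]

/-- There is an element whose square is not trivial. -/
theorem exists_sq_ne (hna : ∃ a b : X, a * b ≠ b * a) : ∃ r : X, r ^ 2 ≠ 1 := by
  by_contra hcon
  push Not at hcon
  obtain ⟨a, b, hab⟩ := hna
  apply hab
  have h1 := sq_mul_central (h.cc b a)
  rw [hcon, hcon, hcon, one_mul, one_mul] at h1
  exact ((commutatorElement_eq_one_iff_mul_comm).mp h1.symm).symm

theorem central_adj {u : X} {hu : u * u ∈ D X} {x : X} (hx : x ∈ adj (D X) u hu) :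
    x * u = u * x := by
  rcases hx with hx | hx
  · exact (D_central hx u).symm
  · have h1 : u * (u * x) = u * x * u := D_central hx u
    rw [mul_assoc] at h1
    exact (mul_left_cancel h1).symm

theorem exists_z (hD2 : Nat.card (D X) = 2) : ∃ z ∈ D X, z ≠ 1 ∧ ∀ d ∈ D X, d = 1 ∨ d = z := by
  rcases (D X).bot_or_exists_ne_one with h1 | ⟨z, hz, hz1⟩
  · rw [h1] at hD2
    simp at hD2
  · exact ⟨z, hz, hz1, fun d hd => card_two_cases hD2 hz hz1 hd⟩

theorem card_top_eq : Nat.card (⊤ : Subgroup X) = Nat.card X :=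
  Nat.card_congr Subgroup.topEquiv.toEquiv

/-- No noncentral involution. -/
theorem ex_iso_case (S : Setup A) (hna : ∃ a b : X, a * b ≠ b * a) (hD2 : Nat.card (D X) = 2)
    (hanis : ∀ x : X, x ^ 2 = 1 → x ∈ D X) : Nonempty (X ≃* QuaternionGroup 2) := by
  obtain ⟨z, hzD, hz1, hzall⟩ := h.exists_z hD2
  have hTbot : ∀ a b, a ∈ D X → b ∈ D X → a ∉ (⊥ : Subgroup X) → b ∉ (⊥ : Subgroup X) →
      a * b ∈ (⊥ : Subgroup X) := by
    intro a b ha hb ha1 hb1
    have h3 := (hzall a ha).resolve_left (by simpa using ha1)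
    have h4 := (hzall b hb).resolve_left (by simpa using hb1)
    rw [h3, h4, mem_bot, ← pow_two]
    exact hzD.2
  have hcard : Nat.card X ≤ 8 := by
    have h1 := h.card_le_of_aniso (T := ⊥) hTbot (G := ⊤) (L := D X) le_top
      (fun w _ hwL h2 => hwL (hanis w (by simpa using h2)))
    rw [hD2, h.card_top_eq] at h1
    omega
  have hEx : Cfsg.IsExtraspecial 2 X := ⟨h.isSpecial S, by rw [h.cen]; exact hD2⟩
  obtain ⟨n, hn1, hn⟩ := Cfsg.Agent.Lib.PGroups.Special.IsExtraspecial.card_eq hEx
  have hc8 : Nat.card X = 8 := by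
    have h1 : n = 1 := by
      by_contra hne
      have h2 : 2 ≤ n := by omega
      have h3 : 2 ^ 5 ≤ 2 ^ (2 * n + 1) := Nat.pow_le_pow_right (by norm_num) (by omega)
      rw [← hn] at h3
      omega
    rw [hn, h1]
    norm_num
  obtain ⟨a, b, hab⟩ := hna
  have hc1 : ⁅b, a⁆ ≠ 1 := fun h' =>
    hab ((commutatorElement_eq_one_iff_mul_comm).mp h').symm
  have haD : a ∉ D X := fun h' => hab (D_central h' b).symm
  have hbD : b ∉ D X := fun h' => hab (D_central h' a)
  have ha2 : a ^ 2 = z := (hzall _ (h.sq a)).resolve_left (fun h' => haD (hanis a h'))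
  have hb2 : b ^ 2 = z := (hzall _ (h.sq b)).resolve_left (fun h' => hbD (hanis b h'))
  have hcz : ⁅b, a⁆ = z := (hzall _ (h.cmem b a)).resolve_left hc1
  have hzz : z * z = 1 := by rw [← pow_two]; exact hzD.2
  have hord : orderOf a = 2 * 2 := by
    have := orderOf_eq_prime_pow (p := 2) (n := 1) (x := a)
      (by rw [pow_one, ha2]; exact hz1) (by
        rw [show 2 ^ (1 + 1) = 2 * 2 by norm_num, pow_mul, ha2]; exact hzD.2)
    simpa using this
  have hconj : b * a * b⁻¹ = a⁻¹ := by
    rw [conj_eq_comm_mul, hcz, eq_inv_iff_mul_eq_one, mul_assoc, ← pow_two, ha2]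
    exact hzz
  have hym : b ∉ zpowers a := by
    intro h1
    obtain ⟨k, rfl⟩ := mem_zpowers_iff.mp h1
    exact hab ((Commute.refl a).zpow_right k).eq
  obtain ⟨e⟩ := Cfsg.Agent.Lib.PGroups.Presentations.nonempty_quaternion_equiv (m := 2) hord
    (by rw [hb2, ha2]) hconj hym (by rw [hc8])
  exact ⟨e.symm⟩

/-- With a noncentral involution. -/
theorem ex_inv_case (S : Setup A) (hna : ∃ a b : X, a * b ≠ b * a) (hD2 : Nat.card (D X) = 2)
    {u : X} (hu2 : u ^ 2 = 1) (huD : u ∉ D X) :
    Cfsg.IsExtraspecial 2 X ∧ Nat.card X = 32 ∧ Nat.card {x : X // orderOf x = 2} = 11 := by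
  obtain ⟨z, hzD, hz1, hzall⟩ := h.exists_z hD2
  have hzz : z * z = 1 := by rw [← pow_two]; exact hzD.2
  have hTbot : ∀ a b, a ∈ D X → b ∈ D X → a ∉ (⊥ : Subgroup X) → b ∉ (⊥ : Subgroup X) →
      a * b ∈ (⊥ : Subgroup X) := by
    intro a b ha hb ha1 hb1
    have h3 := (hzall a ha).resolve_left (by simpa using ha1)
    have h4 := (hzall b hb).resolve_left (by simpa using hb1)
    rw [h3, h4, mem_bot]
    exact hzz
  have hu1 : u * u = 1 := by rw [← pow_two]; exact hu2
  have huu : u * u ∈ D X := by rw [hu1]; exact one_mem _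
  set L := adj (D X) u huu with hL
  have hLcard : Nat.card L = 4 := by rw [hL, card_adj huD, hD2]
  haveI hLn : L.Normal := adj_normal (fun x => h.cmem u x)
  have hLab : Ab L := adj_ab D_ab (fun m hm => (D_central hm u))
  have hLsq : ∀ x ∈ L, x ^ 2 = 1 := adj_sq (fun m hm => hm.2) hu2 (fun m hm => D_central hm u)
  set C := centralizer ({u} : Set X) with hC
  have hLC : L ≤ C := fun x hx => mem_centralizer_singleton_iff.mpr (h.central_adj hx)
  have huC : u ∈ C := mem_centralizer_singleton_iff.mpr rfl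
  have hmemC : ∀ x, x ∉ C → ⁅u, x⁆ = z := by
    intro x hx
    apply (hzall _ (h.cmem u x)).resolve_left
    intro h1
    apply hx
    rw [commutatorElement_eq_one_iff_mul_comm] at h1
    exact mem_centralizer_singleton_iff.mpr h1.symm
  have hkey : ∀ w ∈ C, w ∉ L → w ^ 2 ≠ 1 := by
    intro w hwC hwL hw2
    have hww : w * w ∈ L := by rw [← pow_two, hw2]; exact one_mem _
    have hn := adj_normal (M := L) (c := w) (hc := hww) (fun x => le_adj (h.cmem w x))
    have hwu : w * u = u * w := mem_centralizer_singleton_iff.mp hwC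
    have hcm : ∀ m ∈ L, w * m = m * w := by
      rintro m (hm | hm)
      · exact D_central hm w
      · have h1 : w * (u * m) = u * m * w := D_central hm w
        have h2 : u * (w * m) = u * (m * w) := by
          calc u * (w * m) = (u * w) * m := by group
            _ = (w * u) * m := by rw [hwu]
            _ = w * (u * m) := by group
            _ = u * m * w := h1
            _ = _ := by group
        exact mul_left_cancel h2
    have hab := adj_ab (M := L) (c := w) (hc := hww) hLab hcm
    have hsq := adj_sq (M := L) (c := w) (hc := hww) hLsq hw2 hcm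
    have h1 := S.noE8 _ hn hab hsq
    rw [card_adj hwL, hLcard] at h1
    omega
  have hCle : Nat.card C ≤ 16 := by
    have := h.card_le_of_aniso (T := ⊥) hTbot hLC
      (fun w hw hwL h2 => hkey w hw hwL (by simpa using h2))
    rw [hLcard] at this
    omega
  have hCne : C ≠ ⊤ := by
    intro h1
    apply huD
    refine ⟨?_, hu2⟩
    rw [mem_center_iff]
    intro g
    have : g ∈ C := by rw [h1]; exact mem_top g
    exact mem_centralizer_singleton_iff.mp this
  have hidx : C.index = 2 := by
    have h1 := h.index_centralizer_le u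
    rw [hD2] at h1
    have h2 : C.index ≠ 1 := fun h' => hCne (index_eq_one.mp h')
    have h3 : C.index ≠ 0 := index_ne_zero_of_finite
    rw [← hC] at h1
    omega
  have hcX : Nat.card C * 2 = Nat.card X := by
    rw [← hidx]; exact card_mul_index C
  have hEx : Cfsg.IsExtraspecial 2 X := ⟨h.isSpecial S, by rw [h.cen]; exact hD2⟩
  obtain ⟨n, hn1, hn⟩ := Cfsg.Agent.Lib.PGroups.Special.IsExtraspecial.card_eq hEx
  have hn2 : n = 1 ∨ n = 2 := by
    by_contra hne
    push Not at hne
    have h2 : 3 ≤ n := by omega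
    have h3 : 2 ^ 7 ≤ 2 ^ (2 * n + 1) := Nat.pow_le_pow_right (by norm_num) (by omega)
    rw [← hn, ← hcX] at h3
    omega
  rcases hn2 with rfl | rfl
  · -- order 8
    exfalso
    have hCL : L = C := eq_of_le_of_card_ge hLC (by rw [hLcard]; norm_num at hn; omega)
    obtain ⟨r, hr⟩ := h.exists_sq_ne hna
    have hr2 : r ^ 2 = z := (hzall _ (h.sq r)).resolve_left hr
    have hrC : r ∉ C := fun h' => hr (hLsq r (hCL ▸ h'))
    have hur := hmemC r hrC
    apply hr
    have hrD : r ∈ D X := by
      apply S.mem_of_fixed_mod (N := D X) (D_inv A) (le_of_eq h.com)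
      intro φ hφ
      have hy2 : (φ r) ^ 2 = z := by
        rw [← map_pow, hr2]
        refine (hzall _ (D_inv A φ hφ z hzD)).resolve_left ?_
        intro h1
        exact hz1 (φ.injective (by rw [h1, map_one]))
      have hyC : φ r ∉ C := fun h' => hz1 (by rw [← hy2]; exact hLsq _ (hCL ▸ h'))
      have huy := hmemC _ hyC
      have hsC : r⁻¹ * φ r ∈ C := by
        rw [hC, mem_centralizer_singleton_iff]
        have h1 : ⁅u, r⁻¹ * φ r⁆ = 1 := by
          rw [comm_mul_r (h.cc u _), comm_inv_r' (h.cc u r), hur, huy]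
          simp
        rw [commutatorElement_eq_one_iff_mul_comm] at h1
        exact h1.symm
      rw [← hCL] at hsC
      rcases hsC with h1 | h1
      · exact h1
      · exfalso
        set s := r⁻¹ * φ r with hs
        have hys : φ r = r * s := by rw [hs]; group
        have hss : s ^ 2 = 1 := hLsq s (Or.inr h1)
        have hsu : s = u * (u * s) := by rw [← mul_assoc, hu1, one_mul]
        have hsr : ⁅s, r⁆ = z := by
          rw [hsu, comm_mul_l (h.cc _ r), hur]
          have : ⁅u * s, r⁆ = 1 := by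
            rw [commutatorElement_eq_one_iff_mul_comm]
            exact (D_central h1 r).symm
          rw [this, mul_one]
        have h2 : (φ r) ^ 2 = 1 := by
          rw [hys, sq_mul_central (h.cc s r), hr2, hss, hsr, mul_one]
          exact hzz
        exact hz1 (by rw [← hy2]; exact h2)
    exact hrD.2
  · -- order 32
    refine ⟨hEx, by rw [hn]; norm_num, ?_⟩
    have hc32 : Nat.card X = 32 := by rw [hn]; norm_num
    have hc16 : Nat.card C = 16 := by omega
    set Q₁ : Set X := {x | x ∉ C ∧ x ^ 2 = 1} with hQ₁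
    set Q₂ : Set X := {x | x ∉ C ∧ x ^ 2 ≠ 1} with hQ₂
    have hmulmem : ∀ x, x ∉ C → x * u ∉ C := by
      intro x hx h1
      apply hx
      have := C.mul_mem h1 (C.inv_mem huC)
      simpa using this
    have hsqu : ∀ x, x ∉ C → (x * u) ^ 2 = x ^ 2 * z := by
      intro x hx
      rw [sq_mul_central (h.cc u x), hu2, mul_one, hmemC x hx]
    have himg : Q₂ = (fun x => x * u) '' Q₁ := by
      ext x
      constructor
      · rintro ⟨hx, hx2⟩
        refine ⟨x * u, ⟨hmulmem x hx, ?_⟩, ?_⟩
        · rw [hsqu x hx, (hzall _ (h.sq x)).resolve_left hx2]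
          exact hzz
        · show x * u * u = x
          rw [mul_assoc, hu1, mul_one]
      · rintro ⟨y, ⟨hy, hy2⟩, rfl⟩
        refine ⟨hmulmem y hy, ?_⟩
        show (y * u) ^ 2 ≠ 1
        rw [hsqu y hy, hy2, one_mul]
        exact hz1
    have hn12 : Q₂.ncard = Q₁.ncard := by
      rw [himg]
      exact Set.ncard_image_of_injective _ (mul_left_injective u)
    have hunion : Q₁ ∪ Q₂ = (C : Set X)ᶜ := by
      ext x
      simp only [hQ₁, hQ₂, Set.mem_union, Set.mem_setOf_eq, Set.mem_compl_iff, SetLike.mem_coe]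
      tauto
    have hdisj : Disjoint Q₁ Q₂ := by
      rw [Set.disjoint_left]
      rintro x ⟨_, h1⟩ ⟨_, h2⟩
      exact h2 h1
    have hcompl : ((C : Set X)ᶜ).ncard = 16 := by
      rw [Set.ncard_compl (C : Set X) (Set.toFinite _) (Set.toFinite _), ncard_sub]
      omega
    have hn1' : Q₁.ncard = 8 := by
      have h1 := Set.ncard_union_eq hdisj (Set.toFinite _) (Set.toFinite _)
      rw [hunion, hcompl] at h1
      omega
    have hP : {x : X | x ^ 2 = 1} = (L : Set X) ∪ Q₁ := by
      ext x
      simp only [hQ₁, Set.mem_union, Set.mem_setOf_eq, SetLike.mem_coe]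
      constructor
      · intro h1
        by_cases hxC : x ∈ C
        · left
          by_contra hxL
          exact hkey x hxC hxL h1
        · exact Or.inr ⟨hxC, h1⟩
      · rintro (h1 | h1)
        · exact hLsq x h1
        · exact h1.2
    have hPd : Disjoint (L : Set X) Q₁ := by
      rw [Set.disjoint_left]
      rintro x hx ⟨h1, _⟩
      exact h1 (hLC hx)
    have hPc : {x : X | x ^ 2 = 1}.ncard = 12 := by
      rw [hP, Set.ncard_union_eq hPd (Set.toFinite _) (Set.toFinite _), ncard_sub, hLcard, hn1']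
    have hord : {x : X | orderOf x = 2} = {x : X | x ^ 2 = 1} \ {1} := by
      ext x
      simp only [Set.mem_setOf_eq, Set.mem_sdiff, Set.mem_singleton_iff]
      constructor
      · intro h1
        refine ⟨by rw [← h1]; exact pow_orderOf_eq_one x, ?_⟩
        rintro rfl
        rw [orderOf_one] at h1
        omega
      · rintro ⟨h1, h2⟩
        exact orderOf_eq_prime h1 h2
    show Nat.card ({x : X | orderOf x = 2} : Set X) = 11
    rw [Nat.card_coe_set_eq, hord, Set.ncard_sdiff_singleton_of_mem (by simp), hPc]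

end Sp

end Cfsg.Agent.Lib.NGP
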