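import Cfsg.Agent.Lib.NGP.Final1

/-!
# The case `|D| = 4`.
-/

set_option autoImplicit false
set_option linter.unusedSectionVars false
set_option linter.unusedVariables false

namespace Cfsg.Agent.Lib.NGP

open Subgroup
open scoped commutatorElement

variable {X : Type*} [Group X] [Finite X] {A : Subgroup (MulAut X)}

namespace Sp

variable (h : Sp X)
include h

theorem anis4 (S : Setup A) (hD4 : Nat.card (D X) = 4) : ∀ x : X, x ^ 2 = 1 → x ∈ D X := by
  intro x hx
  by_contra hxD
  have hxx : x * x ∈ D X := by rw [← pow_two, hx]; exact one_mem _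
  have hn := adj_normal (M := D X) (c := x) (hc := hxx) (fun y => h.cmem x y)
  have hab := adj_ab (M := D X) (c := x) (hc := hxx) D_ab (fun m hm => D_central hm x)
  have hsq := adj_sq (M := D X) (c := x) (hc := hxx) (fun m hm => hm.2) hx
    (fun m hm => D_central hm x)
  have h1 := S.noE8 _ hn hab hsq
  rw [card_adj hxD, hD4] at h1
  omega

theorem hT4 (hD4 : Nat.card (D X) = 4) {z : X} (hz : z ∈ D X) (hz1 : z ≠ 1) (a b : X)
    (ha : a ∈ D X) (hb : b ∈ D X) (ha1 : a ∉ zpowers z) (hb1 : b ∉ zpowers z) :
    a * b ∈ zpowers z := by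
  have hza : z ≠ a := fun h' => ha1 (h' ▸ mem_zpowers z)
  have ha0 : a ≠ 1 := fun h' => ha1 (h' ▸ one_mem _)
  have haa : a * a = 1 := by rw [← pow_two]; exact ha.2
  rcases four (E := D X) (by omega) (fun m hm => hm.2) hz ha hb hz1 ha0 hza with h1 | h1 | h1 | h1
  · exact absurd (h1 ▸ one_mem _) hb1
  · exact absurd (h1 ▸ mem_zpowers z) hb1
  · rw [h1, haa]; exact one_mem _
  · rw [h1]
    have : a * (z * a) = z := by
      rw [← mul_assoc, D_central hz a, mul_assoc, haa, mul_one]
    rw [this]
    exact mem_zpowers z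

theorem card_cent_le (S : Setup A) (hD4 : Nat.card (D X) = 4) {u : X} (huD : u ∉ D X) :
    Nat.card (centralizer ({u} : Set X)) ≤ 32 := by
  have hanis := h.anis4 S hD4
  have hz : u ^ 2 ∈ D X := h.sq u
  set z := u ^ 2 with hzdef
  have hz1 : z ≠ 1 := fun h' => huD (hanis u h')
  have huu : u * u ∈ D X := by rw [← pow_two]; exact hz
  have hLc : Nat.card (adj (D X) u huu) = 8 := by rw [card_adj huD, hD4]
  have hLC : adj (D X) u huu ≤ centralizer ({u} : Set X) :=
    fun x hx => mem_centralizer_singleton_iff.mpr (h.central_adj hx)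
  have := h.card_le_of_aniso (T := zpowers z) (fun a b => h.hT4 hD4 hz hz1 a b) hLC
    (fun w hwC hwL h2 => by
      rcases (mem_zpowers_of_sq_one hz.2).mp h2 with h3 | h3
      · exact hwL (le_adj (hanis w h3))
      · apply hwL
        have hwu : Commute w u := mem_centralizer_singleton_iff.mp hwC
        have h4 : (w * u⁻¹) ^ 2 = 1 := by
          rw [(hwu.inv_right).mul_pow, h3, inv_pow, ← hzdef, mul_inv_cancel]
        have h5 := hanis _ h4
        refine Or.inr ?_
        have h6 : u * w = z * (w * u⁻¹) := by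
          rw [hzdef, pow_two]
          calc u * w = u * (w * u) * u⁻¹ := by group
            _ = u * (u * w) * u⁻¹ := by rw [hwu.eq]
            _ = u * u * (w * u⁻¹) := by group
        rw [h6]
        exact (D X).mul_mem hz h5)
  rw [hLc] at this
  omega

theorem index_le4 (hD4 : Nat.card (D X) = 4) (u : X) :
    (centralizer ({u} : Set X)).index ≤ 4 := by
  have := h.index_centralizer_le u
  rwa [hD4] at this

theorem card_le_128 (S : Setup A) (hD4 : Nat.card (D X) = 4) {u : X} (huD : u ∉ D X) :
    Nat.card X ≤ 128 := by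
  have h1 := h.card_cent_le S hD4 huD
  have h2 := h.index_le4 hD4 u
  rw [← card_mul_index (centralizer ({u} : Set X))]
  calc _ ≤ 32 * 4 := Nat.mul_le_mul h1 h2
    _ = 128 := by norm_num

/-- Order 128 is impossible: the quotient by a central involution would be `ExtraLike`. -/
theorem not128 (S : Setup A) (hD4 : Nat.card (D X) = 4) (hc : Nat.card X = 128) : False := by
  have hsurj : ∀ u : X, u ∉ D X → ∀ d ∈ D X, ∃ y : X, ⁅u, y⁆ = d := by
    intro u hu d hd
    have h1 := h.card_cent_le S hD4 hu
    have h2 := card_mul_index (centralizer ({u} : Set X))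
    have h3 := index_ker (h.commD u)
    rw [h.ker_commD] at h3
    have h4 : (h.commD u).range = ⊤ := by
      apply eq_top_of_card_eq
      rw [← h3, hD4]
      have h5 := h.index_le4 hD4 u
      rw [hc] at h2
      by_contra hne
      have h6 : (centralizer ({u} : Set X)).index ≤ 3 := by omega
      have h7 : Nat.card (centralizer ({u} : Set X)) * (centralizer ({u} : Set X)).index ≤ 32 * 3 :=
        Nat.mul_le_mul h1 h6
      omega
    have h5 : (⟨d, hd⟩ : D X) ∈ (h.commD u).range := by rw [h4]; exact mem_top _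
    obtain ⟨y, hy⟩ := h5
    exact ⟨y, congrArg Subtype.val hy⟩
  obtain ⟨z₀, hz₀, hz₀1⟩ : ∃ z₀ ∈ D X, z₀ ≠ 1 := by
    rcases (D X).bot_or_exists_ne_one with h1 | h1
    · rw [h1] at hD4
      simp at hD4
    · exact h1
  have hoz : orderOf z₀ = 2 := orderOf_eq_prime hz₀.2 hz₀1
  set N := zpowers z₀ with hN
  have hNcard : Nat.card N = 2 := by rw [hN, Nat.card_zpowers, hoz]
  have hND : N ≤ D X := by rw [hN, zpowers_le]; exact hz₀
  haveI hNn : N.Normal := by
    constructor
    intro n hn g
    have := mem_center_iff.mp (hND hn).1 g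
    rw [this]
    simpa using hn
  obtain ⟨a, haD, haN⟩ : ∃ a ∈ D X, a ∉ N := by
    by_contra hcon
    push Not at hcon
    have : Nat.card (D X) ≤ Nat.card N := card_le_of_le hcon
    omega
  have ha1 : a ≠ 1 := fun h' => haN (h' ▸ one_mem _)
  have hcent : ∀ d ∈ D X, ((d : X) : X ⧸ N) ∈ center (X ⧸ N) := by
    intro d hd
    rw [mem_center_iff]
    intro g
    induction g using QuotientGroup.induction_on with
    | H g =>
      rw [← QuotientGroup.mk_mul, ← QuotientGroup.mk_mul, D_central hd g]
  have hoa : orderOf ((a : X) : X ⧸ N) = 2 := by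
    apply orderOf_eq_prime
    · rw [← QuotientGroup.mk_pow, haD.2]
      rfl
    · intro h1
      exact haN ((QuotientGroup.eq_one_iff a).mp h1)
  have hcenter : center (X ⧸ N) = zpowers ((a : X) : X ⧸ N) := by
    apply le_antisymm
    · intro g hg
      induction g using QuotientGroup.induction_on with
      | H x =>
        by_cases hx : x ∈ D X
        · have hz₀a : z₀ ≠ a := fun h' => haN (h' ▸ mem_zpowers z₀)
          have hzm : ((z₀ : X) : X ⧸ N) = 1 := (QuotientGroup.eq_one_iff z₀).mpr (mem_zpowers z₀)
          rcases four (E := D X) (by omega) (fun m hm => hm.2) hz₀ haD hx hz₀1 ha1 hz₀a with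
            h1 | h1 | h1 | h1
          · rw [h1]
            exact one_mem _
          · rw [h1, hzm]
            exact one_mem _
          · rw [h1]
            exact mem_zpowers _
          · rw [h1, QuotientGroup.mk_mul, hzm, one_mul]
            exact mem_zpowers _
        · exfalso
          obtain ⟨y, hy⟩ := hsurj x hx a haD
          apply haN
          rw [← QuotientGroup.eq_one_iff, ← hy]
          have h1 := mem_center_iff.mp hg (y : X ⧸ N)
          rw [← QuotientGroup.mk_mul, ← QuotientGroup.mk_mul] at h1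
          rw [commutatorElement_def]
          simp only [QuotientGroup.mk_mul, QuotientGroup.mk_inv]
          rw [QuotientGroup.mk_mul, QuotientGroup.mk_mul] at h1
          rw [← h1]
          group
    · rw [zpowers_le]
      exact hcent a haD
  have hE : Cfsg.Agent.Lib.PGroups.Special.ExtraLike 2 (X ⧸ N) := by
    refine ⟨S.two.to_quotient N, ?_, ?_, ?_⟩
    · rw [hcenter, Nat.card_zpowers, hoa]
    · intro x y
      induction x using QuotientGroup.induction_on with
      | H x =>
        induction y using QuotientGroup.induction_on with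
        | H y =>
          have : ⁅(x : X ⧸ N), (y : X ⧸ N)⁆ = ((⁅x, y⁆ : X) : X ⧸ N) := by
            simp only [commutatorElement_def, QuotientGroup.mk_mul, QuotientGroup.mk_inv]
          rw [this]
          exact hcent _ (h.cmem x y)
    · intro x
      induction x using QuotientGroup.induction_on with
      | H x =>
        rw [← QuotientGroup.mk_pow]
        exact hcent _ (h.sq x)
  obtain ⟨n, hn⟩ := Cfsg.Agent.Lib.PGroups.Special.ExtraLike.card_eq hE
  have h1 := Subgroup.card_eq_card_quotient_mul_card_subgroup N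
  rw [hc, hNcard, hn] at h1
  have h2 : 2 ^ (2 * n + 1) = 2 ^ 6 := by omega
  have h3 := Nat.pow_right_injective (le_refl 2) h2
  omega

/-- The subgroup containing `D` and two non-commuting elements, in the group of order 16. -/
theorem top_of (hD4 : Nat.card (D X) = 4) (hc : Nat.card X = 16) {a b : X} (hab : ⁅a, b⁆ ≠ 1)
    {H : Subgroup X} (hDH : D X ≤ H) (ha : a ∈ H) (hb : b ∈ H) : H = ⊤ := by
  have haD : a ∉ D X := by
    intro h1
    apply hab
    rw [commutatorElement_eq_one_iff_mul_comm]
    exact (D_central h1 b).symm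
  have haa : a * a ∈ D X := by rw [← pow_two]; exact h.sq a
  have hL : adj (D X) a haa ≤ H := by
    rintro x (hx | hx)
    · exact hDH hx
    · have := H.mul_mem (H.inv_mem ha) (hDH hx)
      simpa using this
  have hbL : b ∉ adj (D X) a haa := by
    intro h1
    apply hab
    rw [commutatorElement_eq_one_iff_mul_comm]
    exact (h.central_adj h1).symm
  have hcL : Nat.card (adj (D X) a haa) = 8 := by rw [card_adj haD, hD4]
  have h8 : Nat.card (adj (D X) a haa) ∣ Nat.card H := card_dvd_of_le hL
  have hd : Nat.card H ∣ 16 := by rw [← hc]; exact card_subgroup_dvd_card H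
  have hle : Nat.card H ≤ 16 := Nat.le_of_dvd (by norm_num) hd
  rw [hcL] at h8
  obtain ⟨k, hk⟩ := h8
  have hne8 : Nat.card H ≠ 8 := by
    intro h1
    have := eq_of_le_of_card_ge hL (by rw [h1, hcL])
    exact hbL (this ▸ hb)
  have hk1 : k = 2 := by
    have hpos : 0 < Nat.card H := Nat.card_pos
    have : k ≠ 0 := by rintro rfl; omega
    have : k ≠ 1 := by rintro rfl; omega
    omega
  apply eq_top_of_card_eq
  rw [hc, hk, hk1]

theorem not16 (hD4 : Nat.card (D X) = 4) (hc : Nat.card X = 16)
    (hna : ∃ a b : X, a * b ≠ b * a) : False := by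
  obtain ⟨a, b, hab'⟩ := hna
  have hab : ⁅a, b⁆ ≠ 1 := fun h' => hab' ((commutatorElement_eq_one_iff_mul_comm).mp h')
  have hba : ⁅b, a⁆ ≠ 1 := fun h' => hab' ((commutatorElement_eq_one_iff_mul_comm).mp h').symm
  set c := ⁅a, b⁆ with hcdef
  have hcD : c ∈ D X := h.cmem a b
  set N := zpowers c with hN
  have hcard : Nat.card N ≤ 2 := by
    rw [hN, Nat.card_zpowers]
    exact orderOf_le_of_pow_eq_one (by norm_num) hcD.2
  have key : ∀ u : X, ⁅u, a⁆ ∈ N → ⁅u, b⁆ ∈ N → ∀ y : X, ⁅u, y⁆ ∈ N := by
    intro u h1 h2 y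
    let Q : Subgroup X := (N.subgroupOf (D X)).comap (h.commD u)
    have hmem : ∀ y : X, y ∈ Q ↔ ⁅u, y⁆ ∈ N := fun y => Iff.rfl
    have hQ : Q = ⊤ := by
      apply h.top_of hD4 hc hab _ ((hmem a).mpr h1) ((hmem b).mpr h2)
      intro d hd
      rw [hmem]
      have : ⁅u, d⁆ = 1 := by
        rw [commutatorElement_eq_one_iff_mul_comm]
        exact D_central hd u
      rw [this]
      exact one_mem _
    rw [← hmem, hQ]
    exact mem_top y
  have haall : ∀ y : X, ⁅a, y⁆ ∈ N := by
    apply key a
    · have : ⁅a, a⁆ = 1 := by simp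
      rw [this]
      exact one_mem _
    · exact mem_zpowers c
  have hball : ∀ y : X, ⁅b, y⁆ ∈ N := by
    apply key b
    · rw [h.comm_symm a b]
      exact mem_zpowers c
    · have : ⁅b, b⁆ = 1 := by simp
      rw [this]
      exact one_mem _
  let P : Subgroup X :=
    { carrier := {x | ∀ y : X, ⁅x, y⁆ ∈ N}
      one_mem' := by
        intro y
        have : ⁅(1 : X), y⁆ = 1 := by simp
        rw [this]
        exact one_mem _
      mul_mem' := by
        intro x₁ x₂ h1 h2 y
        rw [comm_mul_l (h.cc x₂ y)]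
        exact N.mul_mem (h1 y) (h2 y)
      inv_mem' := by
        intro x h1 y
        rw [comm_inv_l' (h.cc x y)]
        exact N.inv_mem (h1 y) }
  have hP : P = ⊤ := by
    refine h.top_of hD4 hc hab (H := P) ?_ haall hball
    intro d hd y
    have : ⁅d, y⁆ = 1 := by
      rw [commutatorElement_eq_one_iff_mul_comm]
      exact (D_central hd y).symm
    rw [this]
    exact one_mem _
  have hDN : D X ≤ N := by
    rw [← h.com, _root_.commutator_def, commutator_le]
    intro x _ y _
    have hx : x ∈ P := by rw [hP]; exact mem_top x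
    exact hx y
  have := card_le_of_le hDN
  omega

theorem gt8 (hD4 : Nat.card (D X) = 4) (hna : ∃ a b : X, a * b ≠ b * a) : 8 < Nat.card X := by
  obtain ⟨a, b, hab'⟩ := hna
  have haD : a ∉ D X := fun h1 => hab' (D_central h1 b).symm
  have haa : a * a ∈ D X := by rw [← pow_two]; exact h.sq a
  have hcL : Nat.card (adj (D X) a haa) = 8 := by rw [card_adj haD, hD4]
  by_contra hle
  push Not at hle
  have hL : adj (D X) a haa = ⊤ := by
    apply eq_top_of_card_eq
    apply le_antisymm (card_le_card_group _)
    rw [hcL]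
    exact hle
  have hb : b ∈ adj (D X) a haa := by rw [hL]; exact mem_top b
  exact hab' (h.central_adj hb).symm

end Sp

end Cfsg.Agent.Lib.NGP
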