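import Cfsg.Agent.Lib.NGP.Final2

/-!
# Order 32 is impossible when `|D| = 4`; the final statement.
-/

set_option autoImplicit false
set_option linter.unusedSectionVars false
set_option linter.unusedVariables false

namespace Cfsg.Agent.Lib.NGP

open Subgroup
open scoped commutatorElement

variable {X : Type*} [Group X] [Finite X] {A : Subgroup (MulAut X)}

/-- The fibre of the squaring map. -/
def Pf (z : X) : Set X := {x | x ^ 2 = z}

theorem Pf_disj {p q : X} (h : p ≠ q) : Disjoint (Pf p) (Pf q) := by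
  rw [Set.disjoint_left]
  intro x h1 h2
  exact h (h1.symm.trans h2)

theorem D_disj {p : X} (h : p ≠ 1) : Disjoint (D X : Set X) (Pf p) := by
  rw [Set.disjoint_left]
  intro x h1 h2
  exact h (h2.symm.trans h1.2)

theorem sum_three (hD4 : Nat.card (D X) = 4) {a b c : X} (ha : a ≠ 1) (hb : b ≠ 1) (hc : c ≠ 1)
    (hab : a ≠ b) (hac : a ≠ c) (hbc : b ≠ c) :
    (Pf a).ncard + (Pf b).ncard + (Pf c).ncard + 4 ≤ Nat.card X := by
  have h1 : (Pf a ∪ Pf b).ncard = (Pf a).ncard + (Pf b).ncard :=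
    Set.ncard_union_eq (Pf_disj hab) (Set.toFinite _) (Set.toFinite _)
  have h2 : ((Pf a ∪ Pf b) ∪ Pf c).ncard = (Pf a ∪ Pf b).ncard + (Pf c).ncard :=
    Set.ncard_union_eq (Set.disjoint_union_left.mpr ⟨Pf_disj hac, Pf_disj hbc⟩)
      (Set.toFinite _) (Set.toFinite _)
  have h3 : ((D X : Set X) ∪ ((Pf a ∪ Pf b) ∪ Pf c)).ncard =
      (D X : Set X).ncard + ((Pf a ∪ Pf b) ∪ Pf c).ncard :=
    Set.ncard_union_eq (Set.disjoint_union_right.mpr
      ⟨Set.disjoint_union_right.mpr ⟨D_disj ha, D_disj hb⟩, D_disj hc⟩)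
      (Set.toFinite _) (Set.toFinite _)
  have h4 : ((D X : Set X) ∪ ((Pf a ∪ Pf b) ∪ Pf c)).ncard ≤ (Set.univ : Set X).ncard :=
    Set.ncard_le_ncard (Set.subset_univ _) (Set.toFinite _)
  rw [Set.ncard_univ] at h4
  rw [ncard_sub, hD4] at h3
  omega

theorem Pf_map (φ : MulAut X) (y : X) : (Pf (φ y)).ncard = (Pf y).ncard := by
  have : Pf (φ y) = φ '' Pf y := by
    ext x
    constructor
    · intro h1
      refine ⟨φ⁻¹ x, ?_, by simp⟩
      show (φ⁻¹ x) ^ 2 = y
      rw [← map_pow]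
      have h2 : x ^ 2 = φ y := h1
      rw [h2]
      simp
    · rintro ⟨w, hw, rfl⟩
      show (φ w) ^ 2 = φ y
      rw [← map_pow]
      exact congrArg φ hw
  rw [this]
  exact Set.ncard_image_of_injective _ φ.injective

theorem Setup.fix_mod (S : Setup A) {N : Subgroup X} (hinv : Inv A N) {φ : MulAut X} (hφ : φ ∈ A)
    {x : X} (h : x⁻¹ * φ (φ x) ∈ N) : x⁻¹ * φ x ∈ N := by
  obtain ⟨k, hk⟩ := S.odd_order hφ
  have h1 : ∀ i : ℕ, x⁻¹ * (φ ^ (2 * i)) x ∈ N := by
    intro i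
    induction i with
    | zero => simp
    | succ i ih =>
      have h3 : 2 * (i + 1) = 2 * i + 2 := by ring
      rw [h3, pow_add, MulAut.mul_apply, pow_two, MulAut.mul_apply]
      have hn : φ (φ x) = x * (x⁻¹ * φ (φ x)) := by group
      rw [hn, map_mul, ← mul_assoc]
      exact N.mul_mem ih (hinv _ (A.pow_mem hφ _) _ h)
  have h2 : φ ^ (2 * (k + 1)) = φ := by
    have : 2 * (k + 1) = orderOf φ + 1 := by omega
    rw [this, pow_succ, pow_orderOf_eq_one, one_mul]
  have := h1 (k + 1)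
  rwa [h2] at this

namespace Sp

variable (h : Sp X)
include h

theorem not32_rot (S : Setup A) (hD4 : Nat.card (D X) = 4) (hc : Nat.card X = 32)
    {φ : MulAut X} (hφ : φ ∈ A) {δ : X} (hδ : δ ∈ D X) (hne : φ δ ≠ δ) : False := by
  have R := S.rot hφ hδ hne
  have hanis := h.anis4 S hD4
  have hδ1 : δ ≠ 1 := by
    rintro rfl
    exact hne (map_one φ)
  have hφ1 : φ δ ≠ 1 := fun h' => hδ1 (φ.injective (by rw [h', map_one]))
  have hφφ1 : φ (φ δ) ≠ 1 := fun h' => hφ1 (φ.injective (by rw [h', map_one]))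
  have h12 : δ ≠ φ δ := fun h' => hne h'.symm
  have h23 : φ δ ≠ φ (φ δ) := fun h' => h12 (φ.injective h')
  have h13 : δ ≠ φ (φ δ) := by
    intro h'
    have h3 := R.rot3 δ hδ
    rw [← h'] at h3
    exact hne h3
  have hs := sum_three hD4 hδ1 hφ1 hφφ1 h12 h13 h23
  rw [Pf_map φ (φ δ), Pf_map φ δ, hc] at hs
  have hcover : ((D X : Set X))ᶜ ⊆ (Pf δ ∪ Pf (φ δ)) ∪ Pf (φ (φ δ)) := by
    intro x hx
    rcases R.cover _ (h.sq x) δ hδ hδ1 with h1 | h1 | h1 | h1
    · exact absurd (hanis x h1) hx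
    · exact Or.inl (Or.inl h1)
    · exact Or.inl (Or.inr h1)
    · exact Or.inr h1
  have h1 := Set.ncard_le_ncard hcover (Set.toFinite _)
  have h2 := Set.ncard_union_le (Pf δ ∪ Pf (φ δ)) (Pf (φ (φ δ)))
  have h3 := Set.ncard_union_le (Pf δ) (Pf (φ δ))
  rw [Pf_map φ (φ δ)] at h2
  rw [Pf_map φ δ] at h2 h3
  have h4 : ((D X : Set X))ᶜ.ncard = 28 := by
    rw [Set.ncard_compl (D X : Set X) (Set.toFinite _) (Set.toFinite _), ncard_sub, hD4, hc]
  omega

theorem coset_ncard (hD4 : Nat.card (D X) = 4) (y : X) :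
    ((fun d => y * d) '' (D X : Set X)).ncard = 4 := by
  rw [Set.ncard_image_of_injective _ (mul_right_injective y), ncard_sub, hD4]

theorem coset_sub {y z : X} (hy : y ^ 2 = z) : (fun d => y * d) '' (D X : Set X) ⊆ Pf z := by
  rintro _ ⟨d, hd, rfl⟩
  show (y * d) ^ 2 = z
  have : Commute y d := D_central hd y
  rw [this.mul_pow, hy, hd.2, mul_one]

theorem coset_disj {y y' : X} (hy : y⁻¹ * y' ∉ D X) :
    Disjoint ((fun d => y * d) '' (D X : Set X)) ((fun d => y' * d) '' (D X : Set X)) := by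
  rw [Set.disjoint_left]
  rintro _ ⟨d, hd, rfl⟩ ⟨d', hd', h1⟩
  apply hy
  have h2 : y⁻¹ * y' = d * d'⁻¹ := by
    have h3 : y' * d' = y * d := h1
    calc y⁻¹ * y' = y⁻¹ * (y' * d') * d'⁻¹ := by group
      _ = y⁻¹ * (y * d) * d'⁻¹ := by rw [h3]
      _ = d * d'⁻¹ := by group
  rw [h2]
  exact (D X).mul_mem hd ((D X).inv_mem hd')

theorem twelve (S : Setup A) (hD4 : Nat.card (D X) = 4) (hc : Nat.card X = 32)
    (htriv : ∀ φ ∈ A, ∀ d ∈ D X, φ d = d) {z : X} (hz : z ∈ D X) (hz1 : z ≠ 1) :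
    12 ≤ (Pf z).ncard := by
  have hanis := h.anis4 S hD4
  obtain ⟨x, hx⟩ : ∃ x : X, x ^ 2 = z := by
    by_contra hcon
    push Not at hcon
    have h1 := h.card_le_of_aniso (T := zpowers z) (fun a b => h.hT4 hD4 hz hz1 a b)
      (G := ⊤) (L := D X) le_top (fun w _ hwL h2 => by
        rcases (mem_zpowers_of_sq_one hz.2).mp h2 with h3 | h3
        · exact hwL (hanis w h3)
        · exact hcon w h3)
    rw [hD4, h.card_top_eq, hc] at h1
    omega
  have hxD : x ∉ D X := fun h1 => hz1 (by rw [← hx]; exact h1.2)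
  obtain ⟨φ, hφ, hφx⟩ : ∃ φ ∈ A, x⁻¹ * φ x ∉ D X := by
    by_contra hcon
    push Not at hcon
    exact hxD (S.mem_of_fixed_mod (N := D X) (D_inv A) (le_of_eq h.com) hcon)
  have hy1 : (φ x) ^ 2 = z := by rw [← map_pow, hx, htriv φ hφ z hz]
  have hy2 : (φ (φ x)) ^ 2 = z := by rw [← map_pow, hy1, htriv φ hφ z hz]
  have h12 : (φ x)⁻¹ * φ (φ x) ∉ D X := by
    intro h1
    apply hφx
    have h2 := D_inv A φ⁻¹ (A.inv_mem hφ) _ h1
    simpa using h2
  have h13 : x⁻¹ * φ (φ x) ∉ D X := fun h1 => hφx (S.fix_mod (D_inv A) hφ h1)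
  have d1 := h.coset_disj hφx
  have d2 := h.coset_disj h12
  have d3 := h.coset_disj h13
  have h1 := Set.ncard_union_eq d1 (Set.toFinite _) (Set.toFinite _)
  have h2 := Set.ncard_union_eq (Set.disjoint_union_left.mpr ⟨d3, d2⟩)
    (Set.toFinite _) (Set.toFinite _)
  rw [h.coset_ncard hD4 x, h.coset_ncard hD4 (φ x)] at h1
  rw [h1, h.coset_ncard hD4 (φ (φ x))] at h2
  have hsub : (((fun d => x * d) '' (D X : Set X)) ∪ ((fun d => φ x * d) '' (D X : Set X))) ∪
      ((fun d => φ (φ x) * d) '' (D X : Set X)) ⊆ Pf z :=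
    Set.union_subset (Set.union_subset (h.coset_sub hx) (h.coset_sub hy1)) (h.coset_sub hy2)
  have h3 := Set.ncard_le_ncard hsub (Set.toFinite _)
  omega

theorem not32 (S : Setup A) (hD4 : Nat.card (D X) = 4) (hc : Nat.card X = 32) : False := by
  by_cases htriv : ∀ φ ∈ A, ∀ d ∈ D X, φ d = d
  · obtain ⟨d₁, hd₁, hd₁1⟩ : ∃ d ∈ D X, d ≠ 1 := by
      rcases (D X).bot_or_exists_ne_one with h1 | h1
      · rw [h1] at hD4
        simp at hD4
      · exact h1
    obtain ⟨d₂, hd₂, hd₂1, hd₁₂⟩ : ∃ d ∈ D X, d ≠ 1 ∧ d₁ ≠ d := by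
      by_contra hcon
      push Not at hcon
      have h1 : D X ≤ zpowers d₁ := by
        intro d hd
        by_cases hd1 : d = 1
        · rw [hd1]; exact one_mem _
        · rw [← hcon d hd hd1]
          exact mem_zpowers d₁
      have h2 := card_le_of_le h1
      rw [Nat.card_zpowers, hD4] at h2
      have h3 := orderOf_le_of_pow_eq_one (by norm_num) hd₁.2
      omega
    have h3 : d₁ * d₂ ≠ 1 := by
      intro h'
      apply hd₁₂
      have h4 : d₁ * d₁ = 1 := by rw [← pow_two]; exact hd₁.2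
      exact mul_left_cancel (h4.trans h'.symm)
    have h4 : d₁ ≠ d₁ * d₂ := by
      intro h'
      apply hd₂1
      exact (mul_left_cancel (a := d₁) ((mul_one d₁).trans h')).symm
    have h5 : d₂ ≠ d₁ * d₂ := by
      intro h'
      apply hd₁1
      have : (1 : X) * d₂ = d₁ * d₂ := by rw [one_mul]; exact h'
      exact (mul_right_cancel this).symm
    have hs := sum_three hD4 hd₁1 hd₂1 h3 hd₁₂ h4 h5
    have a1 := h.twelve S hD4 hc htriv hd₁ hd₁1
    have a2 := h.twelve S hD4 hc htriv hd₂ hd₂1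
    have a3 := h.twelve S hD4 hc htriv ((D X).mul_mem hd₁ hd₂) h3
    omega
  · push Not at htriv
    obtain ⟨φ, hφ, d, hd, hne⟩ := htriv
    exact h.not32_rot S hD4 hc hφ hd hne

/-- The case `|D| = 4`. -/
theorem sp4 (S : Setup A) (hna : ∃ a b : X, a * b ≠ b * a) (hD4 : Nat.card (D X) = 4) :
    Cfsg.IsSpecial 2 X ∧ Nat.card X = 64 ∧ Nat.card {x : X // orderOf x = 2} = 3 ∧
      ∀ x : X, orderOf x = 2 → x ∈ center X := by
  have hanis := h.anis4 S hD4
  have hord : ∀ x : X, orderOf x = 2 → x ^ 2 = 1 := by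
    intro x hx
    rw [← hx]
    exact pow_orderOf_eq_one x
  refine ⟨h.isSpecial S, ?_, ?_, fun x hx => (hanis x (hord x hx)).1⟩
  · obtain ⟨k, hk⟩ := S.two.exists_card_eq
    have h1 := h.gt8 hD4 hna
    obtain ⟨a, b, hab⟩ := hna
    have haD : a ∉ D X := fun h' => hab (D_central h' b).symm
    have h2 := h.card_le_128 S hD4 haD
    have hk1 : 4 ≤ k := by
      by_contra hlt
      have : k ≤ 3 := by omega
      have h3 : 2 ^ k ≤ 2 ^ 3 := Nat.pow_le_pow_right (by norm_num) this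
      omega
    have hk2 : k ≤ 7 := by
      by_contra hlt
      have : 8 ≤ k := by omega
      have h3 : 2 ^ 8 ≤ 2 ^ k := Nat.pow_le_pow_right (by norm_num) this
      omega
    interval_cases k
    · exact (h.not16 hD4 (by rw [hk]; norm_num) ⟨a, b, hab⟩).elim
    · exact (h.not32 S hD4 (by rw [hk]; norm_num)).elim
    · rw [hk]; norm_num
    · exact (h.not128 S hD4 (by rw [hk]; norm_num)).elim
  · have hset : {x : X | orderOf x = 2} = (D X : Set X) \ {1} := by
      ext x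
      simp only [Set.mem_ofPred_eq, Set.mem_sdiff, Set.mem_singleton_iff, SetLike.mem_coe]
      constructor
      · intro h1
        refine ⟨hanis x (hord x h1), ?_⟩
        rintro rfl
        rw [orderOf_one] at h1
        omega
      · rintro ⟨h1, h2⟩
        exact orderOf_eq_prime h1.2 h2
    show Nat.card ({x : X | orderOf x = 2} : Set X) = 3
    rw [Nat.card_coe_set_eq, hset, Set.ncard_sdiff_singleton_of_mem (one_mem (D X)), ncard_sub, hD4]

end Sp

/-- The theorem. -/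
theorem final (S : Setup A) (hna : ∃ a b : X, a * b ≠ b * a) :
    Nonempty (X ≃* QuaternionGroup 2) ∨
      (Cfsg.IsSpecial 2 X ∧ Nat.card X = 64 ∧ Nat.card {x : X // orderOf x = 2} = 3 ∧
        ∀ x : X, orderOf x = 2 → x ∈ Subgroup.center X) ∨
      (Cfsg.IsExtraspecial 2 X ∧ Nat.card X = 32 ∧ Nat.card {x : X // orderOf x = 2} = 11) := by
  obtain ⟨h1, h2, h3⟩ := S.main hna
  have h : Sp X := ⟨h1, h2, h3⟩
  have hc4 := S.card_D
  have hcard : Nat.card (D X) = 2 ∨ Nat.card (D X) = 4 := by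
    obtain ⟨k, hk⟩ := (S.two.to_subgroup (D X)).exists_card_eq
    have hk0 : k ≠ 0 := by
      rintro rfl
      obtain ⟨a, b, hab⟩ := hna
      rw [pow_zero] at hk
      have h4 : D X = ⊥ := (eq_bot_iff_card (D X)).mpr hk
      have h5 := h.cmem a b
      rw [h4, mem_bot, commutatorElement_eq_one_iff_mul_comm] at h5
      exact hab h5
    have hk2 : k ≤ 2 := by
      by_contra hlt
      have : 3 ≤ k := by omega
      have h6 : 2 ^ 3 ≤ 2 ^ k := Nat.pow_le_pow_right (by norm_num) this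
      omega
    have hk1 : k = 1 ∨ k = 2 := by omega
    rcases hk1 with rfl | rfl
    · left; rw [hk]; norm_num
    · right; rw [hk]; norm_num
  rcases hcard with hD2 | hD4
  · by_cases hanis : ∀ x : X, x ^ 2 = 1 → x ∈ D X
    · exact Or.inl (h.ex_iso_case S hna hD2 hanis)
    · push Not at hanis
      obtain ⟨u, hu2, huD⟩ := hanis
      exact Or.inr (Or.inr (h.ex_inv_case S hna hD2 hu2 huD))
  · exact Or.inr (Or.inl (h.sp4 S hna hD4))

end Cfsg.Agent.Lib.NGP
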