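import Cfsg.Agent.Lib.NGP.CaseB

/-!
# The maximal invariant normal abelian subgroup over an abelian `K`.
-/

set_option autoImplicit false
set_option linter.unusedSectionVars false
set_option linter.unusedVariables false

namespace Cfsg.Agent.Lib.NGP

open Subgroup
open scoped commutatorElement

variable {X : Type*} [Group X] [Finite X] {A : Subgroup (MulAut X)}

/-- `Ω₁Z(X/M)`. -/
def Sec (M : Subgroup X) [hM : M.Normal] : Subgroup X where
  carrier := {y | y * y ∈ M ∧ ∀ x, ⁅y, x⁆ ∈ M}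
  one_mem' := ⟨by simpa using M.one_mem, fun x => by simpa using M.one_mem⟩
  mul_mem' := by
    rintro a b ⟨ha, ha'⟩ ⟨hb, hb'⟩
    have hia : ∀ x, ⁅a⁻¹, x⁆ ∈ M := by
      intro x
      have h1 : ⁅a⁻¹, x⁆ = a⁻¹ * ⁅a, x⁆⁻¹ * a := by
        simp only [commutatorElement_def]; group
      rw [h1]
      have := hM.conj_mem _ (M.inv_mem (ha' x)) a⁻¹
      simpa using this
    refine ⟨?_, fun x => ?_⟩
    · have h1 : a * b * (a * b) = a * a * ⁅a⁻¹, b⁆ * (b * b) := by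
        simp only [commutatorElement_def]; group
      rw [h1]
      exact M.mul_mem (M.mul_mem ha (hia b)) hb
    · have h1 : ⁅a * b, x⁆ = a * ⁅b, x⁆ * a⁻¹ * ⁅a, x⁆ := by
        simp only [commutatorElement_def]; group
      rw [h1]
      exact M.mul_mem (hM.conj_mem _ (hb' x) a) (ha' x)
  inv_mem' := by
    rintro a ⟨ha, ha'⟩
    refine ⟨?_, fun x => ?_⟩
    · have h1 : a⁻¹ * a⁻¹ = (a * a)⁻¹ := by group
      rw [h1]
      exact M.inv_mem ha
    · have h1 : ⁅a⁻¹, x⁆ = a⁻¹ * ⁅a, x⁆⁻¹ * a := by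
        simp only [commutatorElement_def]; group
      rw [h1]
      have := hM.conj_mem _ (M.inv_mem (ha' x)) a⁻¹
      simpa using this

theorem mem_Sec {M : Subgroup X} [hM : M.Normal] {y : X} :
    y ∈ Sec M ↔ y * y ∈ M ∧ ∀ x, ⁅y, x⁆ ∈ M := Iff.rfl

theorem le_Sec {M : Subgroup X} [hM : M.Normal] : M ≤ Sec M := by
  intro m hm
  refine ⟨M.mul_mem hm hm, fun x => ?_⟩
  rw [commutatorElement_def]
  have := M.mul_mem hm (hM.conj_mem _ (M.inv_mem hm) x)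
  simpa [mul_assoc] using this

instance Sec_normal {M : Subgroup X} [hM : M.Normal] : (Sec M).Normal := by
  constructor
  intro y hy g
  rw [conj_eq_comm_mul]
  refine (Sec M).mul_mem (le_Sec ?_) hy
  have h : ⁅g, y⁆ = ⁅y, g⁆⁻¹ := (commutatorElement_inv y g).symm
  rw [h]
  exact M.inv_mem (hy.2 g)

theorem Sec_inv {M : Subgroup X} [hM : M.Normal] (hi : Inv A M) : Inv A (Sec M) := by
  rintro φ hφ y ⟨h1, h2⟩
  refine ⟨?_, fun x => ?_⟩
  · rw [← map_mul]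
    exact hi φ hφ _ h1
  · have : ⁅φ y, x⁆ = φ ⁅y, φ⁻¹ x⁆ := by
      rw [comm_map]; simp
    rw [this]
    exact hi φ hφ _ (h2 _)

/-- The maximal subgroup `M`. -/
structure MaxM (A : Subgroup (MulAut X)) (φ : MulAut X) (M : Subgroup X) : Prop where
  H : CaseB A φ
  Mn : M.Normal
  Minv : Inv A M
  Mab : Ab M
  KM : K X ≤ M
  max : ∀ M' : Subgroup X, M'.Normal → Inv A M' → Ab M' → M ≤ M' → M' ≤ M

theorem CaseB.exists_maxM {φ : MulAut X} (H : CaseB A φ) : ∃ M, MaxM A φ M := by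
  let s : Set (Subgroup X) := {M | M.Normal ∧ Inv A M ∧ Ab M ∧ K X ≤ M}
  have hK : K X ∈ s := ⟨inferInstance, K_inv A, H.Kab, le_rfl⟩
  obtain ⟨M, hKM, hM⟩ := (Set.toFinite s).exists_le_maximal hK
  refine ⟨M, H, hM.1.1, hM.1.2.1, hM.1.2.2.1, hM.1.2.2.2, ?_⟩
  intro M' h1 h2 h3 h4
  exact hM.2 ⟨h1, h2, h3, hM.1.2.2.2.trans h4⟩ h4

namespace MaxM

variable {φ : MulAut X} {M : Subgroup X} (W : MaxM A φ M)
include W

theorem R : Rot A φ := W.H.R

theorem S : Setup A := W.H.R.S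

theorem hφ : φ ∈ A := W.H.R.hφ

theorem m1 {m : X} (hm : m ∈ M) (h : m ^ 2 = 1) : m ∈ D X :=
  haveI := W.Mn
  W.S.mem_D_of W.Minv W.Mab hm h

theorem comm_in {m : X} (hm : m ∈ M) (x : X) : ⁅m, x⁆ ∈ M := by
  have := W.Mn
  rw [commutatorElement_def]
  have := M.mul_mem hm (this.conj_mem _ (M.inv_mem hm) x)
  simpa [mul_assoc] using this

theorem m3 {m : X} (hm : m ∈ M) (x : X) : ⁅m * m, x⁆ = ⁅m, x⁆ ^ 2 := by
  rw [comm_sq, W.Mab m hm _ (W.comm_in hm x), mul_inv_cancel_right, pow_two]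

theorem m2 {m : X} (hm : m ∈ M) (h : m ^ 2 ∈ D X) : m ∈ K X := by
  refine ⟨h, fun x => ?_⟩
  apply W.m1 (W.comm_in hm x)
  rw [← W.m3 hm x, commutatorElement_eq_one_iff_mul_comm]
  rw [pow_two] at h
  exact (D_central h x).symm

theorem DM : D X ≤ M := D_le_K.trans W.KM

/-- The power map `M → D` with kernel the squares. -/
theorem exists_P : ∃ n : ℕ, 1 ≤ n ∧ (∀ m ∈ M, m ^ (2 ^ n) ∈ D X) ∧
    (∀ m ∈ M, m ^ (2 ^ n) = 1 → ∃ m' ∈ M, m = m' ^ 2) ∧ (∃ m ∈ M, m ^ (2 ^ n) ≠ 1) := by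
  classical
  have R := W.R
  obtain ⟨k₀, hk₀, hk₀D⟩ := W.H.k₀
  have hex : ∃ j : ℕ, ∀ m ∈ M, m ^ (2 ^ j) = 1 := by
    obtain ⟨N, hN⟩ := W.S.two.exists_card_eq
    refine ⟨N, fun m _ => ?_⟩
    rw [← hN]
    exact pow_card_eq_one'
  set j := Nat.find hex with hj
  have hjspec : ∀ m ∈ M, m ^ (2 ^ j) = 1 := Nat.find_spec hex
  have hj2 : 2 ≤ j := by
    by_contra hlt
    have hle : 2 ^ j ∣ 2 := by
      have : j ≤ 1 := by omega
      exact (Nat.pow_dvd_pow 2 this).trans (by norm_num)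
    have h1 : k₀ ^ 2 = 1 := by
      obtain ⟨c, hc⟩ := hle
      rw [hc, pow_mul, hjspec k₀ (W.KM hk₀), one_pow]
    exact hk₀D (R.anis hk₀ h1)
  have hmin : ¬ ∀ m ∈ M, m ^ (2 ^ (j - 1)) = 1 := Nat.find_min hex (by omega)
  push Not at hmin
  obtain ⟨m₁, hm₁, hm₁P⟩ := hmin
  set n := j - 1 with hn
  have hn1 : 1 ≤ n := by omega
  have hjn : j = n + 1 := by omega
  have hPD : ∀ m ∈ M, m ^ (2 ^ n) ∈ D X := by
    intro m hm
    apply W.m1 (M.pow_mem hm _)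
    rw [← pow_mul, ← pow_succ, ← hjn]
    exact hjspec m hm
  refine ⟨n, hn1, hPD, ?_, m₁, hm₁, hm₁P⟩
  -- counting
  have hcomm : ∀ (a b : M) (t : ℕ), ((a : X) * b) ^ t = (a : X) ^ t * (b : X) ^ t := by
    intro a b t
    have : Commute (a : X) (b : X) := W.Mab _ a.2 _ b.2
    exact this.mul_pow t
  let f : M →* X := MonoidHom.mk' (fun m => (m : X) ^ 2) (fun a b => by
    simpa using hcomm a b 2)
  let g : M →* X := MonoidHom.mk' (fun m => (m : X) ^ (2 ^ n)) (fun a b => by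
    simpa using hcomm a b (2 ^ n))
  have hf : ∀ m : M, f m = (m : X) ^ 2 := fun m => rfl
  have hg : ∀ m : M, g m = (m : X) ^ (2 ^ n) := fun m => rfl
  have hkerf : (f.ker).map M.subtype = D X := by
    ext x
    constructor
    · rintro ⟨m, hm, rfl⟩
      exact W.m1 m.2 hm
    · intro hx
      exact ⟨⟨x, W.DM hx⟩, hx.2, rfl⟩
  have hrangeg : g.range = D X := by
    apply le_antisymm
    · rintro _ ⟨m, rfl⟩
      exact hPD _ m.2
    · intro d hd
      have hδ := hPD m₁ hm₁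
      have hm₁' : φ m₁ ∈ M := W.Minv φ W.hφ _ hm₁
      have hm₁'' : φ (φ m₁) ∈ M := W.Minv φ W.hφ _ hm₁'
      rcases R.cover d hd _ hδ hm₁P with h | h | h | h
      · rw [h]; exact g.range.one_mem
      · exact ⟨⟨m₁, hm₁⟩, h.symm⟩
      · exact ⟨⟨φ m₁, hm₁'⟩, by rw [hg, h, map_pow]⟩
      · exact ⟨⟨φ (φ m₁), hm₁''⟩, by rw [hg, h, map_pow, map_pow]⟩
  have hcf : Nat.card f.ker = 4 := by
    rw [← R.card, ← hkerf, Subgroup.card_subtype]
  have hcg : Nat.card g.range = 4 := by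
    rw [hrangeg, R.card]
  have h1 := Subgroup.card_mul_index f.ker
  have h2 := Subgroup.card_mul_index g.ker
  rw [Subgroup.index_ker] at h1 h2
  rw [hcf] at h1
  rw [hcg] at h2
  have h3 : Nat.card f.range = Nat.card g.ker := by omega
  intro x hx hxP
  have hle : f.range ≤ (g.ker).map M.subtype := by
    rintro _ ⟨m, rfl⟩
    refine ⟨⟨(m : X) ^ 2, M.pow_mem m.2 2⟩, ?_, rfl⟩
    show ((m : X) ^ 2) ^ (2 ^ n) = 1
    rw [← pow_mul, mul_comm, ← pow_succ, ← hjn]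
    exact hjspec _ m.2
  have heq := eq_of_le_of_card_ge hle (by rw [Subgroup.card_subtype, h3])
  have hxm : x ∈ (g.ker).map M.subtype := ⟨⟨x, hx⟩, hxP, rfl⟩
  rw [← heq] at hxm
  obtain ⟨m, hm⟩ := hxm
  exact ⟨m, m.2, hm.symm⟩

end MaxM

end Cfsg.Agent.Lib.NGP
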