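import Cfsg.Agent.Lib.NGP.MaxM

/-!
# `M` is self-centralizing.
-/

set_option autoImplicit false
set_option linter.unusedSectionVars false
set_option linter.unusedVariables false

namespace Cfsg.Agent.Lib.NGP

open Subgroup
open scoped commutatorElement

variable {X : Type*} [Group X] [Finite X] {A : Subgroup (MulAut X)}

namespace MaxM

variable {φ : MulAut X} {M : Subgroup X} (W : MaxM A φ M)
include W

theorem centralizer_le : centralizer (M : Set X) ≤ M := by
  by_contra hne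
  have R := W.R
  have hφ := W.hφ
  haveI hMn := W.Mn
  obtain ⟨n, hn1, hPD, hPker, -⟩ := W.exists_P
  have hMC : M ≤ centralizer (M : Set X) := by
    intro m hm
    rw [mem_centralizer_iff]
    intro a ha
    exact W.Mab a ha m hm
  set C := centralizer (M : Set X) with hC
  haveI hCn : C.Normal := by rw [hC]; infer_instance
  have hCinv : Inv A C := by
    intro ψ hψ x hx
    rw [hC, mem_centralizer_iff] at hx ⊢
    intro k hk
    have h3 := hx (ψ⁻¹ k) (W.Minv _ (A.inv_mem hψ) k hk)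
    have h4 := congrArg ψ h3
    simpa using h4
  have hCM : ∀ c ∈ C, ∀ m ∈ M, c * m = m * c := by
    intro c hc m hm
    rw [hC, mem_centralizer_iff] at hc
    exact (hc m hm).symm
  obtain ⟨y₀, hy₀C, hy₀M, hy₀c, hy₀s⟩ := exists_step W.S.two M C hMC hne
  set Y := Sec M ⊓ C with hY
  haveI hYn : Y.Normal := inferInstance
  have hYinv : Inv A Y := fun ψ hψ x hx => ⟨Sec_inv W.Minv ψ hψ x hx.1, hCinv ψ hψ x hx.2⟩
  have hMY : M ≤ Y := le_inf le_Sec hMC
  have hy₀Y : y₀ ∈ Y := ⟨⟨hy₀s, hy₀c⟩, hy₀C⟩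
  -- commutators in Y lie in D
  have hYcomm : ∀ a ∈ Y, ∀ b ∈ Y, ⁅a, b⁆ ∈ D X := by
    intro a ha b hb
    have hr : ⁅a, b⁆ ∈ M := ha.1.2 b
    apply W.m1 hr
    have h1 := comm_sq a b
    have h2 : ⁅a * a, b⁆ = 1 := by
      rw [commutatorElement_eq_one_iff_mul_comm]
      exact (hCM b hb.2 _ ha.1.1).symm
    rw [h2, hCM a ha.2 _ hr, mul_inv_cancel_right] at h1
    rw [pow_two]
    exact h1.symm
  -- the map p
  let p : X → X := fun a => (a * a) ^ (2 ^ n)
  have hp : ∀ a, p a = (a * a) ^ (2 ^ n) := fun a => rfl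
  have hpD : ∀ a ∈ Y, p a ∈ D X := fun a ha => hPD _ ha.1.1
  have hpmul : ∀ a ∈ Y, ∀ b ∈ Y, p (a * b) = p a * p b := by
    intro a ha b hb
    have h1 := sq_mul_central (hYcomm b hb a ha).1
    have h2 : a * b * (a * b) = a * a * (b * b) * ⁅b, a⁆ := by
      rw [← pow_two, h1, pow_two, pow_two]
    rw [hp, h2]
    have hba : ⁅b, a⁆ ∈ M := hb.1.2 a
    have c1 : Commute (a * a * (b * b)) ⁅b, a⁆ := W.Mab _ (M.mul_mem ha.1.1 hb.1.1) _ hba
    have c2 : Commute (a * a) (b * b) := W.Mab _ ha.1.1 _ hb.1.1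
    rw [c1.mul_pow, c2.mul_pow]
    have h3 : ⁅b, a⁆ ^ (2 ^ n) = 1 := by
      obtain ⟨t, ht⟩ : ∃ t, n = t + 1 := ⟨n - 1, by omega⟩
      rw [ht, pow_succ', pow_mul, (hYcomm b hb a ha).2, one_pow]
    rw [h3, mul_one]
  have hpone : p 1 = 1 := by simp [hp]
  have hpinv : ∀ a ∈ Y, p a⁻¹ = (p a)⁻¹ := by
    intro a ha
    have h1 := hpmul a⁻¹ (Y.inv_mem ha) a ha
    rw [inv_mul_cancel, hpone] at h1
    exact eq_inv_of_mul_eq_one_left h1.symm
  have hpφ : ∀ ψ : MulAut X, ∀ a, p (ψ a) = ψ (p a) := by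
    intro ψ a
    simp only [hp, map_pow, map_mul]
  -- the key
  have hP1 : ∀ a ∈ Y, p a = 1 → a ∈ M := by
    intro a ha hpa
    obtain ⟨m, hm, hm2⟩ := hPker _ ha.1.1 hpa
    set t := a * m⁻¹ with ht
    have htY : t ∈ Y := Y.mul_mem ha (hMY (M.inv_mem hm))
    have hac : a * m⁻¹ = m⁻¹ * a := hCM a ha.2 _ (M.inv_mem hm)
    have ht2 : t * t = 1 := by
      calc t * t = a * (m⁻¹ * a) * m⁻¹ := by rw [ht]; group
        _ = a * (a * m⁻¹) * m⁻¹ := by rw [hac]
        _ = (a * a) * (m ^ 2)⁻¹ := by rw [pow_two]; group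
        _ = 1 := by rw [← hm2]; group
    have htK : t ∈ K X := by
      refine ⟨by rw [pow_two, ht2]; exact (D X).one_mem, fun x => ?_⟩
      have hr : ⁅t, x⁆ ∈ M := htY.1.2 x
      apply W.m1 hr
      have h1 := comm_sq t x
      rw [ht2, commutatorElement_one_left, hCM t htY.2 _ hr, mul_inv_cancel_right] at h1
      rw [pow_two]
      exact h1.symm
    have : a = t * m := by rw [ht]; group
    rw [this]
    exact M.mul_mem (W.KM htK) hm
  set δ := p y₀ with hδ
  have hδD : δ ∈ D X := hpD _ hy₀Y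
  have hδ1 : δ ≠ 1 := fun h => hy₀M (hP1 _ hy₀Y h)
  set a := y₀ with ha_def
  set b := φ a with hb_def
  set c := φ b with hc_def
  have haY : a ∈ Y := hy₀Y
  have hbY : b ∈ Y := hYinv _ hφ _ haY
  have hcY : c ∈ Y := hYinv _ hφ _ hbY
  have hpa : p a = δ := rfl
  have hpb : p b = φ δ := hpφ _ _
  have hpc : p c = φ (φ δ) := by rw [hc_def, hpφ, hpb]
  -- the product abc lies in M
  have habcM : a * b * c ∈ M := by
    apply hP1 _ (Y.mul_mem (Y.mul_mem haY hbY) hcY)
    rw [hpmul _ (Y.mul_mem haY hbY) _ hcY, hpmul _ haY _ hbY, hpa, hpb, hpc]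
    exact R.norm δ hδD
  have hcen : ∀ u ∈ Y, ∀ v ∈ Y, ⁅u, v⁆ ∈ center X := fun u hu v hv => (hYcomm u hu v hv).1
  -- [a,b] is φ-fixed
  have hc₀ : ⁅a, b⁆ = 1 := by
    apply R.fpf _ (hYcomm a haY b hbY)
    rw [comm_map, ← hb_def, ← hc_def]
    set m' := a * b * c with hm'
    have hc_eq : c = (a * b)⁻¹ * m' := by rw [hm']; group
    have hbm : ⁅b, m'⁆ = 1 := by
      rw [commutatorElement_eq_one_iff_mul_comm]
      exact hCM b hbY.2 _ habcM
    rw [hc_eq, comm_mul_r (by rw [hbm]; exact (center X).one_mem), hbm, mul_one, mul_inv_rev]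
    have hbi : b⁻¹ ∈ Y := Y.inv_mem hbY
    have hai : a⁻¹ ∈ Y := Y.inv_mem haY
    rw [comm_mul_r (hcen b hbY _ hai), comm_inv_r' (hcen b hbY _ hbY),
      comm_inv_r' (hcen b hbY _ haY)]
    have h1 : ⁅b, b⁆ = 1 := commutatorElement_self b
    rw [h1]
    have h2 : ⁅b, a⁆⁻¹ = ⁅a, b⁆ := commutatorElement_inv b a
    rw [h2]
    simp
  have hab : a * b = b * a := (commutatorElement_eq_one_iff_mul_comm).mp hc₀
  -- cover of Y
  have hdiff : ∀ w ∈ Y, ∀ z ∈ Y, p w = p z → ∃ m ∈ M, w = z * m := by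
    intro w hw z hz h
    refine ⟨z⁻¹ * w, ?_, by group⟩
    apply hP1 _ (Y.mul_mem (Y.inv_mem hz) hw)
    rw [hpmul _ (Y.inv_mem hz) _ hw, hpinv _ hz, h, inv_mul_cancel]
  have hcover : ∀ w ∈ Y, ∃ m ∈ M, w = m ∨ w = a * m ∨ w = b * m ∨ w = a * b * m := by
    intro w hw
    rcases R.cover _ (hpD w hw) δ hδD hδ1 with h | h | h | h
    · exact ⟨w, hP1 w hw h, Or.inl rfl⟩
    · obtain ⟨m, hm, h1⟩ := hdiff w hw a haY h
      exact ⟨m, hm, Or.inr (Or.inl h1)⟩
    · obtain ⟨m, hm, h1⟩ := hdiff w hw b hbY (by rw [h, hpb])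
      exact ⟨m, hm, Or.inr (Or.inr (Or.inl h1))⟩
    · obtain ⟨m, hm, h1⟩ := hdiff w hw (a * b) (Y.mul_mem haY hbY) (by
        rw [h, hpmul _ haY _ hbY, hpa, hpb]
        have h5 := R.norm δ hδD
        have h6 : δ * φ δ = (φ (φ δ))⁻¹ := eq_inv_of_mul_eq_one_left h5
        rw [h6]
        exact (R.inv_eq (R.mapD (R.mapD hδD))).symm)
      exact ⟨m, hm, Or.inr (Or.inr (Or.inr h1))⟩
  -- a and b commute with Y
  have hca : ∀ w ∈ Y, a * w = w * a := by
    intro w hw
    obtain ⟨m, hm, h⟩ := hcover w hw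
    have h0 := hCM a haY.2 m hm
    have h0' := hCM b hbY.2 m hm
    rcases h with rfl | rfl | rfl | rfl
    · exact h0
    · calc a * (a * m) = a * (m * a) := by rw [h0]
        _ = _ := by group
    · rw [← mul_assoc, hab, mul_assoc, h0, ← mul_assoc]
    · calc a * (a * b * m) = a * a * b * m := by group
        _ = a * (b * a) * m := by rw [mul_assoc a a b, hab]
        _ = a * b * (a * m) := by group
        _ = a * b * (m * a) := by rw [h0]
        _ = _ := by group
  have hcb : ∀ w ∈ Y, b * w = w * b := by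
    intro w hw
    obtain ⟨m, hm, h⟩ := hcover w hw
    have h0 := hCM a haY.2 m hm
    have h0' := hCM b hbY.2 m hm
    rcases h with rfl | rfl | rfl | rfl
    · exact h0'
    · calc b * (a * m) = (b * a) * m := by group
        _ = a * b * m := by rw [hab]
        _ = a * (b * m) := by group
        _ = a * (m * b) := by rw [h0']
        _ = _ := by group
    · calc b * (b * m) = b * b * m := by group
        _ = b * (m * b) := by rw [mul_assoc, h0']
        _ = _ := by group
    · calc b * (a * b * m) = (b * a) * (b * m) := by group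
        _ = a * b * (b * m) := by rw [hab]
        _ = a * b * (m * b) := by rw [h0']
        _ = _ := by group
  have hYab : Ab Y := by
    intro u hu v hv
    obtain ⟨m, hm, h⟩ := hcover u hu
    have h0 := (hCM v hv.2 m hm).symm
    have h1 := (hca v hv)
    have h2 := (hcb v hv)
    rcases h with rfl | rfl | rfl | rfl
    · exact h0
    · calc a * m * v = a * (m * v) := by group
        _ = a * (v * m) := by rw [h0]
        _ = (a * v) * m := by group
        _ = (v * a) * m := by rw [h1]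
        _ = _ := by group
    · calc b * m * v = b * (m * v) := by group
        _ = b * (v * m) := by rw [h0]
        _ = (b * v) * m := by group
        _ = (v * b) * m := by rw [h2]
        _ = _ := by group
    · calc a * b * m * v = a * b * (m * v) := by group
        _ = a * b * (v * m) := by rw [h0]
        _ = a * (b * v) * m := by group
        _ = a * (v * b) * m := by rw [h2]
        _ = (a * v) * b * m := by group
        _ = (v * a) * b * m := by rw [h1]
        _ = _ := by group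
  exact hy₀M (W.max Y hYn hYinv hYab hMY hy₀Y)

/-- If `M = K`: contradiction. -/
theorem false_of_le (hMK : M ≤ K X) : False := by
  have R := W.R
  have hKM := W.KM
  have hC : centralizer (K X : Set X) ≤ K X := by
    have h1 : M = K X := le_antisymm hMK hKM
    rw [← h1]
    exact W.centralizer_le
  have hmemC : ∀ g, g ∈ centralizer (K X : Set X) ↔ ∀ k ∈ K X, ⁅k, g⁆ = 1 := by
    intro g
    rw [mem_centralizer_iff]
    constructor
    · intro h1 k hk
      rw [commutatorElement_eq_one_iff_mul_comm]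
      exact (h1 k hk)
    · intro h1 k hk
      have := h1 k hk
      rw [commutatorElement_eq_one_iff_mul_comm] at this
      exact this
  have hsq : ∀ y : X, y ^ 2 ∈ D X := by
    intro y
    by_cases hy : y ∈ K X
    · exact hy.1
    · have h1 : y * y ∈ K X := by
        apply hC
        rw [hmemC]
        intro k hk
        rw [W.H.comm_hom_r hk, ← pow_two]
        exact (hk.2 y).2
      by_contra h2
      rw [pow_two] at h2
      have h3 : ⁅y * y, y⁆ = 1 := by
        rw [commutatorElement_eq_one_iff_mul_comm, mul_assoc]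
      have h4 := W.H.L2 h1 h2 h3
      exact hy (hC ((hmemC y).mpr h4))
  have hc : ∀ x y : X, ⁅x, y⁆ ∈ D X := comm_mem_of_sq hsq
  obtain ⟨a, b, hab⟩ := W.H.hna
  apply hab
  exact W.H.Kab a ⟨hsq a, hc a⟩ b ⟨hsq b, hc b⟩

/-- `y` acting as an involution on `M`: `[m,y]` is inverted. -/
theorem comm_comm_eq_sq {y m : X} (hy : y * y ∈ M) (hm : m ∈ M) : ⁅⁅m, y⁆, y⁆ = ⁅m, y⁆ ^ 2 := by
  set r := ⁅m, y⁆ with hr
  have h1 : y * m * y⁻¹ = r⁻¹ * m := by
    rw [hr, commutatorElement_def]; group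
  have h2 : y * y * m * (y * y)⁻¹ = m := by
    have := W.Mab _ hy _ hm
    rw [this]; group
  have h4 : y * (r⁻¹ * m) * y⁻¹ = m := by
    rw [← h1]
    calc y * (y * m * y⁻¹) * y⁻¹ = y * y * m * (y * y)⁻¹ := by group
      _ = m := h2
  have h5 : y * (r⁻¹ * m) * y⁻¹ = (y * r * y⁻¹)⁻¹ * (y * m * y⁻¹) := by group
  rw [h5, h1] at h4
  have h6 : (y * r * y⁻¹)⁻¹ * r⁻¹ = 1 := by
    have : (y * r * y⁻¹)⁻¹ * r⁻¹ * m = m := by rw [mul_assoc]; exact h4
    exact mul_eq_right.mp this
  have h7 : (y * r * y⁻¹)⁻¹ = r := by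
    have := eq_inv_of_mul_eq_one_left h6
    simpa using this
  have h8 : y * r⁻¹ * y⁻¹ = r := by
    have : y * r⁻¹ * y⁻¹ = (y * r * y⁻¹)⁻¹ := by group
    rw [this, h7]
  rw [commutatorElement_def, pow_two]
  calc r * y * r⁻¹ * y⁻¹ = r * (y * r⁻¹ * y⁻¹) := by group
    _ = r * r := by rw [h8]

end MaxM

end Cfsg.Agent.Lib.NGP
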