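import Cfsg.Agent.Lib.NGP.MaxM2

/-!
# The contradiction when `M > K`.
-/

set_option autoImplicit false
set_option linter.unusedSectionVars false
set_option linter.unusedVariables false

namespace Cfsg.Agent.Lib.NGP

open Subgroup
open scoped commutatorElement

variable {X : Type*} [Group X] [Finite X] {A : Subgroup (MulAut X)}

namespace MaxM

variable {φ : MulAut X} {M : Subgroup X} (W : MaxM A φ M)
include W

/-- Elements of `K` are squares in `M`. -/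
theorem squares (hMK : ¬ M ≤ K X) : ∀ k ∈ K X, ∃ m ∈ M, m ^ 2 = k := by
  have R := W.R
  have hφ := W.hφ
  haveI hMn := W.Mn
  obtain ⟨m₀, hm₀, hm₀K, -, hm₀s⟩ := exists_step W.S.two (K X) M W.KM hMK
  set k₀ := m₀ ^ 2 with hk₀
  have hk₀K : k₀ ∈ K X := by rw [hk₀, pow_two]; exact hm₀s
  have hk₀D : k₀ ∉ D X := fun h => hm₀K (W.m2 hm₀ h)
  set δ := k₀ ^ 2 with hδ
  have hδD : δ ∈ D X := hk₀K.1
  have hδ1 : δ ≠ 1 := fun h => hk₀D (R.anis hk₀K h)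
  have hm₁ : φ m₀ ∈ M := W.Minv φ hφ _ hm₀
  have hm₂ : φ (φ m₀) ∈ M := W.Minv φ hφ _ hm₁
  have key : ∀ z ∈ M, ∀ k ∈ K X, k ^ 2 = (z ^ 2) ^ 2 → z ^ 2 ∈ K X → ∃ m ∈ M, m ^ 2 = k := by
    intro z hz k hk h1 h2
    obtain ⟨d, hd, rfl⟩ := W.H.eq_mul_of_sq hk h2 h1
    obtain ⟨k', hk', hk'2⟩ := W.H.surj d hd
    refine ⟨z * k', M.mul_mem hz (W.KM hk'), ?_⟩
    have c : Commute z k' := W.Mab _ hz _ (W.KM hk')
    rw [c.mul_pow, hk'2]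
  intro k hk
  rcases R.cover _ hk.1 δ hδD hδ1 with h | h | h | h
  · obtain ⟨k', hk', hk'2⟩ := W.H.surj k (R.anis hk h)
    exact ⟨k', W.KM hk', hk'2⟩
  · exact key m₀ hm₀ k hk h hk₀K
  · refine key _ hm₁ k hk ?_ ?_
    · rw [h, hδ, hk₀, ← map_pow, ← map_pow]
    · rw [← map_pow]; exact K_inv A φ hφ _ hk₀K
  · refine key _ hm₂ k hk ?_ ?_
    · rw [h, hδ, hk₀, ← map_pow, ← map_pow, ← map_pow, ← map_pow]
    · rw [← map_pow, ← map_pow]; exact K_inv A φ hφ _ (K_inv A φ hφ _ hk₀K)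

/-- An element with square in `M` centralizes `K`. -/
theorem fix_K (hMK : ¬ M ≤ K X) {y : X} (hy : y * y ∈ M) : ∀ k ∈ K X, ⁅k, y⁆ = 1 := by
  have R := W.R
  by_contra hcon
  push Not at hcon
  obtain ⟨k₁, hk₁, hk₁y⟩ := hcon
  have hne : ∀ k ∈ K X, k ∉ D X → ⁅k, y⁆ ≠ 1 := fun k hk hkD h => hk₁y (W.H.L2 hk hkD h k₁ hk₁)
  apply W.H.L3 (y := y)
  intro k hk
  by_cases hkD : k ∈ D X
  · rw [W.H.comm_D_l hkD, hkD.2]
  obtain ⟨m, hm, rfl⟩ := W.squares hMK k hk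
  set r := ⁅m, y⁆ with hr
  have hrM : r ∈ M := W.comm_in hm y
  have h1 : ⁅m ^ 2, y⁆ = r ^ 2 := by rw [pow_two, W.m3 hm y]
  have h2 : r ^ 2 ∈ D X := by rw [← h1]; exact hk.2 y
  have hrK : r ∈ K X := W.m2 hrM h2
  have h3 : ⁅r, y⁆ = r ^ 2 := W.comm_comm_eq_sq hy hm
  have h4 : ⁅m ^ 2 * r⁻¹, y⁆ = 1 := by
    rw [W.H.comm_hom_l ((K X).inv_mem hrK), comm_inv_l' (hrK.2 y).1, h3, h1]
    group
  have hin : m ^ 2 * r⁻¹ ∈ K X := (K X).mul_mem hk ((K X).inv_mem hrK)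
  have h5 : m ^ 2 * r⁻¹ ∈ D X := by
    by_contra h6
    exact hne _ hin h6 h4
  have h6 : (m ^ 2) ^ 2 = r ^ 2 := by
    have c : Commute (m ^ 2) r⁻¹ := W.H.Kab _ hk _ ((K X).inv_mem hrK)
    have h7 := h5.2
    rw [c.mul_pow, inv_pow] at h7
    exact eq_of_mul_inv_eq_one h7
  rw [h6, h1]

/-- Commutators with `M` lie in `D`. -/
theorem comm_M_D (hMK : ¬ M ≤ K X) {y : X} (hy : y * y ∈ M) : ∀ m ∈ M, ⁅m, y⁆ ∈ D X := by
  have key : ∀ j : ℕ, ∀ m ∈ M, m ^ (2 ^ j) = 1 → ⁅m, y⁆ ∈ D X := by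
    intro j
    induction j with
    | zero =>
      intro m _ h
      rw [pow_zero, pow_one] at h
      rw [h, commutatorElement_one_left]
      exact (D X).one_mem
    | succ j ih =>
      intro m hm h
      have h1 : ⁅m * m, y⁆ ∈ D X := by
        apply ih _ (M.mul_mem hm hm)
        rw [← pow_two, ← pow_mul, ← pow_succ']
        exact h
      rw [W.m3 hm y] at h1
      have hrK : ⁅m, y⁆ ∈ K X := W.m2 (W.comm_in hm y) h1
      have h2 := W.fix_K hMK hy _ hrK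
      rw [W.comm_comm_eq_sq hy hm] at h2
      exact W.m1 (W.comm_in hm y) h2
  intro m hm
  obtain ⟨k, hk⟩ := (IsPGroup.iff_orderOf.mp W.S.two) m
  exact key k m hm (by rw [← hk]; exact pow_orderOf_eq_one m)

/-- The case `M > K`. -/
theorem false_of_not_le (hMK : ¬ M ≤ K X) : False := by
  have R := W.R
  have hφ := W.hφ
  haveI hMn := W.Mn
  obtain ⟨n, hn1, hPD, hPker, m₁, hm₁, hm₁P⟩ := W.exists_P
  -- the power map
  let P : X → X := fun m => m ^ (2 ^ n)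
  have hP : ∀ m, P m = m ^ (2 ^ n) := fun m => rfl
  have hPmul : ∀ a ∈ M, ∀ b ∈ M, P (a * b) = P a * P b := by
    intro a ha b hb
    have c : Commute a b := W.Mab _ ha _ hb
    exact c.mul_pow _
  have hPone : P 1 = 1 := by simp [hP]
  have hPinv : ∀ a ∈ M, P a⁻¹ = (P a)⁻¹ := by
    intro a ha
    have h1 := hPmul a⁻¹ (M.inv_mem ha) a ha
    rw [inv_mul_cancel, hPone] at h1
    exact eq_inv_of_mul_eq_one_left h1.symm
  have hPφ : ∀ ψ : MulAut X, ∀ a, P (ψ a) = ψ (P a) := by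
    intro ψ a
    simp only [hP, map_pow]
  have hsame : ∀ a ∈ M, ∀ b ∈ M, P a = P b → ∃ s ∈ M, a = b * s ^ 2 := by
    intro a ha b hb h
    obtain ⟨s, hs, hs2⟩ := hPker (b⁻¹ * a) (M.mul_mem (M.inv_mem hb) ha) (by
      show P (b⁻¹ * a) = 1
      rw [hPmul _ (M.inv_mem hb) _ ha, hPinv _ hb, h, inv_mul_cancel])
    refine ⟨s, hs, ?_⟩
    rw [← hs2]; group
  set δ := P m₁ with hδ
  have hδD : δ ∈ D X := hPD _ hm₁
  have hδ1 : δ ≠ 1 := hm₁P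
  set m₂ := φ m₁ with hm₂def
  set m₃ := φ m₂ with hm₃def
  have hm₂ : m₂ ∈ M := W.Minv φ hφ _ hm₁
  have hm₃ : m₃ ∈ M := W.Minv φ hφ _ hm₂
  have hP₂ : P m₂ = φ δ := hPφ _ _
  have hP₃ : P m₃ = φ (φ δ) := by rw [hm₃def, hPφ, hP₂]
  -- every element of `M` modulo squares
  have hcov : ∀ m ∈ M, (∃ s ∈ M, m = s ^ 2) ∨ (∃ s ∈ M, m = m₁ * s ^ 2) ∨
      (∃ s ∈ M, m = m₂ * s ^ 2) ∨ (∃ s ∈ M, m = m₃ * s ^ 2) := by
    intro m hm
    rcases R.cover _ (hPD m hm) δ hδD hδ1 with h | h | h | h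
    · exact Or.inl (hPker m hm h)
    · exact Or.inr (Or.inl (hsame m hm m₁ hm₁ h))
    · exact Or.inr (Or.inr (Or.inl (hsame m hm m₂ hm₂ (by rw [hP₂]; exact h))))
    · exact Or.inr (Or.inr (Or.inr (hsame m hm m₃ hm₃ (by rw [hP₃]; exact h))))
  have hprod : ∃ s ∈ M, m₁ * m₂ * m₃ = s ^ 2 := by
    apply hPker _ (M.mul_mem (M.mul_mem hm₁ hm₂) hm₃)
    show P (m₁ * m₂ * m₃) = 1
    rw [hPmul _ (M.mul_mem hm₁ hm₂) _ hm₃, hPmul _ hm₁ _ hm₂, hP₂, hP₃]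
    exact R.norm δ hδD
  have hrot : ∀ m ∈ M, ∃ s ∈ M, φ (φ (φ m)) = m * s ^ 2 := by
    intro m hm
    apply hsame _ (W.Minv φ hφ _ (W.Minv φ hφ _ (W.Minv φ hφ _ hm))) _ hm
    rw [hPφ, hPφ, hPφ]
    exact R.rot3 _ (hPD m hm)
  -- the element moved
  set T := Sec M with hT
  have hTinv : Inv A T := Sec_inv W.Minv
  have hHD : ∀ y ∈ T, ∀ m ∈ M, ⁅m, y⁆ ∈ D X := fun y hy m hm => W.comm_M_D hMK hy.1 m hm
  have hHl : ∀ y ∈ T, ∀ m ∈ M, ∀ m' ∈ M, ⁅m * m', y⁆ = ⁅m, y⁆ * ⁅m', y⁆ := by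
    intro y hy m _ m' hm'
    exact comm_mul_l (hHD y hy m' hm').1
  have hHsq : ∀ y ∈ T, ∀ s ∈ M, ⁅s ^ 2, y⁆ = 1 := by
    intro y hy s hs
    rw [pow_two, W.m3 hs y]
    exact (hHD y hy s hs).2
  have hHsq' : ∀ y ∈ T, ∀ m ∈ M, ∀ s ∈ M, ⁅m * s ^ 2, y⁆ = ⁅m, y⁆ := by
    intro y hy m hm s hs
    rw [hHl y hy m hm _ (M.pow_mem hs 2), hHsq y hy s hs, mul_one]
  have hHφ : ∀ y ∈ T, ∀ m ∈ M, ⁅φ (φ (φ m)), y⁆ = ⁅m, y⁆ := by
    intro y hy m hm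
    obtain ⟨s, hs, h⟩ := hrot m hm
    rw [h, hHsq' y hy m hm s hs]
  have hcrit : ∀ y ∈ T, ⁅m₁, y⁆ ≠ 1 → ⁅m₂, y⁆ ≠ 1 → ⁅m₃, y⁆ ≠ 1 →
      ∀ m ∈ M, ⁅m, y⁆ = 1 → ∃ s ∈ M, m = s ^ 2 := by
    intro y hy h1 h2 h3 m hm h
    rcases hcov m hm with h4 | ⟨s, hs, rfl⟩ | ⟨s, hs, rfl⟩ | ⟨s, hs, rfl⟩
    · exact h4
    · exact absurd ((hHsq' y hy _ hm₁ s hs).symm.trans h) h1
    · exact absurd ((hHsq' y hy _ hm₂ s hs).symm.trans h) h2
    · exact absurd ((hHsq' y hy _ hm₃ s hs).symm.trans h) h3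
  -- existence of y₀
  have hXM : ¬ (⊤ : Subgroup X) ≤ M := by
    intro h
    obtain ⟨a, b, hab⟩ := W.H.hna
    exact hab (W.Mab a (h (mem_top a)) b (h (mem_top b)))
  obtain ⟨y₀, -, hy₀M, hy₀c, hy₀s⟩ := exists_step W.S.two M ⊤ le_top hXM
  have hy₀T : y₀ ∈ T := ⟨hy₀s, hy₀c⟩
  have hmoved : ∃ m ∈ M, ⁅m, y₀⁆ ≠ 1 := by
    by_contra hcon
    push Not at hcon
    apply hy₀M
    apply W.centralizer_le
    rw [mem_centralizer_iff]
    intro m hm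
    have := hcon m hm
    rw [commutatorElement_eq_one_iff_mul_comm] at this
    exact this
  set a₁ := ⁅m₁, y₀⁆ with ha₁
  set a₂ := ⁅m₂, y₀⁆ with ha₂
  set a₃ := ⁅m₃, y₀⁆ with ha₃
  have ha₁D : a₁ ∈ D X := hHD _ hy₀T _ hm₁
  have ha₂D : a₂ ∈ D X := hHD _ hy₀T _ hm₂
  have ha₃D : a₃ ∈ D X := hHD _ hy₀T _ hm₃
  have hnot : ¬ (a₁ = 1 ∧ a₂ = 1 ∧ a₃ = 1) := by
    rintro ⟨h1, h2, h3⟩
    obtain ⟨m, hm, h⟩ := hmoved
    apply h
    rcases hcov m hm with ⟨s, hs, rfl⟩ | ⟨s, hs, rfl⟩ | ⟨s, hs, rfl⟩ | ⟨s, hs, rfl⟩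
    · exact hHsq _ hy₀T s hs
    · rw [hHsq' _ hy₀T _ hm₁ s hs]; exact h1
    · rw [hHsq' _ hy₀T _ hm₂ s hs]; exact h2
    · rw [hHsq' _ hy₀T _ hm₃ s hs]; exact h3
  have ha123 : a₁ * a₂ * a₃ = 1 := by
    obtain ⟨s, hs, h⟩ := hprod
    have h1 := hHsq _ hy₀T s hs
    rw [← h, hHl _ hy₀T _ (M.mul_mem hm₁ hm₂) _ hm₃, hHl _ hy₀T _ hm₁ _ hm₂] at h1
    exact h1
  -- the good y
  have hgood : ∃ y ∈ T, ⁅m₁, y⁆ ≠ 1 ∧ ⁅m₂, y⁆ ≠ 1 ∧ ⁅m₃, y⁆ ≠ 1 := by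
    by_cases hall : a₁ ≠ 1 ∧ a₂ ≠ 1 ∧ a₃ ≠ 1
    · exact ⟨y₀, hy₀T, hall⟩
    -- the norm of y₀
    have hy₁T : φ y₀ ∈ T := hTinv _ hφ _ hy₀T
    have hy₂T : φ (φ y₀) ∈ T := hTinv _ hφ _ hy₁T
    have hyT : y₀ * φ y₀ * φ (φ y₀) ∈ T := T.mul_mem (T.mul_mem hy₀T hy₁T) hy₂T
    have hi : φ⁻¹ ∈ A := A.inv_mem hφ
    have hexp : ∀ m ∈ M, ⁅m, y₀ * φ y₀ * φ (φ y₀)⁆ = ⁅m, y₀⁆ * ⁅m, φ y₀⁆ * ⁅m, φ (φ y₀)⁆ := by
      intro m hm
      rw [comm_mul_r (hHD _ hy₂T m hm).1, comm_mul_r (hHD _ hy₁T m hm).1]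
    have hconj1 : ∀ m, ⁅m, φ y₀⁆ = φ ⁅φ⁻¹ m, y₀⁆ := by
      intro m; rw [comm_map]; simp
    have hconj2 : ∀ m, ⁅m, φ (φ y₀)⁆ = φ (φ ⁅φ⁻¹ (φ⁻¹ m), y₀⁆) := by
      intro m; rw [comm_map, comm_map]; simp
    have hinvM : ∀ m ∈ M, φ⁻¹ m ∈ M := fun m hm => W.Minv _ hi _ hm
    -- values on m₁, m₂, m₃
    have e1 : ⁅φ⁻¹ m₁, y₀⁆ = a₃ := by
      have h := hHφ _ hy₀T _ (hinvM m₁ hm₁)
      rw [← h]
      simp [hm₃def, hm₂def, ha₃]
    have e2 : ⁅φ⁻¹ (φ⁻¹ m₁), y₀⁆ = a₂ := by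
      have h := hHφ _ hy₀T _ (hinvM _ (hinvM m₁ hm₁))
      rw [← h]
      simp [hm₂def, ha₂]
    have e3 : φ⁻¹ m₂ = m₁ := by simp [hm₂def]
    have e4 : φ⁻¹ m₃ = m₂ := by simp [hm₃def]
    have v₁ : ⁅m₁, y₀ * φ y₀ * φ (φ y₀)⁆ = a₁ * φ a₃ * φ (φ a₂) := by
      rw [hexp m₁ hm₁, hconj1, hconj2, e1, e2]
    have v₂ : ⁅m₂, y₀ * φ y₀ * φ (φ y₀)⁆ = a₂ * φ a₁ * φ (φ a₃) := by
      rw [hexp m₂ hm₂, hconj1, hconj2, e3, e1]
    have v₃ : ⁅m₃, y₀ * φ y₀ * φ (φ y₀)⁆ = a₃ * φ a₂ * φ (φ a₁) := by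
      rw [hexp m₃ hm₃, hconj1, hconj2, e4, e3]
    have hmap : ∀ d ∈ D X, φ d ∈ D X := fun d hd => R.mapD hd
    set v := a₁ * φ a₃ * φ (φ a₂) with hv
    have hvD : v ∈ D X := (D X).mul_mem ((D X).mul_mem ha₁D (hmap _ ha₃D)) (hmap _ (hmap _ ha₂D))
    have hab := fun (a b : X) (ha : a ∈ D X) (hb : b ∈ D X) => D_ab a ha b hb
    -- φ v and φφ v
    have hφv : a₂ * φ a₁ * φ (φ a₃) = φ v := by
      rw [hv, map_mul, map_mul, R.rot3 _ ha₂D]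
      calc a₂ * φ a₁ * φ (φ a₃) = a₂ * (φ a₁ * φ (φ a₃)) := by group
        _ = (φ a₁ * φ (φ a₃)) * a₂ := (hab _ _ ha₂D ((D X).mul_mem (hmap _ ha₁D) (hmap _ (hmap _ ha₃D))))
    have hφφv : a₃ * φ a₂ * φ (φ a₁) = φ (φ v) := by
      rw [hv, map_mul, map_mul, map_mul, map_mul, R.rot3 _ ha₃D, R.rot3 _ (hmap _ ha₂D)]
      calc a₃ * φ a₂ * φ (φ a₁) = (a₃ * φ a₂) * φ (φ a₁) := by group
        _ = φ (φ a₁) * (a₃ * φ a₂) := hab _ _ ((D X).mul_mem ha₃D (hmap _ ha₂D)) (hmap _ (hmap _ ha₁D))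
        _ = _ := by group
    have hvne : v ≠ 1 := by
      have hnorm : ∀ a ∈ D X, a * φ a * φ (φ a) = 1 := R.norm
      have h1 : a₁ = 1 ∨ a₂ = 1 ∨ a₃ = 1 := by
        by_contra hcon
        push Not at hcon
        exact hall hcon
      rcases h1 with h1 | h1 | h1
      · -- a₁ = 1
        have h2 : a₃ = a₂ := by
          have h3 : a₂ * a₃ = 1 := by simpa [h1] using ha123
          have := eq_inv_of_mul_eq_one_right h3
          rw [this, R.inv_eq ha₂D]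
        have h4 : a₂ ≠ 1 := by
          intro h5
          exact hnot ⟨h1, h5, by rw [h2, h5]⟩
        rw [hv, h1, h2, one_mul]
        intro h5
        apply h4
        have h6 := hnorm a₂ ha₂D
        rw [mul_assoc, h5, mul_one] at h6
        exact h6
      · -- a₂ = 1
        have h2 : a₃ = a₁ := by
          have h3 : a₁ * a₃ = 1 := by simpa [h1] using ha123
          have := eq_inv_of_mul_eq_one_right h3
          rw [this, R.inv_eq ha₁D]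
        have h4 : a₁ ≠ 1 := by
          intro h5
          exact hnot ⟨h5, h1, by rw [h2, h5]⟩
        rw [hv, h1, h2]
        simp only [map_one, mul_one]
        intro h5
        apply h4
        have h6 := hnorm a₁ ha₁D
        rw [h5, one_mul] at h6
        have h7 : φ (φ a₁) = 1 := h6
        apply φ.injective
        apply φ.injective
        rw [h7, map_one, map_one]
      · -- a₃ = 1
        have h2 : a₂ = a₁ := by
          have h3 : a₁ * a₂ = 1 := by simpa [h1] using ha123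
          have := eq_inv_of_mul_eq_one_right h3
          rw [this, R.inv_eq ha₁D]
        have h4 : a₁ ≠ 1 := by
          intro h5
          exact hnot ⟨h5, by rw [h2, h5], h1⟩
        rw [hv, h1, h2]
        simp only [map_one, mul_one]
        intro h5
        apply h4
        have h6 := hnorm a₁ ha₁D
        have h7 : a₁ * φ a₁ * φ (φ a₁) = a₁ * φ (φ a₁) * φ a₁ := by
          rw [mul_assoc, mul_assoc, hab _ _ (hmap _ ha₁D) (hmap _ (hmap _ ha₁D))]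
        rw [h7, h5, one_mul] at h6
        exact φ.injective (h6.trans (map_one φ).symm)
    refine ⟨_, hyT, ?_, ?_, ?_⟩
    · rw [v₁]; exact hvne
    · rw [v₂, hφv]
      intro h5
      apply hvne
      apply φ.injective
      rw [h5, map_one]
    · rw [v₃, hφφv]
      intro h5
      apply hvne
      apply φ.injective
      apply φ.injective
      rw [h5, map_one, map_one]
  obtain ⟨y, hyT, h1, h2, h3⟩ := hgood
  have hinj := hcrit y hyT h1 h2 h3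
  have hyM : y ∉ M := by
    intro h
    have h4 : ⁅m₁, y⁆ = 1 := by
      rw [commutatorElement_eq_one_iff_mul_comm]
      exact W.Mab _ hm₁ _ h
    exact h1 h4
  have hyy : y * y ∈ M := hyT.1
  -- y² is a square in M
  obtain ⟨s, hs, hs2⟩ := hinj _ hyy (by
    rw [commutatorElement_eq_one_iff_mul_comm, mul_assoc])
  set y₁ := y * s⁻¹ with hy₁
  have hy₁T : y₁ ∈ T := T.mul_mem hyT (le_Sec (M.inv_mem hs))
  have hsi : s⁻¹ ∈ M := M.inv_mem hs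
  have hy₁sq : y₁ ^ 2 ∈ D X := by
    rw [hy₁, sq_mul_central (hHD _ hyT _ hsi).1, pow_two y, hs2, inv_pow, mul_inv_cancel, one_mul]
    exact hHD _ hyT _ hsi
  have hy₁K : y₁ ∈ K X := by
    refine ⟨hy₁sq, fun x => ?_⟩
    set k := ⁅y₁, x⁆ with hk
    have hkM : k ∈ M := hy₁T.2 x
    have h4 : ⁅y₁ * y₁, x⁆ = 1 := by
      rw [commutatorElement_eq_one_iff_mul_comm]
      rw [pow_two] at hy₁sq
      exact (D_central hy₁sq x).symm
    have h5 : y₁ * k * y₁⁻¹ = k⁻¹ := by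
      have h6 := comm_sq y₁ x
      rw [h4] at h6
      exact eq_inv_of_mul_eq_one_left h6.symm
    have h6 : y * k * y⁻¹ = k⁻¹ := by
      rw [← h5, hy₁]
      have c : s⁻¹ * k * s = k := by
        rw [W.Mab _ hsi _ hkM]; group
      calc y * k * y⁻¹ = y * (s⁻¹ * k * s) * y⁻¹ := by rw [c]
        _ = _ := by group
    have h7 : ⁅k, y⁆ = k ^ 2 := by
      rw [commutatorElement_def, pow_two]
      have : k * y * k⁻¹ * y⁻¹ = k * (y * k * y⁻¹)⁻¹ := by group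
      rw [this, h6, inv_inv]
    have h8 : k ^ 2 ∈ D X := by rw [← h7]; exact hHD _ hyT _ hkM
    have h9 : k ∈ K X := W.m2 hkM h8
    have h10 := W.fix_K hMK hyy _ h9
    rw [h7] at h10
    exact W.m1 hkM h10
  apply hyM
  have : y = y₁ * s := by rw [hy₁]; group
  rw [this]
  exact M.mul_mem (W.KM hy₁K) hs

theorem elim : False := by
  by_cases h : M ≤ K X
  · exact W.false_of_le h
  · exact W.false_of_not_le h

end MaxM

end Cfsg.Agent.Lib.NGP
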