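import Cfsg.Agent.Lib.NGP.Basic

/-!
# Central involutions; the subgroups `D` and `K`; the case of trivial action on `D`.
-/

set_option autoImplicit false
set_option linter.unusedSectionVars false
set_option linter.unusedVariables false

namespace Cfsg.Agent.Lib.NGP

open Subgroup
open scoped commutatorElement

variable {X : Type*} [Group X]

theorem center_ab : Ab (center X) := by
  intro a ha b _
  exact (mem_center_iff.mp ha b).symm

/-- `Ω₁Z(X)`. -/
def D (X : Type*) [Group X] : Subgroup X := omega (center X) center_ab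

theorem mem_D {z : X} : z ∈ D X ↔ z ∈ center X ∧ z ^ 2 = 1 := Iff.rfl

instance D_normal : (D X).Normal := omega_normal

theorem D_inv (A : Subgroup (MulAut X)) : Inv A (D X) := omega_inv (center_inv A)

theorem D_ab : Ab (D X) := fun a ha b hb => center_ab a ha.1 b hb.1

theorem D_central {d : X} (hd : d ∈ D X) (g : X) : g * d = d * g := mem_center_iff.mp hd.1 g

theorem commutator_inv (A : Subgroup (MulAut X)) : Inv A (commutator X) := by
  intro φ _ x hx
  have h : (commutator X).comap φ.toMonoidHom = commutator X :=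
    (inferInstance : (commutator X).Characteristic).fixed φ
  rw [← h] at hx
  exact hx

/-- Five distinct elements do not fit in a group of order at most 4. -/
theorem four [Finite X] {E : Subgroup X} (hE : Nat.card E ≤ 4) (hsq : ∀ a ∈ E, a ^ 2 = 1) {e₁ e₂ x : X}
    (h1 : e₁ ∈ E) (h2 : e₂ ∈ E) (hx : x ∈ E) (h10 : e₁ ≠ 1) (h20 : e₂ ≠ 1) (h12 : e₁ ≠ e₂) :
    x = 1 ∨ x = e₁ ∨ x = e₂ ∨ x = e₁ * e₂ := by
  classical
  by_contra hcon
  push Not at hcon
  obtain ⟨hx1, hx2, hx3, hx4⟩ := hcon
  have h5 : e₁ * e₂ ≠ 1 := by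
    intro h
    apply h12
    have h6 := hsq _ h1
    rw [pow_two] at h6
    exact mul_left_cancel (h6.trans h.symm)
  have h6 : e₁ * e₂ ≠ e₁ := by
    intro h
    exact h20 (mul_left_cancel (h.trans (mul_one e₁).symm))
  have h7 : e₁ * e₂ ≠ e₂ := by
    intro h
    exact h10 (mul_right_cancel (h.trans (one_mul e₂).symm))
  let F : Finset X := {1, e₁, e₂, e₁ * e₂, x}
  have hF : F.card = 5 := by
    have a4 : e₁ * e₂ ∉ ({x} : Finset X) := by
      simp only [Finset.mem_singleton]; exact fun h => hx4 h.symm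
    have a3 : e₂ ∉ ({e₁ * e₂, x} : Finset X) := by
      simp only [Finset.mem_insert, Finset.mem_singleton, not_or]
      exact ⟨fun h => h7 h.symm, fun h => hx3 h.symm⟩
    have a2 : e₁ ∉ ({e₂, e₁ * e₂, x} : Finset X) := by
      simp only [Finset.mem_insert, Finset.mem_singleton, not_or]
      exact ⟨h12, fun h => h6 h.symm, fun h => hx2 h.symm⟩
    have a1 : (1 : X) ∉ ({e₁, e₂, e₁ * e₂, x} : Finset X) := by
      simp only [Finset.mem_insert, Finset.mem_singleton, not_or]
      exact ⟨fun h => h10 h.symm, fun h => h20 h.symm, fun h => h5 h.symm, fun h => hx1 h.symm⟩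
    simp only [F]
    rw [Finset.card_insert_of_notMem a1, Finset.card_insert_of_notMem a2,
      Finset.card_insert_of_notMem a3, Finset.card_insert_of_notMem a4, Finset.card_singleton]
  have hsub : (F : Set X) ⊆ E := by
    intro y hy
    simp only [F, Finset.coe_insert, Finset.coe_singleton, Set.mem_insert_iff,
      Set.mem_singleton_iff] at hy
    rcases hy with rfl | rfl | rfl | rfl | rfl
    · exact E.one_mem
    · exact h1
    · exact h2
    · exact E.mul_mem h1 h2
    · exact hx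
  have hle : (F : Set X).ncard ≤ (E : Set X).ncard := Set.ncard_le_ncard hsub (Set.toFinite _)
  rw [Set.ncard_coe_finset, hF] at hle
  have h8 : (E : Set X).ncard = Nat.card E := (Nat.card_coe_set_eq _).symm
  omega

variable [Finite X] {A : Subgroup (MulAut X)}

/-- L5: involutions of normal invariant abelian subgroups are central. -/
theorem Setup.sq_one_central (S : Setup A) {M : Subgroup X} [hn : M.Normal] (hinv : Inv A M)
    (hab : Ab M) {e : X} (he : e ∈ M) (he2 : e ^ 2 = 1) : e ∈ center X := by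
  by_contra hnc
  set E := omega M hab with hE
  have hEn : E.Normal := omega_normal
  have hEinv : Inv A E := omega_inv hinv
  have hEab : Ab E := fun a ha b hb => hab a ha.1 b hb.1
  have hEsq : ∀ a ∈ E, a ^ 2 = 1 := fun a ha => ha.2
  have hcard := S.noE8 E hEn hEab hEsq
  have heE : e ∈ E := ⟨he, he2⟩
  have he1 : e ≠ 1 := by
    rintro rfl
    exact hnc (center X).one_mem
  have hEne : E ≠ ⊥ := by
    intro h
    rw [h, mem_bot] at heE
    exact he1 heE
  obtain ⟨e₃, he₃, he₃c, he₃o⟩ :=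
    Cfsg.Agent.Lib.PGroups.Basic.exists_central_orderOf_eq S.two E hEne
  have he₃1 : e₃ ≠ 1 := by
    rintro rfl
    rw [orderOf_one] at he₃o
    omega
  have hne : e ≠ e₃ := by
    rintro rfl
    exact hnc he₃c
  have hfour : ∀ x ∈ E, x = 1 ∨ x = e ∨ x = e₃ ∨ x = e * e₃ := fun x hx =>
    four hcard hEsq heE he₃ hx he1 he₃1 hne
  have he₃2 : e₃ * e₃ = 1 := by rw [← pow_two, ← he₃o]; exact pow_orderOf_eq_one e₃
  have hcen : ∀ g, g * e₃ = e₃ * g := mem_center_iff.mp he₃c
  set C := centralizer ({e} : Set X) with hC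
  have hmemC : ∀ g, g ∈ C ↔ g * e = e * g := fun g => mem_centralizer_singleton_iff
  have hconj : ∀ g, g ∉ C → g * e * g⁻¹ = e * e₃ := by
    intro g hg
    have h1 : g * e * g⁻¹ ∈ E := hEn.conj_mem e heE g
    rcases hfour _ h1 with h2 | h2 | h2 | h2
    · exfalso
      apply he1
      have : e = g⁻¹ * (g * e * g⁻¹) * g := by group
      rw [this, h2]
      group
    · exfalso
      apply hg
      rw [hmemC]
      have : g * e = g * e * g⁻¹ * g := by group
      rw [this, h2]
    · exfalso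
      apply hne
      calc e = g⁻¹ * (g * e * g⁻¹) * g := by group
        _ = g⁻¹ * e₃ * g := by rw [h2]
        _ = e₃ * g⁻¹ * g := by rw [hcen g⁻¹]
        _ = e₃ := by group
    · exact h2
  have hinvC : Inv A C := by
    intro φ hφ x hx
    rw [hmemC] at hx ⊢
    set e' := φ⁻¹ e with he'
    have hφe' : φ e' = e := by simp [he']
    have he'E : e' ∈ E := hEinv _ (A.inv_mem hφ) e heE
    have hcomm : x * e' = e' * x := by
      rcases hfour e' he'E with h2 | h2 | h2 | h2
      · rw [h2]; group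
      · rw [h2]; exact hx
      · exfalso
        apply hnc
        rw [← hφe', h2]
        exact center_inv A φ hφ _ he₃c
      · rw [h2, ← mul_assoc, hx, mul_assoc, hcen x, mul_assoc]
    calc φ x * e = φ x * φ e' := by rw [hφe']
      _ = φ (x * e') := (map_mul _ _ _).symm
      _ = φ (e' * x) := by rw [hcomm]
      _ = e * φ x := by rw [map_mul, hφe']
  have htop : C = ⊤ := by
    apply S.eq_top_of_inv hinvC
    intro a b ha hb
    rw [hmemC]
    have h1 := hconj a ha
    have h2 := hconj b hb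
    have h3 : a * b * e = a * (b * e * b⁻¹) * b := by group
    have h4 : a * (e * e₃) = (a * e * a⁻¹) * e₃ * a := by
      calc a * (e * e₃) = a * e * e₃ := by group
        _ = a * e * (a⁻¹ * a) * e₃ := by group
        _ = a * e * a⁻¹ * (a * e₃) := by group
        _ = a * e * a⁻¹ * (e₃ * a) := by rw [hcen a]
        _ = _ := by group
    rw [h3, h2, h4, h1]
    calc e * e₃ * e₃ * a * b = e * (e₃ * e₃) * a * b := by group
      _ = e * (a * b) := by rw [he₃2]; group
  apply hnc
  rw [mem_center_iff]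
  intro g
  have : g ∈ C := by rw [htop]; exact mem_top g
  exact (hmemC g).mp this

theorem Setup.mem_D_of (S : Setup A) {M : Subgroup X} [hn : M.Normal] (hinv : Inv A M)
    (hab : Ab M) {e : X} (he : e ∈ M) (he2 : e ^ 2 = 1) : e ∈ D X :=
  ⟨S.sq_one_central hinv hab he he2, he2⟩

theorem Setup.card_D (S : Setup A) : Nat.card (D X) ≤ 4 :=
  S.noE8 _ inferInstance D_ab (fun a ha => ha.2)

/-- L6: a coprime automorphism trivial on the involutions of an abelian subgroup is trivial on it. -/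
theorem Setup.fixed_of_omega (S : Setup A) {φ : MulAut X} (hφ : φ ∈ A) {M : Subgroup X}
    (hinv : ∀ x ∈ M, φ x ∈ M) (hab : Ab M) (h : ∀ m ∈ M, m ^ 2 = 1 → φ m = m) :
    ∀ m ∈ M, φ m = m := by
  have key : ∀ k : ℕ, ∀ m ∈ M, m ^ (2 ^ k) = 1 → φ m = m := by
    intro k
    induction k with
    | zero =>
      intro m _ h1
      rw [pow_zero, pow_one] at h1
      rw [h1, map_one]
    | succ k ih =>
      intro m hm h1
      have h2 : φ (m * m) = m * m := by
        apply ih _ (M.mul_mem hm hm)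
        rw [← pow_two, ← pow_mul, ← pow_succ']
        exact h1
      set d := m⁻¹ * φ m with hd
      have hdM : d ∈ M := M.mul_mem (M.inv_mem hm) (hinv m hm)
      have hcomm : φ m * m⁻¹ = m⁻¹ * φ m := hab _ (hinv m hm) _ (M.inv_mem hm)
      have hd2 : d ^ 2 = 1 := by
        rw [map_mul] at h2
        calc d ^ 2 = m⁻¹ * (φ m * m⁻¹) * φ m := by rw [hd, pow_two]; group
          _ = m⁻¹ * (m⁻¹ * φ m) * φ m := by rw [hcomm]
          _ = (m * m)⁻¹ * (φ m * φ m) := by group
          _ = 1 := by rw [h2]; group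
      have hd3 : φ d = d := h d hdM hd2
      have h3 : φ m = m * d := by rw [hd]; group
      have h4 := S.eq_one_of_shift hφ h3 hd3
      rw [h3, h4, mul_one]
  intro m hm
  obtain ⟨k, hk⟩ := (IsPGroup.iff_orderOf.mp S.two) m
  exact key k m hm (by rw [← hk]; exact pow_orderOf_eq_one m)

/-! ### The subgroup `K` -/

/-- `K/D = Ω₁Z(X/D)`. -/
def K (X : Type*) [Group X] : Subgroup X where
  carrier := {x | x ^ 2 ∈ D X ∧ ∀ y, ⁅x, y⁆ ∈ D X}
  one_mem' := ⟨by simpa using (D X).one_mem, fun y => by simpa using (D X).one_mem⟩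
  mul_mem' := by
    rintro a b ⟨ha, ha'⟩ ⟨hb, hb'⟩
    refine ⟨?_, fun y => ?_⟩
    · rw [sq_mul_central (hb' a).1]
      exact (D X).mul_mem ((D X).mul_mem ha hb) (hb' a)
    · rw [comm_mul_l (hb' y).1]
      exact (D X).mul_mem (ha' y) (hb' y)
  inv_mem' := by
    rintro a ⟨ha, ha'⟩
    refine ⟨by rw [inv_pow]; exact (D X).inv_mem ha, fun y => ?_⟩
    rw [comm_inv_l' (ha' y).1]
    exact (D X).inv_mem (ha' y)

theorem mem_K {x : X} : x ∈ K X ↔ x ^ 2 ∈ D X ∧ ∀ y, ⁅x, y⁆ ∈ D X := Iff.rfl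

theorem D_le_K : D X ≤ K X := by
  intro d hd
  refine ⟨(D X).pow_mem hd 2, fun y => ?_⟩
  have : ⁅d, y⁆ = 1 := by
    rw [commutatorElement_eq_one_iff_mul_comm]
    exact (mem_center_iff.mp hd.1 y).symm
  rw [this]
  exact (D X).one_mem

instance K_normal : (K X).Normal := by
  constructor
  intro x hx g
  rw [conj_eq_comm_mul]
  refine (K X).mul_mem (D_le_K ?_) hx
  have h : ⁅g, x⁆ = ⁅x, g⁆⁻¹ := (commutatorElement_inv x g).symm
  rw [h]
  exact (D X).inv_mem (hx.2 g)

theorem K_inv (A : Subgroup (MulAut X)) : Inv A (K X) := by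
  rintro φ hφ x ⟨h1, h2⟩
  refine ⟨?_, fun y => ?_⟩
  · rw [← map_pow]
    exact D_inv A φ hφ _ h1
  · have : ⁅φ x, y⁆ = φ ⁅x, φ⁻¹ y⁆ := by
      rw [comm_map]; simp
    rw [this]
    exact D_inv A φ hφ _ (h2 _)

theorem comm_sq_central {y x : X} (h : ⁅y, x⁆ ∈ center X) : ⁅y * y, x⁆ = ⁅y, x⁆ ^ 2 := by
  rw [comm_sq, mem_center_iff.mp h y, mul_inv_cancel_right, pow_two]

/-- All squares in `Z` force central commutators. -/
theorem comm_mem_of_sq {Z : Subgroup X} [hZ : Z.Normal] (h : ∀ x : X, x ^ 2 ∈ Z) (x y : X) :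
    ⁅x, y⁆ ∈ Z := by
  have h1 : ⁅x, y⁆ = (x * y) ^ 2 * (y⁻¹ * (x ^ 2)⁻¹ * y) * (y ^ 2)⁻¹ := by
    rw [pow_two, pow_two, pow_two, commutatorElement_def]; group
  rw [h1]
  refine Z.mul_mem (Z.mul_mem (h _) ?_) (Z.inv_mem (h _))
  have := hZ.conj_mem _ (Z.inv_mem (h x)) y⁻¹
  simpa using this

/-- The case of trivial action on `D`. -/
theorem Setup.triv (S : Setup A) (htriv : ∀ φ ∈ A, ∀ d ∈ D X, φ d = d) :
    center X = D X ∧ commutator X = D X ∧ ∀ x : X, x ^ 2 ∈ D X := by
  -- normal invariant abelian subgroups are fixed and central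
  have h1 : ∀ (M : Subgroup X), M.Normal → Inv A M → Ab M → ∀ φ ∈ A, ∀ m ∈ M, φ m = m := by
    intro M hn hinv hab φ hφ
    exact S.fixed_of_omega hφ (hinv φ hφ) hab fun m hm hm2 =>
      htriv φ hφ m (S.mem_D_of hinv hab hm hm2)
  have h2 : ∀ (M : Subgroup X), M.Normal → Inv A M → Ab M → ∀ m ∈ M, m ∈ center X := by
    intro M hn hinv hab m hm
    exact S.mem_center_of_fixed (h1 M hn hinv hab) hm
  have hZfix : ∀ φ ∈ A, ∀ z ∈ center X, φ z = z :=
    h1 (center X) inferInstance (center_inv A) center_ab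
  -- the centralizer of `K`
  set B := centralizer (K X : Set X) with hB
  have hBn : B.Normal := by rw [hB]; infer_instance
  have hBinv : Inv A B := by
    intro φ hφ x hx
    rw [hB, mem_centralizer_iff] at hx ⊢
    intro k hk
    have h3 := hx (φ⁻¹ k) (K_inv A _ (A.inv_mem hφ) k hk)
    have h4 := congrArg φ h3
    simpa using h4
  have hZB : center X ≤ B := by
    intro z hz
    rw [hB, mem_centralizer_iff]
    intro k _
    exact mem_center_iff.mp hz k
  have hKB : K X ⊓ B ≤ center X := by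
    have hn : (K X ⊓ B).Normal := inferInstance
    have hi : Inv A (K X ⊓ B) := fun φ hφ x hx =>
      ⟨K_inv A φ hφ x hx.1, hBinv φ hφ x hx.2⟩
    have ha : Ab (K X ⊓ B) := by
      intro a ha b hb
      exact (mem_centralizer_iff.mp hb.2) a ha.1
    exact fun m hm => h2 _ hn hi ha m hm
  -- B ≤ Z
  have hBZ : B ≤ center X := by
    by_contra hne
    obtain ⟨y₀, hy₀B, hy₀Z, hy₀c, hy₀s⟩ := exists_step S.two (center X) B hZB hne
    -- the subgroup Y
    let Y : Subgroup X :=
      { carrier := {y | y ∈ B ∧ y ^ 2 ∈ center X ∧ ∀ x, ⁅y, x⁆ ∈ center X}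
        one_mem' := ⟨B.one_mem, by simpa using (center X).one_mem,
          fun x => by simpa using (center X).one_mem⟩
        mul_mem' := by
          rintro a b ⟨ha, ha1, ha2⟩ ⟨hb, hb1, hb2⟩
          refine ⟨B.mul_mem ha hb, ?_, fun x => ?_⟩
          · rw [sq_mul_central (hb2 a)]
            exact (center X).mul_mem ((center X).mul_mem ha1 hb1) (hb2 a)
          · rw [comm_mul_l (hb2 x)]
            exact (center X).mul_mem (ha2 x) (hb2 x)
        inv_mem' := by
          rintro a ⟨ha, ha1, ha2⟩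
          refine ⟨B.inv_mem ha, by rw [inv_pow]; exact (center X).inv_mem ha1, fun x => ?_⟩
          rw [comm_inv_l' (ha2 x)]
          exact (center X).inv_mem (ha2 x) }
    have hmemY : ∀ y, y ∈ Y ↔ y ∈ B ∧ y ^ 2 ∈ center X ∧ ∀ x, ⁅y, x⁆ ∈ center X := fun y => Iff.rfl
    have hZY : center X ≤ Y := by
      intro z hz
      refine ⟨hZB hz, (center X).pow_mem hz 2, fun x => ?_⟩
      have : ⁅z, x⁆ = 1 := by
        rw [commutatorElement_eq_one_iff_mul_comm]
        exact (mem_center_iff.mp hz x).symm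
      rw [this]
      exact (center X).one_mem
    have hYn : Y.Normal := by
      constructor
      intro y hy g
      rw [conj_eq_comm_mul]
      refine Y.mul_mem (hZY ?_) hy
      have h : ⁅g, y⁆ = ⁅y, g⁆⁻¹ := (commutatorElement_inv y g).symm
      rw [h]
      exact (center X).inv_mem (hy.2.2 g)
    have hYinv : Inv A Y := by
      rintro φ hφ y ⟨h3, h4, h5⟩
      refine ⟨hBinv φ hφ y h3, ?_, fun x => ?_⟩
      · rw [← map_pow]
        exact center_inv A φ hφ _ h4
      · have : ⁅φ y, x⁆ = φ ⁅y, φ⁻¹ x⁆ := by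
          rw [comm_map]; simp
        rw [this]
        exact center_inv A φ hφ _ (h5 _)
    have hYD : ∀ y ∈ Y, ∀ x, ⁅y, x⁆ ∈ D X := by
      rintro y ⟨h3, h4, h5⟩ x
      refine ⟨h5 x, ?_⟩
      have h7 : ⁅y * y, x⁆ = 1 := by
        rw [commutatorElement_eq_one_iff_mul_comm, ← pow_two]
        exact (mem_center_iff.mp h4 x).symm
      rw [← comm_sq_central (h5 x), h7]
    have hfixY : ∀ φ ∈ A, ∀ y ∈ Y, φ y = y := by
      intro φ hφ y hy
      have hφy := hYinv φ hφ y hy
      set y₁ := y⁻¹ * φ y with hy₁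
      have hy₁Y : y₁ ∈ Y := Y.mul_mem (Y.inv_mem hy) hφy
      have hsq : y₁ ^ 2 ∈ D X := by
        have h3 := sq_mul_central (a := y⁻¹) (b := φ y) (hφy.2.2 _)
        have h4 : (φ y) ^ 2 = y ^ 2 := by
          rw [← map_pow]
          exact hZfix φ hφ _ hy.2.1
        rw [hy₁, h3, h4, inv_pow, inv_mul_cancel, one_mul]
        exact hYD _ hφy _
      have hy₁K : y₁ ∈ K X := ⟨hsq, hYD _ hy₁Y⟩
      have hy₁Z : y₁ ∈ center X := hKB ⟨hy₁K, hy₁Y.1⟩
      have h5 : φ y = y * y₁ := by rw [hy₁]; group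
      have h6 := S.eq_one_of_shift hφ h5 (hZfix φ hφ _ hy₁Z)
      rw [h5, h6, mul_one]
    have hy₀Y : y₀ ∈ Y := by
      refine ⟨hy₀B, ?_, hy₀c⟩
      rw [pow_two]; exact hy₀s
    exact hy₀Z (S.mem_center_of_fixed hfixY hy₀Y)
  -- squares are central
  have hsqZ : ∀ x : X, x ^ 2 ∈ center X := by
    intro x
    apply hBZ
    rw [hB, mem_centralizer_iff]
    intro k hk
    have h3 : ⁅k, x⁆ ∈ D X := hk.2 x
    have h4 : ⁅k, x * x⁆ = 1 := by
      rw [comm_mul_r h3.1, ← pow_two]
      exact h3.2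
    rw [commutatorElement_eq_one_iff_mul_comm] at h4
    rw [pow_two]
    exact h4
  have hcZ : ∀ x y : X, ⁅x, y⁆ ∈ center X := comm_mem_of_sq hsqZ
  have hcD : ∀ x y : X, ⁅x, y⁆ ∈ D X := by
    intro x y
    refine ⟨hcZ x y, ?_⟩
    have h7 : ⁅x * x, y⁆ = 1 := by
      rw [commutatorElement_eq_one_iff_mul_comm, ← pow_two]
      exact (mem_center_iff.mp (hsqZ x) y).symm
    rw [← comm_sq_central (hcZ x y), h7]
  have hcomm : commutator X ≤ D X := by
    rw [commutator_def, commutator_le]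
    intro a _ b _
    exact hcD a b
  have hZc : center X ≤ commutator X := by
    intro z hz
    apply S.mem_of_fixed_mod (commutator_inv A) le_rfl
    intro φ hφ
    rw [hZfix φ hφ z hz, inv_mul_cancel]
    exact (commutator X).one_mem
  have hZD : center X = D X := le_antisymm (hZc.trans hcomm) (fun d hd => hd.1)
  refine ⟨hZD, le_antisymm hcomm (by rw [← hZD]; exact hZc), fun x => ?_⟩
  rw [← hZD]
  exact hsqZ x

end Cfsg.Agent.Lib.NGP
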