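import Cfsg.Agent.Lib.NGP.Omega

/-!
# Nontrivial action on `D`: the rotation `φ`, and the abelian `K` case preliminaries.
-/

set_option autoImplicit false
set_option linter.unusedSectionVars false
set_option linter.unusedVariables false

namespace Cfsg.Agent.Lib.NGP

open Subgroup
open scoped commutatorElement

variable {X : Type*} [Group X] [Finite X] {A : Subgroup (MulAut X)}

/-- If `χ²` fixes `y`, so does `χ`, for `χ` of odd order. -/
theorem Setup.fix_of_sq (S : Setup A) {χ : MulAut X} (hχ : χ ∈ A) {y : X} (h : χ (χ y) = y) :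
    χ y = y := by
  obtain ⟨k, hk⟩ := S.odd_order hχ
  have h1 : ∀ i : ℕ, (χ ^ (2 * i)) y = y := by
    intro i
    induction i with
    | zero => simp
    | succ i ih =>
      have : 2 * (i + 1) = 2 + 2 * i := by ring
      rw [this, pow_add, MulAut.mul_apply, ih, pow_two, MulAut.mul_apply, h]
  have h2 : χ ^ (2 * (k + 1)) = χ := by
    have : 2 * (k + 1) = orderOf χ + 1 := by omega
    rw [this, pow_succ, pow_orderOf_eq_one, one_mul]
  rw [← h2]
  exact h1 _

/-- The properties of a rotation on `D`. -/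
structure Rot (A : Subgroup (MulAut X)) (φ : MulAut X) : Prop where
  S : Setup A
  hφ : φ ∈ A
  fpf : ∀ d ∈ D X, φ d = d → d = 1
  rot3 : ∀ d ∈ D X, φ (φ (φ d)) = d
  norm : ∀ d ∈ D X, d * φ d * φ (φ d) = 1
  types : ∀ ψ ∈ A, ∃ i : ℕ, ∀ d ∈ D X, ψ d = (φ ^ i) d
  card : Nat.card (D X) = 4
  cover : ∀ d ∈ D X, ∀ δ ∈ D X, δ ≠ 1 → d = 1 ∨ d = δ ∨ d = φ δ ∨ d = φ (φ δ)

theorem Setup.rot (S : Setup A) {φ : MulAut X} (hφ : φ ∈ A) {d₁ : X} (hd : d₁ ∈ D X)
    (hne : φ d₁ ≠ d₁) : Rot A φ := by
  have hd1 : d₁ ≠ 1 := by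
    rintro rfl
    exact hne (map_one φ)
  have hφD : ∀ d ∈ D X, φ d ∈ D X := D_inv A φ hφ
  have hexp : ∀ d ∈ D X, d * d = 1 := fun d hd => by rw [← pow_two]; exact hd.2
  have hab : ∀ a ∈ D X, ∀ b ∈ D X, a * b = b * a := D_ab
  set d₂ := φ d₁ with hd₂
  have hd₂D : d₂ ∈ D X := hφD _ hd
  have hd₂1 : d₂ ≠ 1 := by
    intro h
    apply hd1
    apply φ.injective
    rw [map_one]; exact h
  have hcD := S.card_D
  have hfour : ∀ x ∈ D X, x = 1 ∨ x = d₁ ∨ x = d₂ ∨ x = d₁ * d₂ := fun x hx =>
    four hcD (fun a ha => ha.2) hd hd₂D hx hd1 hd₂1 (Ne.symm hne)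
  have h3 : φ d₂ = d₁ * d₂ := by
    rcases hfour _ (hφD _ hd₂D) with h | h | h | h
    · exfalso
      apply hd₂1
      apply φ.injective
      rw [map_one]; exact h
    · exfalso
      exact hne (S.fix_of_sq hφ h)
    · exfalso
      apply hne
      exact (φ.injective h)
    · exact h
  have h4 : φ (d₁ * d₂) = d₁ := by
    rw [map_mul, h3, ← hd₂]
    rw [hab d₂ hd₂D (d₁ * d₂) ((D X).mul_mem hd hd₂D), mul_assoc, hexp _ hd₂D, mul_one]
  have hD12 : (D X).mul_mem hd hd₂D = (D X).mul_mem hd hd₂D := rfl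
  have hne12 : d₁ * d₂ ≠ 1 := by
    intro h
    apply hne
    have h6 := hexp _ hd
    exact mul_left_cancel (h.trans h6.symm)
  have hne13 : d₁ * d₂ ≠ d₁ := fun h => hd₂1 (mul_left_cancel (h.trans (mul_one d₁).symm))
  have hne23 : d₁ * d₂ ≠ d₂ := fun h => hd1 (mul_right_cancel (h.trans (one_mul d₂).symm))
  have hfix : ∀ d ∈ D X, φ d = d → d = 1 := by
    intro d hdD h
    rcases hfour d hdD with rfl | rfl | rfl | rfl
    · rfl
    · exact absurd h hne
    · exfalso
      rw [h3] at h
      exact hne23 h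
    · exfalso
      rw [h4] at h
      exact hne13 h.symm
  have hrot3 : ∀ d ∈ D X, φ (φ (φ d)) = d := by
    intro d hdD
    rcases hfour d hdD with rfl | rfl | rfl | rfl
    · simp
    · rw [← hd₂, h3, h4]
    · rw [h3, h4, ← hd₂]
    · rw [h4, ← hd₂, h3]
  have hnorm : ∀ d ∈ D X, d * φ d * φ (φ d) = 1 := by
    intro d hdD
    set e := d * φ d * φ (φ d) with he
    have heD : e ∈ D X := (D X).mul_mem ((D X).mul_mem hdD (hφD _ hdD)) (hφD _ (hφD _ hdD))
    apply hfix e heD
    rw [he, map_mul, map_mul, hrot3 d hdD]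
    rw [hab (φ d) (hφD _ hdD) (φ (φ d)) (hφD _ (hφD _ hdD))]
    rw [hab (φ (φ d) * φ d) ((D X).mul_mem (hφD _ (hφD _ hdD)) (hφD _ hdD)) d hdD, mul_assoc d,
      hab (φ (φ d)) (hφD _ (hφD _ hdD)) (φ d) (hφD _ hdD)]
  refine ⟨S, hφ, hfix, hrot3, hnorm, ?_, ?_, ?_⟩
  · -- the types
    intro ψ hψ
    have key : ∀ χ ∈ A, χ d₁ = d₁ → ∀ d ∈ D X, χ d = d := by
      intro χ hχ h1 d hdD
      have hχD := D_inv A χ hχ
      have h2 : χ d₂ = d₂ := by
        rcases hfour _ (hχD _ hd₂D) with h | h | h | h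
        · exfalso
          apply hd₂1
          apply χ.injective
          rw [map_one]; exact h
        · exfalso
          apply hne
          exact χ.injective (h.trans h1.symm)
        · exact h
        · apply S.fix_of_sq hχ
          rw [h, map_mul, h1, h, ← mul_assoc, hexp _ hd, one_mul]
      rcases hfour d hdD with rfl | rfl | rfl | rfl
      · simp
      · exact h1
      · exact h2
      · rw [map_mul, h1, h2]
    rcases hfour _ (D_inv A ψ hψ _ hd) with h | h | h | h
    · exfalso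
      apply hd1
      apply ψ.injective
      rw [map_one]; exact h
    · refine ⟨0, fun d hdD => ?_⟩
      simpa using key ψ hψ h d hdD
    · refine ⟨1, fun d hdD => ?_⟩
      have h5 := key (φ⁻¹ * ψ) (A.mul_mem (A.inv_mem hφ) hψ) (by
        rw [MulAut.mul_apply, h, hd₂]; simp) d hdD
      rw [MulAut.mul_apply] at h5
      rw [pow_one]
      have h6 := congrArg φ h5
      simpa using h6
    · refine ⟨2, fun d hdD => ?_⟩
      have h5 := key (φ⁻¹ * φ⁻¹ * ψ) (A.mul_mem (A.mul_mem (A.inv_mem hφ) (A.inv_mem hφ)) hψ) (by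
        rw [MulAut.mul_apply, MulAut.mul_apply, h, ← h3, hd₂]; simp) d hdD
      rw [MulAut.mul_apply, MulAut.mul_apply] at h5
      rw [pow_two, MulAut.mul_apply]
      have h6 := congrArg φ (congrArg φ h5)
      simpa using h6
  · -- the order of D
    apply le_antisymm hcD
    classical
    let F : Finset X := {1, d₁, d₂, d₁ * d₂}
    have hF : F.card = 4 := by
      have a3 : d₂ ∉ ({d₁ * d₂} : Finset X) := by
        simp only [Finset.mem_singleton]; exact fun h => hne23 h.symm
      have a2 : d₁ ∉ ({d₂, d₁ * d₂} : Finset X) := by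
        simp only [Finset.mem_insert, Finset.mem_singleton, not_or]
        exact ⟨Ne.symm hne, fun h => hne13 h.symm⟩
      have a1 : (1 : X) ∉ ({d₁, d₂, d₁ * d₂} : Finset X) := by
        simp only [Finset.mem_insert, Finset.mem_singleton, not_or]
        exact ⟨fun h => hd1 h.symm, fun h => hd₂1 h.symm, fun h => hne12 h.symm⟩
      simp only [F]
      rw [Finset.card_insert_of_notMem a1, Finset.card_insert_of_notMem a2,
        Finset.card_insert_of_notMem a3, Finset.card_singleton]
    have hsub : (F : Set X) ⊆ D X := by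
      intro y hy
      simp only [F, Finset.coe_insert, Finset.coe_singleton, Set.mem_insert_iff,
        Set.mem_singleton_iff] at hy
      rcases hy with rfl | rfl | rfl | rfl
      · exact (D X).one_mem
      · exact hd
      · exact hd₂D
      · exact (D X).mul_mem hd hd₂D
    have hle : (F : Set X).ncard ≤ ((D X : Subgroup X) : Set X).ncard :=
      Set.ncard_le_ncard hsub (Set.toFinite _)
    rw [Set.ncard_coe_finset, hF] at hle
    have h8 : ((D X : Subgroup X) : Set X).ncard = Nat.card (D X) := (Nat.card_coe_set_eq _).symm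
    omega
  · -- the cover
    intro d hdD δ hδ hδ1
    have hne' : δ ≠ φ δ := fun h => hδ1 (hfix δ hδ h.symm)
    have hφδ1 : φ δ ≠ 1 := by
      intro h
      apply hδ1
      apply φ.injective
      rw [map_one]; exact h
    rcases four hcD (fun a ha => ha.2) hδ (hφD _ hδ) hdD hδ1 hφδ1 hne' with h | h | h | h
    · exact Or.inl h
    · exact Or.inr (Or.inl h)
    · exact Or.inr (Or.inr (Or.inl h))
    · refine Or.inr (Or.inr (Or.inr ?_))
      rw [h]
      have h5 := hnorm δ hδ
      have h6 : δ * φ δ = (φ (φ δ))⁻¹ := eq_inv_of_mul_eq_one_left h5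
      rw [h6]
      have h7 := (hφD _ (hφD _ hδ)).2
      rw [pow_two] at h7
      exact inv_eq_of_mul_eq_one_left h7

namespace Rot

variable {φ : MulAut X} (R : Rot A φ)
include R

theorem mapD {d : X} (hd : d ∈ D X) : φ d ∈ D X := D_inv A φ R.hφ d hd

theorem exp {d : X} (hd : d ∈ D X) : d * d = 1 := by rw [← pow_two]; exact hd.2

theorem inv_eq {d : X} (hd : d ∈ D X) : d⁻¹ = d := inv_eq_of_mul_eq_one_left (R.exp hd)

/-- `K` normal invariant etc; anisotropy of the squaring map. -/
theorem anis {k : X} (hk : k ∈ K X) (hk2 : k ^ 2 = 1) : k ∈ D X := by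
  by_contra hkD
  have hkk : k * k ∈ D X := by
    rw [← pow_two, hk2]; exact (D X).one_mem
  have hcn : ∀ x, ⁅k, x⁆ ∈ D X := hk.2
  have hn := adj_normal (M := D X) (c := k) (hc := hkk) hcn
  have hk1 : k * k = 1 := by rw [← pow_two]; exact hk2
  have hrep : ∀ x ∈ adj (D X) k hkk, x ∈ D X ∨ ∃ d ∈ D X, x = k * d := by
    rintro x (hx | hx)
    · exact Or.inl hx
    · refine Or.inr ⟨k * x, hx, ?_⟩
      rw [← mul_assoc, hk1, one_mul]
  have hab : Ab (adj (D X) k hkk) := by
    intro a ha b hb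
    rcases hrep a ha with ha | ⟨d, hd, rfl⟩ <;> rcases hrep b hb with hb | ⟨d', hd', rfl⟩
    · exact D_ab a ha b hb
    · exact (D_central ha _).symm ▸ rfl
    · exact (D_central hb _)
    · calc k * d * (k * d') = k * (d * k) * d' := by group
        _ = k * (k * d) * d' := by rw [D_central hd k]
        _ = k * k * (d * d') := by group
        _ = k * k * (d' * d) := by rw [D_ab d hd d' hd']
        _ = k * (k * d') * d := by group
        _ = k * (d' * k) * d := by rw [D_central hd' k]
        _ = k * d' * (k * d) := by group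
  have hsq : ∀ a ∈ adj (D X) k hkk, a ^ 2 = 1 := by
    intro a ha
    rcases hrep a ha with ha | ⟨d, hd, rfl⟩
    · exact ha.2
    · have : Commute k d := (D_central hd k)
      rw [this.mul_pow, hk2, hd.2, one_mul]
  have hc4 := R.S.noE8 _ hn hab hsq
  have h := eq_of_le_of_card_ge (le_adj (M := D X) (c := k) (hc := hkk)) (by rw [R.card]; exact hc4)
  apply hkD
  rw [h]
  exact mem_adj_self

end Rot

end Cfsg.Agent.Lib.NGP
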