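import Cfsg.Agent.Lib.NGP.MaxM3

/-!
# Structure: `X` is special with centre `D`.
-/

set_option autoImplicit false
set_option linter.unusedSectionVars false
set_option linter.unusedVariables false

namespace Cfsg.Agent.Lib.NGP

open Subgroup
open scoped commutatorElement

variable {X : Type*} [Group X] [Finite X] {A : Subgroup (MulAut X)}

theorem Setup.nontriv (S : Setup A) (hna : ∃ a b : X, a * b ≠ b * a) {φ : MulAut X} (hφ : φ ∈ A)
    {d₁ : X} (hd : d₁ ∈ D X) (hne : φ d₁ ≠ d₁) :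
    center X = D X ∧ commutator X = D X ∧ ∀ x : X, x ^ 2 ∈ D X := by
  have R : Rot A φ := S.rot hφ hd hne
  set B := centralizer (K X : Set X) with hB
  haveI hBn : B.Normal := by rw [hB]; infer_instance
  have hmemB : ∀ g, g ∈ B ↔ ∀ k ∈ K X, ⁅k, g⁆ = 1 := by
    intro g
    rw [hB, mem_centralizer_iff]
    constructor
    · intro h1 k hk
      rw [commutatorElement_eq_one_iff_mul_comm]
      exact (h1 k hk)
    · intro h1 k hk
      have := h1 k hk
      rw [commutatorElement_eq_one_iff_mul_comm] at this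
      exact this
  have hBinv : Inv A B := by
    intro ψ hψ x hx
    rw [hB, mem_centralizer_iff] at hx ⊢
    intro k hk
    have h3 := hx (ψ⁻¹ k) (K_inv A _ (A.inv_mem hψ) k hk)
    have h4 := congrArg ψ h3
    simpa using h4
  have hDB : D X ≤ B := by
    intro d hd
    rw [hB, mem_centralizer_iff]
    intro k _
    exact D_central hd k
  by_cases hT : K X ⊓ B ≤ D X
  · -- `Z(K) = D`
    have hBD : B ≤ D X := by
      by_contra hne'
      obtain ⟨b, hb, hbD, hbc, hbs⟩ := exists_step S.two (D X) B hDB hne'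
      exact hbD (hT ⟨⟨by rw [pow_two]; exact hbs, hbc⟩, hb⟩)
    have hsq : ∀ x : X, x ^ 2 ∈ D X := by
      intro x
      apply hBD
      rw [hmemB]
      intro k hk
      rw [pow_two, comm_mul_r (hk.2 x).1, ← pow_two]
      exact (hk.2 x).2
    have hc : ∀ x y : X, ⁅x, y⁆ ∈ D X := comm_mem_of_sq hsq
    have hZ : center X = D X := by
      apply le_antisymm _ (fun d hd => hd.1)
      intro z hz
      apply hT
      refine ⟨⟨hsq z, hc z⟩, ?_⟩
      show z ∈ B
      rw [hB, mem_centralizer_iff]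
      intro k _
      exact mem_center_iff.mp hz k
    have hCD : commutator X ≤ D X := by
      rw [_root_.commutator_def, commutator_le]
      intro a _ b _
      exact hc a b
    refine ⟨hZ, le_antisymm hCD ?_, hsq⟩
    obtain ⟨a, b, hab⟩ := hna
    have hc1 : ⁅a, b⁆ ≠ 1 := fun h => hab ((commutatorElement_eq_one_iff_mul_comm).mp h)
    have hcc : ⁅a, b⁆ ∈ commutator X := commutator_mem_commutator (mem_top a) (mem_top b)
    intro d hd'
    have hci := commutator_inv A
    rcases R.cover d hd' _ (hc a b) hc1 with h | h | h | h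
    · rw [h]; exact (commutator X).one_mem
    · rw [h]; exact hcc
    · rw [h]; exact hci φ hφ _ hcc
    · rw [h]; exact hci φ hφ _ (hci φ hφ _ hcc)
  · exfalso
    -- a central element of K outside D
    obtain ⟨t, htT, htD⟩ := SetLike.not_le_iff_exists.mp hT
    have htK : t ∈ K X := htT.1
    set δ := t ^ 2 with hδ
    have hδD : δ ∈ D X := htK.1
    have hδ1 : δ ≠ 1 := fun h => htD (R.anis htK h)
    have hTinv : Inv A (K X ⊓ B) := fun ψ hψ x hx =>
      ⟨K_inv A ψ hψ x hx.1, hBinv ψ hψ x hx.2⟩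
    have ht₁ := hTinv φ hφ t htT
    have ht₂ := hTinv φ hφ _ ht₁
    have hs₁ : (φ t) ^ 2 = φ δ := by rw [hδ, map_pow]
    have hs₂ : (φ (φ t)) ^ 2 = φ (φ δ) := by rw [hδ, map_pow, map_pow]
    -- elements of K with the square of a central element are central
    have key : ∀ τ ∈ K X ⊓ B, ∀ k ∈ K X, k ^ 2 = τ ^ 2 → k ∈ K X ⊓ B := by
      intro τ hτ k hk h
      have hc : Commute k τ⁻¹ := by
        have h1 := (mem_centralizer_iff.mp hτ.2) k hk
        exact (show Commute k τ from h1).inv_right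
      have h2 : k * τ⁻¹ ∈ D X := by
        apply R.anis ((K X).mul_mem hk ((K X).inv_mem hτ.1))
        rw [hc.mul_pow, h, inv_pow, mul_inv_cancel]
      have h3 : k = k * τ⁻¹ * τ := by group
      rw [h3]
      exact (K X ⊓ B).mul_mem ⟨D_le_K h2, hDB h2⟩ hτ
    have hKB : K X ≤ K X ⊓ B := by
      intro k hk
      rcases R.cover _ hk.1 δ hδD hδ1 with h | h | h | h
      · have h1 := R.anis hk h
        exact ⟨D_le_K h1, hDB h1⟩
      · exact key t htT k hk h
      · exact key _ ht₁ k hk (by rw [h, hs₁])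
      · exact key _ ht₂ k hk (by rw [h, hs₂])
    have hKab : Ab (K X) := by
      intro a ha b hb
      exact (mem_centralizer_iff.mp (hKB hb).2) a ha
    have hH : CaseB A φ := by
      refine ⟨R, hKab, ?_, ⟨t, htK, htD⟩, hna⟩
      intro d hd'
      rcases R.cover d hd' δ hδD hδ1 with h | h | h | h
      · exact ⟨1, (K X).one_mem, by rw [h]; simp⟩
      · exact ⟨t, htK, h.symm⟩
      · exact ⟨φ t, ht₁.1, by rw [h, hs₁]⟩
      · exact ⟨φ (φ t), ht₂.1, by rw [h, hs₂]⟩
    obtain ⟨M, W⟩ := hH.exists_maxM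
    exact W.elim

/-- The structure theorem. -/
theorem Setup.main (S : Setup A) (hna : ∃ a b : X, a * b ≠ b * a) :
    center X = D X ∧ commutator X = D X ∧ ∀ x : X, x ^ 2 ∈ D X := by
  by_cases htriv : ∀ φ ∈ A, ∀ d ∈ D X, φ d = d
  · exact S.triv htriv
  · push Not at htriv
    obtain ⟨φ, hφ, d, hd, hne⟩ := htriv
    exact S.nontriv hna hφ hd hne

/-- `noE8` from the hypothesis of the statement. -/
theorem exists_self_centralizing (hX : IsPGroup 2 X) (N : Subgroup X) (hN : N.Normal) (hab : Ab N) :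
    ∃ M : Subgroup X, M.Normal ∧ centralizer (M : Set X) = M ∧ N ≤ M := by
  let s : Set (Subgroup X) := {M | M.Normal ∧ Ab M ∧ N ≤ M}
  have hK : N ∈ s := ⟨hN, hab, le_rfl⟩
  obtain ⟨M, hKM, hM⟩ := (Set.toFinite s).exists_le_maximal hK
  refine ⟨M, hM.1.1, ?_, hM.1.2.2⟩
  haveI hMn := hM.1.1
  have hMab := hM.1.2.1
  have hMC : M ≤ centralizer (M : Set X) := by
    intro m hm
    rw [mem_centralizer_iff]
    intro a ha
    exact hMab a ha m hm
  apply le_antisymm _ hMC
  by_contra hne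
  haveI hCn : (centralizer (M : Set X)).Normal := inferInstance
  obtain ⟨c, hc, hcM, hcc, hcs⟩ := exists_step hX M (centralizer (M : Set X)) hMC hne
  have hcm : ∀ m ∈ M, c * m = m * c := fun m hm => ((mem_centralizer_iff.mp hc) m hm).symm
  have hn := adj_normal (M := M) (c := c) (hc := hcs) hcc
  have hadj : Ab (adj M c hcs) := by
    have hrep : ∀ x ∈ adj M c hcs, x ∈ M ∨ ∃ m ∈ M, x = c⁻¹ * m := by
      rintro x (hx | hx)
      · exact Or.inl hx
      · exact Or.inr ⟨c * x, hx, by group⟩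
    have hcm' : ∀ m ∈ M, c⁻¹ * m = m * c⁻¹ := by
      intro m hm
      have : Commute c m := hcm m hm
      exact this.inv_left
    intro a ha b hb
    rcases hrep a ha with ha | ⟨d, hd, rfl⟩ <;> rcases hrep b hb with hb | ⟨d', hd', rfl⟩
    · exact hMab a ha b hb
    · calc a * (c⁻¹ * d') = (a * c⁻¹) * d' := by group
        _ = (c⁻¹ * a) * d' := by rw [hcm' a ha]
        _ = c⁻¹ * (a * d') := by group
        _ = c⁻¹ * (d' * a) := by rw [hMab a ha d' hd']
        _ = _ := by group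
    · calc c⁻¹ * d * b = c⁻¹ * (d * b) := by group
        _ = c⁻¹ * (b * d) := by rw [hMab d hd b hb]
        _ = (c⁻¹ * b) * d := by group
        _ = (b * c⁻¹) * d := by rw [hcm' b hb]
        _ = _ := by group
    · calc c⁻¹ * d * (c⁻¹ * d') = c⁻¹ * (d * c⁻¹) * d' := by group
        _ = c⁻¹ * (c⁻¹ * d) * d' := by rw [hcm' d hd]
        _ = c⁻¹ * c⁻¹ * (d * d') := by group
        _ = c⁻¹ * c⁻¹ * (d' * d) := by rw [hMab d hd d' hd']
        _ = c⁻¹ * (c⁻¹ * d') * d := by group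
        _ = c⁻¹ * (d' * c⁻¹) * d := by rw [hcm' d' hd']
        _ = _ := by group
  have hle := hM.2 (show adj M c hcs ∈ s from ⟨hn, hadj, hM.1.2.2.trans le_adj⟩) le_adj
  exact hcM (hle mem_adj_self)

theorem noE8_of_hscn (hX : IsPGroup 2 X)
    (hscn : ¬ ∃ A : Subgroup X, A.Normal ∧ Subgroup.centralizer (A : Set X) = A ∧
      ∃ E : Subgroup X, E ≤ A ∧ Cfsg.IsElementaryAbelian 2 E ∧ Nat.card E = 8)
    (N : Subgroup X) (hN : N.Normal) (hab : Ab N) (hsq : ∀ a ∈ N, a ^ 2 = 1) : Nat.card N ≤ 4 := by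
  by_contra hlt
  push Not at hlt
  obtain ⟨M, hMn, hMc, hNM⟩ := exists_self_centralizing hX N hN hab
  obtain ⟨k, hk⟩ : ∃ k, Nat.card N = 2 ^ k := by
    have : IsPGroup 2 N := hX.to_subgroup N
    exact this.exists_card_eq
  have hk3 : 3 ≤ k := by
    by_contra h
    have : k ≤ 2 := by omega
    have h2 : 2 ^ k ≤ 2 ^ 2 := Nat.pow_le_pow_right (by norm_num) this
    omega
  haveI : Fact (Nat.Prime 2) := ⟨Nat.prime_two⟩
  obtain ⟨E', hE'⟩ := Sylow.exists_subgroup_card_pow_prime (G := N) (n := 3) 2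
    (by rw [hk]; exact pow_dvd_pow 2 hk3)
  refine hscn ⟨M, hMn, hMc, E'.map N.subtype, ?_, ⟨?_, ?_⟩, ?_⟩
  · rintro _ ⟨e, -, rfl⟩
    exact hNM e.2
  · refine ⟨⟨?_⟩⟩
    rintro ⟨_, e, -, rfl⟩ ⟨_, f, -, rfl⟩
    exact Subtype.ext (hab _ e.2 _ f.2)
  · rintro _ ⟨e, -, rfl⟩
    exact hsq _ e.2
  · rw [Subgroup.card_map_of_injective N.subtype_injective, hE']
    norm_num

end Cfsg.Agent.Lib.NGP
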